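import Mathlib
import Cfsg.Prelude.Def_FusionSystem
import Cfsg.Agent.Lib.Helper4.SylowTwo
import Cfsg.Agent.Lib.Helper86.SimpleCrit

set_option autoImplicit false

namespace Cfsg.Agent.Lib.Helper86

open Cfsg

section
variable {G : Type*} [Group G]

/-- a nontrivial `2`-group contains an involution. -/
theorem exists_mem_orderOf_two_of_ne_bot {S T : Subgroup G} (hS : IsPGroup 2 S) (hTS : T ≤ S)
    (hT1 : T ≠ ⊥) : ∃ t ∈ T, orderOf t = 2 := by
  obtain ⟨y, hyT, hy1⟩ : ∃ y ∈ T, y ≠ 1 := by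
    by_contra hcon
    push Not at hcon
    exact hT1 ((Subgroup.eq_bot_iff_forall _).mpr hcon)
  obtain ⟨k, hk⟩ := (IsPGroup.iff_orderOf.mp hS) ⟨y, hTS hyT⟩
  have hk' : orderOf y = 2 ^ k := (Subgroup.orderOf_coe (⟨y, hTS hyT⟩ : S)).trans hk
  have hk0 : k ≠ 0 := by
    rintro rfl
    rw [pow_zero, orderOf_eq_one_iff] at hk'
    exact hy1 hk'
  obtain ⟨k', rfl⟩ : ∃ k', k = k' + 1 := ⟨k - 1, by omega⟩
  refine ⟨y ^ 2 ^ k', T.pow_mem hyT _, ?_⟩
  rw [orderOf_eq_prime_iff]
  refine ⟨?_, ?_⟩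
  · rw [← pow_mul, ← pow_succ, ← hk', pow_orderOf_eq_one]
  · intro h
    have := orderOf_dvd_of_pow_eq_one h
    rw [hk'] at this
    have := Nat.le_of_dvd (by positivity) this
    have : 2 ^ k' < 2 ^ (k' + 1) := Nat.pow_lt_pow_right (by norm_num) (by omega)
    omega

/-! ### semidihedral relations `r⁸ = 1`, `s² = 1`, `s r s⁻¹ = r³` -/

theorem sd_comm {r s : G} (hsr : s * r = r ^ 3 * s) (k : ℕ) : s * r ^ k = r ^ (3 * k) * s := by
  induction k with
  | zero => simp
  | succ k ih =>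
    rw [pow_succ, ← mul_assoc, ih, mul_assoc, hsr, ← mul_assoc, ← pow_add]
    congr 2

theorem sd_mul_mul {r s : G} (hs2 : s * s = 1) (hsr : s * r = r ^ 3 * s) (i k : ℕ) :
    (r ^ i * s) * (r ^ k * s) = r ^ (i + 3 * k) := by
  calc (r ^ i * s) * (r ^ k * s) = r ^ i * ((s * r ^ k) * s) := by simp only [mul_assoc]
    _ = r ^ i * ((r ^ (3 * k) * s) * s) := by rw [sd_comm hsr]
    _ = r ^ (i + 3 * k) := by rw [mul_assoc, hs2, mul_one, ← pow_add]

theorem sd_pow_four {r s : G} (hr8 : r ^ 8 = 1) (hs2 : s * s = 1) (hsr : s * r = r ^ 3 * s)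
    (i : ℕ) : (r ^ i * s) ^ 4 = 1 := by
  have : (r ^ i * s) ^ 4 = ((r ^ i * s) * (r ^ i * s)) * ((r ^ i * s) * (r ^ i * s)) := by
    rw [← pow_two, ← pow_two, ← pow_mul]
  rw [this, sd_mul_mul hs2 hsr, ← pow_add, show i + 3 * i + (i + 3 * i) = 8 * i by ring, pow_mul,
    hr8, one_pow]

theorem sd_closure {r s : G} (hr8 : r ^ 8 = 1) (hs2 : s * s = 1) (hsr : s * r = r ^ 3 * s) :
    ∀ x ∈ Subgroup.closure ({r, s} : Set G), ∃ i : ℕ, x = r ^ i ∨ x = r ^ i * s := by
  have hc := sd_comm hsr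
  have hsinv : s⁻¹ = s := inv_eq_of_mul_eq_one_left hs2
  have hrinv : ∀ i : ℕ, (r ^ i)⁻¹ = r ^ (7 * i) := by
    intro i
    apply inv_eq_of_mul_eq_one_right
    rw [← pow_add, show i + 7 * i = 8 * i by ring, pow_mul, hr8, one_pow]
  intro x hx
  induction hx using Subgroup.closure_induction with
  | mem y hy =>
    rcases hy with rfl | rfl
    · exact ⟨1, Or.inl (pow_one _).symm⟩
    · exact ⟨0, Or.inr (by simp)⟩
  | one => exact ⟨0, Or.inl (pow_zero _).symm⟩
  | mul a b _ _ iha ihb =>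
    obtain ⟨i, rfl | rfl⟩ := iha <;> obtain ⟨k, rfl | rfl⟩ := ihb
    · exact ⟨i + k, Or.inl (pow_add _ _ _).symm⟩
    · exact ⟨i + k, Or.inr (by rw [← mul_assoc, ← pow_add])⟩
    · exact ⟨i + 3 * k, Or.inr (by rw [mul_assoc, hc, ← mul_assoc, ← pow_add])⟩
    · exact ⟨i + 3 * k, Or.inl (sd_mul_mul hs2 hsr i k)⟩
  | inv a _ iha =>
    obtain ⟨i, rfl | rfl⟩ := iha
    · exact ⟨7 * i, Or.inl (hrinv i)⟩
    · refine ⟨3 * (7 * i), Or.inr ?_⟩
      rw [mul_inv_rev, hsinv, hrinv, hc]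

theorem sd_isPGroup {r s : G} (hr8 : r ^ 8 = 1) (hs2 : s * s = 1) (hsr : s * r = r ^ 3 * s) :
    IsPGroup 2 (Subgroup.closure ({r, s} : Set G)) := by
  rintro ⟨x, hx⟩
  refine ⟨3, ?_⟩
  apply Subtype.ext
  show x ^ 2 ^ 3 = 1
  obtain ⟨i, rfl | rfl⟩ := sd_closure hr8 hs2 hsr x hx
  · rw [← pow_mul, mul_comm, pow_mul]
    norm_num
    rw [hr8, one_pow]
  · have : (r ^ i * s) ^ 2 ^ 3 = ((r ^ i * s) ^ 4) ^ 2 := by rw [← pow_mul]; norm_num
    rw [this, sd_pow_four hr8 hs2 hsr, one_pow]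

/-- an element of `⟨r⟩` (`r` of order `8`) with square `1` is `1` or `r⁴`. -/
theorem sd_invol_of_mem_zpowers [Finite G] {r x : G} (hr8 : r ^ 8 = 1) (hord : orderOf r = 8)
    (hx : x ∈ Subgroup.zpowers r) (hx2 : x * x = 1) : x = 1 ∨ x = r ^ 4 := by
  obtain ⟨i, rfl⟩ := (Submonoid.mem_powers_iff _ _).mp (mem_powers_iff_mem_zpowers.mpr hx)
  have h8 : 8 ∣ 2 * i := by
    rw [← hord]
    apply orderOf_dvd_of_pow_eq_one
    rw [two_mul, pow_add]
    exact hx2
  obtain ⟨j, rfl⟩ : ∃ j, i = 4 * j := ⟨i / 4, by omega⟩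
  rcases Nat.even_or_odd' j with ⟨m, rfl | rfl⟩
  · left
    rw [show 4 * (2 * m) = 8 * m by ring, pow_mul, hr8, one_pow]
  · right
    rw [show 4 * (2 * m + 1) = 8 * m + 4 by ring, pow_add, pow_mul, hr8, one_pow, one_mul]

/-- simplicity of the `2`-fusion system of a finite group whose Sylow `2`-subgroup `S` is
semidihedral of order `16`, generated by `r, s ∈ S`, with all involutions conjugate to `r⁴` and
the element `r s` of order `4` conjugate to `r²`. -/
theorem isSimple_of_semidihedral_core [Finite G] (h32 : ¬ 32 ∣ Nat.card G) (S : Sylow 2 G)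
    {r s g h : G} (hrS : r ∈ (S : Subgroup G)) (hsS : s ∈ (S : Subgroup G))
    (hr8 : r ^ 8 = 1) (hr4 : r ^ 4 ≠ 1) (hs2 : s * s = 1) (hsr : s * r = r ^ 3 * s)
    (hs4 : s ≠ r ^ 4) (hs1 : s ≠ 1) (hg : g * s = r ^ 4 * g) (hh : h * (r * s) = r ^ 2 * h) :
    (Cfsg.groupFusionSystem (S : Subgroup G)).IsSimple 2 := by
  have hSp : IsPGroup 2 (S : Subgroup G) := S.isPGroup'
  have hord : orderOf r = 8 := orderOf_eq_prime_pow (p := 2) (n := 2) (by norm_num; exact hr4)
    (by norm_num; exact hr8)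
  have hc := sd_comm hsr
  have hsinv : s⁻¹ = s := inv_eq_of_mul_eq_one_left hs2
  have hsz : s ∉ Subgroup.zpowers r := by
    intro hmem
    rcases sd_invol_of_mem_zpowers hr8 hord hmem hs2 with h | h
    · exact hs1 h
    · exact hs4 h
  have hzS : Subgroup.zpowers r ≤ (S : Subgroup G) := Subgroup.zpowers_le.mpr hrS
  -- `⟨r⟩` has index two in `S`
  have hidx : ((Subgroup.zpowers r).subgroupOf (S : Subgroup G)).index = 2 := by
    have h1 := Subgroup.index_mul_card ((Subgroup.zpowers r).subgroupOf (S : Subgroup G))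
    have h2 : Nat.card ((Subgroup.zpowers r).subgroupOf (S : Subgroup G)) = 8 := by
      rw [Nat.card_congr (Subgroup.subgroupOfEquivOfLe hzS).toEquiv, Nat.card_zpowers, hord]
    rw [h2] at h1
    obtain ⟨k, hk⟩ := IsPGroup.iff_card.mp hSp
    have hk4 : k ≤ 4 := by
      by_contra hcon
      push Not at hcon
      apply h32
      have h3 : (2 : ℕ) ^ 5 ∣ 2 ^ k := pow_dvd_pow 2 hcon
      have h4 := Subgroup.card_subgroup_dvd_card (S : Subgroup G)
      rw [hk] at h4
      exact h3.trans h4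
    have hk16 : 2 ^ k ≤ 2 ^ 4 := Nat.pow_le_pow_right (by norm_num) hk4
    have hne1 : ((Subgroup.zpowers r).subgroupOf (S : Subgroup G)).index ≠ 1 := by
      intro hcon
      rw [Subgroup.index_eq_one, Subgroup.subgroupOf_eq_top] at hcon
      exact hsz (hcon hsS)
    have hpos : 0 < 2 ^ k := by positivity
    rw [hk] at h1
    omega
  have hmul : ∀ x ∈ (S : Subgroup G), ∀ y ∈ (S : Subgroup G), x ∉ Subgroup.zpowers r →
      y ∉ Subgroup.zpowers r → x * y ∈ Subgroup.zpowers r := by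
    intro x hx y hy hxz hyz
    have := (Subgroup.mul_mem_iff_of_index_two hidx (a := (⟨x, hx⟩ : (S : Subgroup G)))
      (b := ⟨y, hy⟩)).mpr ⟨fun h => absurd (Subgroup.mem_subgroupOf.mp h) hxz,
        fun h => absurd (Subgroup.mem_subgroupOf.mp h) hyz⟩
    exact Subgroup.mem_subgroupOf.mp this
  have hNF : ∀ x ∈ (S : Subgroup G), x ∉ Subgroup.zpowers r → ∃ i : ℕ, x = r ^ i * s := by
    intro x hx hxz
    have := hmul x hx s hsS hxz hsz
    obtain ⟨i, hi⟩ := (Submonoid.mem_powers_iff _ _).mp (mem_powers_iff_mem_zpowers.mpr this)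
    refine ⟨i, ?_⟩
    rw [hi, mul_assoc, hs2, mul_one]
  apply groupFusionSystem_isSimple_of_inner 2 S
  · intro hbot
    rw [hbot, Subgroup.mem_bot] at hsS
    exact hs1 hsS
  · intro T hTS hT1 hT
    obtain ⟨t, htT, ht2⟩ := exists_mem_orderOf_two_of_ne_bot hSp hTS hT1
    have htt : t * t = 1 := by
      have := pow_orderOf_eq_one t
      rw [ht2, pow_two] at this
      exact this
    have ht1 : t ≠ 1 := by
      rintro rfl
      rw [orderOf_one] at ht2
      omega
    have hgs : g * s * g⁻¹ = r ^ 4 := by rw [hg, mul_inv_cancel_right]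
    have hr4S : r ^ 4 ∈ (S : Subgroup G) := Subgroup.pow_mem _ hrS 4
    have hr4T : r ^ 4 ∈ T := by
      by_cases htz : t ∈ Subgroup.zpowers r
      · rcases sd_invol_of_mem_zpowers hr8 hord htz htt with h | h
        · exact absurd h ht1
        · rw [← h]; exact htT
      · obtain ⟨i, rfl⟩ := hNF t (hTS htT) htz
        rw [sd_mul_mul hs2 hsr] at htt
        have h8 : 8 ∣ i + 3 * i := by
          rw [← hord]; exact orderOf_dvd_of_pow_eq_one htt
        obtain ⟨m, rfl⟩ : ∃ m, i = 2 * m := ⟨i / 2, by omega⟩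
        have hconj : r ^ m * (r ^ (2 * m) * s) * (r ^ m)⁻¹ = s := by
          rw [mul_inv_eq_iff_eq_mul, hc m, ← mul_assoc, ← pow_add]
          congr 2
          ring
        have hsT : s ∈ T := by
          have := hT _ htT (r ^ m) (by rw [hconj]; exact hsS)
          rw [hconj] at this
          exact this
        have := hT _ hsT g (by rw [hgs]; exact hr4S)
        rw [hgs] at this
        exact this
    have hsT : s ∈ T := by
      have e : g⁻¹ * r ^ 4 * g⁻¹⁻¹ = s := by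
        rw [inv_inv, mul_assoc, ← hg, inv_mul_cancel_left]
      have := hT _ hr4T g⁻¹ (by rw [e]; exact hsS)
      rw [e] at this
      exact this
    have hr2sT : r ^ 2 * s ∈ T := by
      have e : r ^ 7 * s * (r ^ 7)⁻¹ = r ^ 2 * s := by
        rw [mul_inv_eq_iff_eq_mul, mul_assoc, hc 7, ← mul_assoc, ← pow_add]
        have : r ^ (2 + 3 * 7) = r ^ 7 := by
          rw [show 2 + 3 * 7 = 8 * 2 + 7 by norm_num, pow_add, pow_mul, hr8, one_pow, one_mul]
        rw [this]
      have := hT _ hsT (r ^ 7) (by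
        rw [e]; exact Subgroup.mul_mem _ (Subgroup.pow_mem _ hrS 2) hsS)
      rw [e] at this
      exact this
    have hr2T : r ^ 2 ∈ T := by
      have := T.mul_mem hr2sT (T.inv_mem hsT)
      rwa [mul_inv_cancel_right] at this
    have hrsT : r * s ∈ T := by
      have e : h⁻¹ * r ^ 2 * h⁻¹⁻¹ = r * s := by
        rw [inv_inv, mul_assoc, ← hh, inv_mul_cancel_left]
      have := hT _ hr2T h⁻¹ (by rw [e]; exact Subgroup.mul_mem _ hrS hsS)
      rw [e] at this
      exact this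
    have hrT : r ∈ T := by
      have := T.mul_mem hrsT (T.inv_mem hsT)
      rwa [mul_inv_cancel_right] at this
    apply le_antisymm hTS
    intro x hx
    by_cases hxz : x ∈ Subgroup.zpowers r
    · exact (Subgroup.zpowers_le.mpr hrT) hxz
    · obtain ⟨i, rfl⟩ := hNF x hx hxz
      exact T.mul_mem (T.pow_mem hrT i) hsT
  · intro n hn
    refine exists_inner_of_coprime_centralize S (fun n hn hcop =>
      conj_eq_self_of_odd_of_cyclic_index_two hSp hrS ?_ hmul hn hcop) hn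
    intro x hx hxz
    obtain ⟨i, rfl⟩ := hNF x hx hxz
    have h4 := orderOf_dvd_of_pow_eq_one (sd_pow_four hr8 hs2 hsr i)
    have := Nat.le_of_dvd (by norm_num) h4
    omega

/-- simplicity of the `2`-fusion system of a finite group with semidihedral Sylow `2`-subgroups
of order `16`, given by explicit elements and fusion. -/
theorem isSimple_of_semidihedral [Finite G] (h32 : ¬ 32 ∣ Nat.card G)
    {r s g h : G} (hr8 : r ^ 8 = 1) (hr4 : r ^ 4 ≠ 1) (hs2 : s * s = 1)
    (hsr : s * r = r ^ 3 * s) (hs4 : s ≠ r ^ 4) (hs1 : s ≠ 1) (hg : g * s = r ^ 4 * g)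
    (hh : h * (r * s) = r ^ 2 * h) (S : Sylow 2 G) :
    (Cfsg.groupFusionSystem (S : Subgroup G)).IsSimple 2 := by
  obtain ⟨P, hP⟩ := (sd_isPGroup hr8 hs2 hsr).exists_le_sylow
  obtain ⟨c, hc⟩ := MulAction.exists_smul_eq G P S
  have hmem : ∀ x ∈ Subgroup.closure ({r, s} : Set G), MulAut.conj c x ∈ (S : Subgroup G) := by
    intro x hx
    rw [← hc]
    show MulAut.conj c x ∈ c • P
    rw [Helper4.mem_sylow_smul_iff, MulAut.conj_apply]
    have e : c⁻¹ * (c * x * c⁻¹) * c = x := by group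
    rw [e]
    exact hP hx
  have hinj := (MulAut.conj c).injective
  apply isSimple_of_semidihedral_core h32 S (r := MulAut.conj c r) (s := MulAut.conj c s)
    (g := MulAut.conj c g) (h := MulAut.conj c h)
    (hmem r (Subgroup.subset_closure (by simp))) (hmem s (Subgroup.subset_closure (by simp)))
  · rw [← map_pow, hr8, map_one]
  · rw [← map_pow]
    exact fun h => hr4 (hinj (h.trans (map_one _).symm))
  · rw [← map_mul, hs2, map_one]
  · rw [← map_mul, hsr, map_mul, map_pow]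
  · rw [← map_pow]
    exact fun h => hs4 (hinj h)
  · exact fun h => hs1 (hinj (h.trans (map_one _).symm))
  · rw [← map_mul, hg, map_mul, map_pow]
  · rw [← map_mul, ← map_mul, hh, map_mul, map_pow]

end

end Cfsg.Agent.Lib.Helper86
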