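import Mathlib
import Cfsg.Agent.Lib.Helper86.QuotCrit

set_option autoImplicit false
set_option linter.style.haveILetI false
set_option linter.unusedSectionVars false
set_option linter.dupNamespace false
set_option linter.unusedVariables false

/-! # Simplicity criterion for the fusion system of a quotient by a subgroup of the Sylow
subgroup, and a criterion for odd index -/

namespace Cfsg.Agent.Lib.Helper86

section QuotKer

variable {H G : Type*} [Group H] [Group G] (p : ℕ) [Fact p.Prime] (π : H →* G)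

/-- **Simplicity criterion for quotients by a normal subgroup contained in the `p`-subgroup `U`
of `p'`-index.**  All the data are given upstairs. -/
theorem isSimple_of_quotient_ker_le [Finite H] [Finite G]
    (hπ : Function.Surjective π)
    (U : Subgroup H) (hUp : ∀ u ∈ U, ∃ a : ℕ, u ^ (p ^ a) = 1) (hidx : ¬ p ∣ U.index)
    (hker : ∀ z : H, π z = 1 → z ∈ U)
    (hU1 : ∃ u ∈ U, π u ≠ 1)
    (ha : ∀ T : Subgroup H, T ≤ U → (∀ z : H, π z = 1 → z ∈ T) → (∃ x ∈ T, π x ≠ 1) →
      (∀ x ∈ T, ∀ g : H, g * x * g⁻¹ ∈ U → g * x * g⁻¹ ∈ T) → T = U)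
    (gens : Set H) (hgen : Subgroup.normalizer (U : Set H) ≤ Subgroup.closure gens)
    (hgens : ∀ d ∈ gens, d ∈ Subgroup.normalizer (U : Set H) ∧
      ∃ R : Subgroup H, R ≤ U ∧ U ≤ Subgroup.normalizer (R : Set H) ∧
        (∀ g : H, (∀ a ∈ R, π (g * a) = π (a * g)) → g ∈ R) ∧
        d ∈ Subgroup.closure
          {m : H | m ∈ Subgroup.normalizer (R : Set H) ∧ ∃ a : ℕ, m ^ (p ^ a) = 1})
    (S : Sylow p G) : (Cfsg.groupFusionSystem (S : Subgroup G)).IsSimple p := by
  have hUpg : IsPGroup p U := fun u => by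
    obtain ⟨a, ha⟩ := hUp u u.2
    exact ⟨a, Subtype.ext (by rw [Subgroup.coe_pow]; exact ha)⟩
  let P : Sylow p G := (hUpg.map π).toSylow
    (fun h => hidx (h.trans (Subgroup.index_map_dvd _ hπ)))
  have hP : (P : Subgroup G) = U.map π := rfl
  -- membership in images of subgroups containing the kernel
  have hcomap : ∀ A : Subgroup H, (∀ z : H, π z = 1 → z ∈ A) →
      ∀ x : H, π x ∈ A.map π → x ∈ A := by
    intro A hA x hx
    obtain ⟨u, hu, hux⟩ := Subgroup.mem_map.1 hx
    have h1 : π (u⁻¹ * x) = 1 := by rw [map_mul, map_inv, hux, inv_mul_cancel]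
    have h2 := A.mul_mem hu (hA _ h1)
    rwa [mul_inv_cancel_left] at h2
  apply isSimple_of_sylow_gens p P ?_ ?_ ?_ S
  · -- the Sylow subgroup is nontrivial
    intro hbot
    rw [hP] at hbot
    obtain ⟨u, hu, hu1⟩ := hU1
    apply hu1
    have := Subgroup.mem_map_of_mem π hu
    rw [hbot, Subgroup.mem_bot] at this
    exact this
  · -- strongly closed subgroups
    intro T hTP hT hcl
    rw [hP] at hTP hcl ⊢
    have hTU : T.comap π ≤ U := fun x hx => hcomap U hker x (hTP hx)
    have h1 : T.comap π = U := by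
      refine ha _ hTU ?_ ?_ ?_
      · intro z hz
        show π z ∈ T
        rw [hz]
        exact T.one_mem
      · obtain ⟨⟨x, hxT⟩, hx1⟩ := Subgroup.ne_bot_iff_exists_ne_one.1 hT
        obtain ⟨u, rfl⟩ := hπ x
        exact ⟨u, hxT, fun h => hx1 (Subtype.ext h)⟩
      · intro x hx g hgx
        show π (g * x * g⁻¹) ∈ T
        rw [map_mul, map_mul, map_inv]
        apply hcl _ hx
        rw [← map_inv, ← map_mul, ← map_mul]
        exact Subgroup.mem_map_of_mem _ hgx
    rw [← h1, Subgroup.map_comap_eq_self_of_surjective hπ]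
  · -- generation of the normalizer
    intro x hx
    rw [hP] at hx ⊢
    obtain ⟨g, rfl⟩ := hπ x
    have hgN : g ∈ Subgroup.normalizer (U : Set H) := by
      apply mem_normalizer_of_finite
      intro u hu
      apply hcomap U hker
      rw [map_mul, map_mul, map_inv]
      exact (Subgroup.mem_normalizer_iff.1 hx _).1 (Subgroup.mem_map_of_mem _ hu)
    have hg := hgen hgN
    have h1 : π g ∈ (Subgroup.closure gens).map π := Subgroup.mem_map_of_mem _ hg
    rw [MonoidHom.map_closure] at h1
    refine Subgroup.closure_mono ?_ h1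
    rintro _ ⟨d, hd, rfl⟩
    obtain ⟨hdN, R, hRU, hUR, hRc, hdR⟩ := hgens d hd
    refine ⟨Subgroup.le_normalizer_map π (Subgroup.mem_map_of_mem _ hdN), R.map π,
      Subgroup.map_mono hRU, (Subgroup.map_mono hUR).trans (Subgroup.le_normalizer_map π), ?_, ?_⟩
    · intro y hy
      obtain ⟨g', rfl⟩ := hπ y
      refine Subgroup.mem_map_of_mem _ (hRc g' (fun a haR => ?_))
      rw [map_mul, map_mul]
      exact (Subgroup.mem_centralizer_iff.1 hy (π a) (Subgroup.mem_map_of_mem _ haR)).symm
    · have h2 : π d ∈ (Subgroup.closure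
          {m : H | m ∈ Subgroup.normalizer (R : Set H) ∧ ∃ a : ℕ, m ^ (p ^ a) = 1}).map π :=
        Subgroup.mem_map_of_mem _ hdR
      rw [MonoidHom.map_closure] at h2
      refine Subgroup.closure_mono ?_ h2
      rintro _ ⟨m, ⟨hmN, a, hma⟩, rfl⟩
      exact ⟨Subgroup.le_normalizer_map π (Subgroup.mem_map_of_mem _ hmN),
        orderOf_map_of_pow p π hma⟩

end QuotKer

/-- a `p`-subgroup containing all the elements of `p`-power order of its normalizer has index
prime to `p` -/
theorem not_dvd_index_of_normalizer {H : Type*} [Group H] [Finite H] (p : ℕ) [Fact p.Prime]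
    (U : Subgroup H) (hUp : ∀ u ∈ U, ∃ a : ℕ, u ^ (p ^ a) = 1)
    (hN : ∀ g ∈ Subgroup.normalizer (U : Set H), (∃ a : ℕ, g ^ (p ^ a) = 1) → g ∈ U) :
    ¬ p ∣ U.index := by
  have hUpg : IsPGroup p U := fun u => by
    obtain ⟨a, ha⟩ := hUp u u.2
    exact ⟨a, Subtype.ext (by rw [Subgroup.coe_pow]; exact ha)⟩
  obtain ⟨P, hUP⟩ := hUpg.exists_le_sylow
  have hPU : (P : Subgroup H) ≤ U := by
    by_contra hcon
    -- `U` is a proper subgroup of the `p`-group `P`, so its normalizer in `P` is larger
    have hnil : Group.IsNilpotent (P : Subgroup H) := P.isPGroup'.isNilpotent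
    have hlt : U.subgroupOf (P : Subgroup H) < ⊤ := by
      rw [lt_top_iff_ne_top]
      intro h
      apply hcon
      intro x hx
      have : (⟨x, hx⟩ : (P : Subgroup H)) ∈ U.subgroupOf (P : Subgroup H) := by
        rw [h]; exact Subgroup.mem_top _
      exact Subgroup.mem_subgroupOf.1 this
    have h2 := Group.normalizerCondition_of_isNilpotent (G := (P : Subgroup H)) _ hlt
    obtain ⟨g, hgN, hgU⟩ := SetLike.exists_of_lt h2
    apply hgU
    rw [Subgroup.mem_subgroupOf]
    apply hN
    · rw [Subgroup.mem_normalizer_iff]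
      intro u
      constructor
      · intro hu
        have h3 := (Subgroup.mem_normalizer_iff.1 hgN ⟨u, hUP hu⟩).1
          (Subgroup.mem_subgroupOf.2 hu)
        exact Subgroup.mem_subgroupOf.1 h3
      · intro hu
        have hu' : u ∈ (P : Subgroup H) := by
          have := hUP hu
          have e : u = (g : H)⁻¹ * ((g : H) * u * (g : H)⁻¹) * (g : H) := by group
          rw [e]
          exact (P : Subgroup H).mul_mem ((P : Subgroup H).mul_mem
            ((P : Subgroup H).inv_mem g.2) this) g.2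
        have h3 := (Subgroup.mem_normalizer_iff.1 hgN ⟨u, hu'⟩).2
          (Subgroup.mem_subgroupOf.2 hu)
        exact Subgroup.mem_subgroupOf.1 h3
    · obtain ⟨a, ha⟩ := P.isPGroup' g
      exact ⟨a, congrArg Subtype.val ha⟩
  have hUeq : U = (P : Subgroup H) := le_antisymm hUP hPU
  rw [hUeq]
  exact P.not_dvd_index

end Cfsg.Agent.Lib.Helper86
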