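import Mathlib
import Cfsg.Agent.Lib.Helper86.SL3Split

set_option autoImplicit false
set_option linter.style.haveILetI false
set_option linter.unusedSectionVars false
set_option linter.dupNamespace false
set_option linter.unusedVariables false
set_option linter.unusedSimpArgs false

/-! # The `2`-fusion system of `PSL_3(F)`, `|F| ≡ 3 (mod 4)`: semidihedral Sylow `2`-subgroups -/

namespace Cfsg.Agent.Lib.Helper86.SL3

open Matrix Cfsg.Agent.Lib.Helper86.Idx2

variable {F : Type*} [Field F]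

/-- a generator of the subgroup of given order of a finite cyclic group -/
theorem exists_gen_of_card {G : Type*} [Group G] [Finite G] [IsCyclic G] {N m : ℕ}
    (h : Nat.card G = N * m) (hm : 0 < m) :
    ∃ v : G, orderOf v = N ∧ ∀ z : G, z ^ N = 1 → z ∈ Subgroup.zpowers v := by
  obtain ⟨γ, hγ⟩ := IsCyclic.exists_generator (α := G)
  have ho : orderOf γ = N * m := by rw [orderOf_eq_card_of_forall_mem_zpowers hγ, h]
  have hN : 0 < N := by
    rcases Nat.eq_zero_or_pos N with h0 | h0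
    · rw [h0, zero_mul] at h; exact absurd h Nat.card_pos.ne'
    · exact h0
  refine ⟨γ ^ m, ?_, ?_⟩
  · rw [orderOf_pow_of_dvd hm.ne' (by rw [ho]; exact Dvd.intro_left _ rfl), ho,
      Nat.mul_div_cancel _ hm]
  · intro z hz
    obtain ⟨i, rfl⟩ := (Submonoid.mem_powers_iff _ _).1 (mem_powers_iff_mem_zpowers.2 (hγ z))
    rw [← pow_mul] at hz
    have h1 := orderOf_dvd_of_pow_eq_one hz
    rw [ho] at h1
    have h2 : m ∣ i := by
      have : N * m ∣ N * i := by rwa [mul_comm i N] at h1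
      exact Nat.dvd_of_mul_dvd_mul_left hN this
    obtain ⟨i', rfl⟩ := h2
    rw [pow_mul]
    exact Subgroup.pow_mem _ (Subgroup.mem_zpowers _) _

/-! ### matrices -/

/-- the matrix of multiplication by `x + y i` -/
def R3 (x y e : F) : Matrix (Fin 3) (Fin 3) F := !![x, -y, 0; y, x, 0; 0, 0, e]

/-- conjugating matrix for the elements of order four -/
def G4 (a b : F) : Matrix (Fin 3) (Fin 3) F := !![1, a, 0; 0, b, 0; 0, 0, b⁻¹]

theorem det_R3 (x y e : F) : (R3 x y e).det = (x ^ 2 + y ^ 2) * e := by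
  unfold R3; rw [det3]; ring

theorem det_G4 (a : F) {b : F} (hb : b ≠ 0) : (G4 a b).det = 1 := by
  unfold G4; rw [det3]; field_simp; ring

theorem R3_congr {x y e x' y' e' : F} (h1 : x = x') (h2 : y = y') (h3 : e = e') :
    R3 x y e = R3 x' y' e' := by subst_vars; rfl

theorem R3_mul (x y e x' y' e' : F) :
    R3 x y e * R3 x' y' e' = R3 (x * x' - y * y') (x * y' + y * x') (e * e') := by
  unfold R3; rw [Matrix.mul_fin_three]; apply m3_ext <;> ring

theorem R3_one : R3 (1 : F) 0 1 = 1 := by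
  unfold R3; rw [Matrix.one_fin_three]; apply m3_ext <;> ring

theorem R3_eq_D3 (x e : F) : R3 x 0 e = D3 x x e := by
  unfold R3 D3; apply m3_ext <;> ring

theorem f_R3 (x y e : F) : D3 1 (-1) (-1) * R3 x y e = R3 x (-y) e * D3 1 (-1) (-1) := by
  unfold R3 D3; rw [Matrix.mul_fin_three, Matrix.mul_fin_three]; apply m3_ext <;> ring

theorem Rf_sq (x y e : F) :
    (R3 x y e * D3 1 (-1) (-1)) * (R3 x y e * D3 1 (-1) (-1))
      = D3 (x ^ 2 + y ^ 2) (x ^ 2 + y ^ 2) (e * e) := by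
  unfold R3 D3; rw [Matrix.mul_fin_three, Matrix.mul_fin_three]; apply m3_ext <;> ring

theorem G4_mul {a b : F} (hab : a ^ 2 + b ^ 2 = -1) (hb : b ≠ 0) :
    G4 a b * R3 0 1 1 = (R3 a b (-1) * D3 1 (-1) (-1)) * G4 a b := by
  unfold G4 R3 D3
  rw [Matrix.mul_fin_three, Matrix.mul_fin_three, Matrix.mul_fin_three]
  apply m3_ext <;> first | ring1 | linear_combination (-1 : F) * hab

theorem v3_f : v3 F * D3 1 (-1) (-1) = D3 (-1) (-1) 1 * v3 F := v3_D3 1 (-1) (-1)

/-! ### the quadratic extension -/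

section Quad

open QuadraticAlgebra

/-- the quadratic extension `F[i]` -/
abbrev Lq (F : Type*) [Field F] := QuadraticAlgebra F (-1 : F) 0

/-- the norm -/
def nm (z : Lq F) : F := z.re ^ 2 + z.im ^ 2

theorem nm_mul (z w : Lq F) : nm (z * w) = nm z * nm w := by
  unfold nm
  rw [QuadraticAlgebra.re_mul, QuadraticAlgebra.im_mul]
  ring

theorem nm_one : nm (1 : Lq F) = 1 := by
  unfold nm
  rw [QuadraticAlgebra.re_one, QuadraticAlgebra.im_one]
  ring

theorem nm_neg (z : Lq F) : nm (-z) = nm z := by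
  unfold nm
  rw [QuadraticAlgebra.re_neg, QuadraticAlgebra.im_neg]
  ring

theorem nm_ne_zero (z : (Lq F)ˣ) : nm (z : Lq F) ≠ 0 := by
  intro h
  have h1 : nm ((z : Lq F) * ((z⁻¹ : (Lq F)ˣ) : Lq F)) = 1 := by
    rw [← Units.val_mul, mul_inv_cancel, Units.val_one, nm_one]
  rw [nm_mul, h, zero_mul] at h1
  exact zero_ne_one h1

/-- the norm as a homomorphism -/
def nmHom : (Lq F)ˣ →* F where
  toFun z := nm (z : Lq F)
  map_one' := nm_one
  map_mul' z w := nm_mul _ _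

/-- the torus element of a unit of the quadratic extension -/
def rho : (Lq F)ˣ →* SL3 F where
  toFun z := ⟨R3 (z : Lq F).re (z : Lq F).im (nm (z : Lq F))⁻¹, by
    rw [det_R3]; exact mul_inv_cancel₀ (nm_ne_zero z)⟩
  map_one' := by
    apply Subtype.ext
    show R3 ((1 : (Lq F)ˣ) : Lq F).re ((1 : (Lq F)ˣ) : Lq F).im (nm ((1 : (Lq F)ˣ) : Lq F))⁻¹ = 1
    rw [Units.val_one, nm_one, inv_one, QuadraticAlgebra.re_one, QuadraticAlgebra.im_one, R3_one]
  map_mul' z w := by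
    apply Subtype.ext
    show R3 ((z * w : (Lq F)ˣ) : Lq F).re ((z * w : (Lq F)ˣ) : Lq F).im
        (nm ((z * w : (Lq F)ˣ) : Lq F))⁻¹
      = R3 (z : Lq F).re (z : Lq F).im (nm (z : Lq F))⁻¹
        * R3 (w : Lq F).re (w : Lq F).im (nm (w : Lq F))⁻¹
    rw [R3_mul, Units.val_mul, nm_mul, QuadraticAlgebra.re_mul, QuadraticAlgebra.im_mul]
    apply R3_congr
    · ring
    · ring
    · rw [mul_inv]

theorem rho_val (z : (Lq F)ˣ) :
    (rho z).1 = R3 (z : Lq F).re (z : Lq F).im (nm (z : Lq F))⁻¹ := rfl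

theorem rho_injective : Function.Injective (rho : (Lq F)ˣ → SL3 F) := by
  intro z w h
  have h0 := congrArg (fun M : SL3 F => M.1 0 0) h
  have h1 := congrArg (fun M : SL3 F => M.1 1 0) h
  exact Units.ext (QuadraticAlgebra.ext h0 h1)

/-- conjugation, as a monoid homomorphism -/
def cjM : Lq F →* Lq F where
  toFun z := ⟨z.re, -z.im⟩
  map_one' := by
    apply QuadraticAlgebra.ext
    · rfl
    · show -(0 : F) = 0
      exact neg_zero
  map_mul' z w := by
    apply QuadraticAlgebra.ext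
    · show (z * w).re = z.re * w.re + (-1) * (-z.im) * (-w.im)
      rw [QuadraticAlgebra.re_mul]; ring
    · show -(z * w).im = z.re * (-w.im) + (-z.im) * w.re + 0 * (-z.im) * (-w.im)
      rw [QuadraticAlgebra.im_mul]; ring

/-- conjugation on units -/
def cjHom : (Lq F)ˣ →* (Lq F)ˣ := Units.map cjM

theorem cj_re (z : (Lq F)ˣ) : ((cjHom z : (Lq F)ˣ) : Lq F).re = (z : Lq F).re := rfl

theorem cj_im (z : (Lq F)ˣ) : ((cjHom z : (Lq F)ˣ) : Lq F).im = -(z : Lq F).im := rfl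

theorem nm_cj (z : (Lq F)ˣ) : nm ((cjHom z : (Lq F)ˣ) : Lq F) = nm (z : Lq F) := by
  unfold nm; rw [cj_re, cj_im]; ring

/-- the involution inverting the torus modulo scalars -/
def fS (F : Type*) [Field F] : SL3 F := ⟨D3 1 (-1) (-1), by rw [det_D3]; ring⟩

theorem fS_mul : fS F * fS F = 1 := by
  apply Subtype.ext
  show D3 (1 : F) (-1) (-1) * D3 1 (-1) (-1) = 1
  rw [D3_mul, ← D3_one]
  apply D3_congr <;> ring

theorem fS_rho' (z : (Lq F)ˣ) : fS F * rho z = rho (cjHom z) * fS F := by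
  apply Subtype.ext
  show D3 (1 : F) (-1) (-1) * R3 (z : Lq F).re (z : Lq F).im (nm (z : Lq F))⁻¹
    = R3 ((cjHom z : (Lq F)ˣ) : Lq F).re ((cjHom z : (Lq F)ˣ) : Lq F).im
      (nm ((cjHom z : (Lq F)ˣ) : Lq F))⁻¹ * D3 1 (-1) (-1)
  rw [f_R3, nm_cj, cj_re, cj_im]

theorem fS_rho (z : (Lq F)ˣ) : fS F * rho z * fS F = rho (cjHom z) := by
  rw [fS_rho', mul_assoc, fS_mul, mul_one]

theorem rf_sq_val (z : (Lq F)ˣ) :
    ((rho z * fS F) * (rho z * fS F)).1
      = D3 (nm (z : Lq F)) (nm (z : Lq F)) ((nm (z : Lq F))⁻¹ * (nm (z : Lq F))⁻¹) := by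
  show (R3 (z : Lq F).re (z : Lq F).im (nm (z : Lq F))⁻¹ * D3 1 (-1) (-1))
    * (R3 (z : Lq F).re (z : Lq F).im (nm (z : Lq F))⁻¹ * D3 1 (-1) (-1)) = _
  rw [Rf_sq]
  rfl

theorem rho_neg_one_val : (rho (-1 : (Lq F)ˣ)).1 = D3 (-1 : F) (-1) 1 := by
  rw [rho_val, Units.val_neg, Units.val_one, nm_neg, nm_one, inv_one, QuadraticAlgebra.re_neg,
    QuadraticAlgebra.im_neg, QuadraticAlgebra.re_one, QuadraticAlgebra.im_one, neg_zero, R3_eq_D3]

theorem rf_sq_one {z : (Lq F)ˣ} (h : nm (z : Lq F) = 1) : (rho z * fS F) * (rho z * fS F) = 1 := by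
  apply Subtype.ext
  rw [rf_sq_val, h, inv_one, mul_one, D3_one]
  rfl

theorem rf_sq_neg {z : (Lq F)ˣ} (h : nm (z : Lq F) = -1) :
    (rho z * fS F) * (rho z * fS F) = rho (-1) := by
  apply Subtype.ext
  rw [rf_sq_val, h, rho_neg_one_val]
  apply D3_congr rfl rfl
  rw [inv_neg, inv_one]; ring

theorem nm_of_rf_sq {z : (Lq F)ˣ} (h : (rho z * fS F) * (rho z * fS F) = 1) :
    nm (z : Lq F) = 1 := by
  have h1 : ((rho z * fS F) * (rho z * fS F)).1 0 0 = (1 : SL3 F).1 0 0 := by rw [h]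
  rw [rf_sq_val] at h1
  exact h1

theorem vS_fS : vS F * fS F * (vS F)⁻¹ = rho (-1) := by
  rw [mul_inv_eq_iff_eq_mul]
  apply Subtype.ext
  show v3 F * D3 1 (-1) (-1) = (rho (-1 : (Lq F)ˣ)).1 * v3 F
  rw [rho_neg_one_val, v3_f]

theorem neg_one_not_sq [Fintype F] (hq : Fintype.card F % 4 = 3) :
    ∀ r : F, r ^ 2 ≠ (-1 : F) + 0 * r := by
  intro r hr
  have h1 : IsSquare (-1 : F) := ⟨r, by rw [← pow_two, hr]; ring⟩
  exact (FiniteField.isSquare_neg_one_iff.1 h1) hq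

/-- the unit `i` -/
def iU (F : Type*) [Field F] : (Lq F)ˣ where
  val := ⟨0, 1⟩
  inv := ⟨0, -1⟩
  val_inv := by
    apply QuadraticAlgebra.ext
    · show (0 : F) * 0 + (-1) * 1 * (-1) = 1
      ring
    · show (0 : F) * (-1) + 1 * 0 + 0 * 1 * (-1) = 0
      ring
  inv_val := by
    apply QuadraticAlgebra.ext
    · show (0 : F) * 0 + (-1) * (-1) * 1 = 1
      ring
    · show (0 : F) * 1 + (-1) * 0 + 0 * (-1) * 1 = 0
      ring

theorem iU_re : ((iU F : (Lq F)ˣ) : Lq F).re = 0 := rfl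

theorem iU_im : ((iU F : (Lq F)ˣ) : Lq F).im = 1 := rfl

theorem nm_iU : nm ((iU F : (Lq F)ˣ) : Lq F) = 1 := by
  unfold nm; rw [iU_re, iU_im]; ring

theorem rho_iU_val : (rho (iU F)).1 = R3 (0 : F) 1 1 := by
  rw [rho_val, nm_iU, inv_one, iU_re, iU_im]

theorem iU_pow_four : (iU F) ^ 4 = 1 := by
  apply Units.ext
  rw [Units.val_pow_eq_pow_val, Units.val_one]
  apply QuadraticAlgebra.ext
  · show ((⟨0, 1⟩ : Lq F) ^ 4).re = 1
    rw [show (4 : ℕ) = 2 + 2 from rfl, pow_add, pow_two]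
    show ((0 : F) * 0 + (-1) * 1 * 1) * ((0 : F) * 0 + (-1) * 1 * 1)
      + (-1) * ((0 : F) * 1 + 1 * 0 + 0 * 1 * 1) * ((0 : F) * 1 + 1 * 0 + 0 * 1 * 1) = 1
    ring
  · show ((⟨0, 1⟩ : Lq F) ^ 4).im = 0
    rw [show (4 : ℕ) = 2 + 2 from rfl, pow_add, pow_two]
    show ((0 : F) * 0 + (-1) * 1 * 1) * ((0 : F) * 1 + 1 * 0 + 0 * 1 * 1)
      + ((0 : F) * 1 + 1 * 0 + 0 * 1 * 1) * ((0 : F) * 0 + (-1) * 1 * 1)
      + 0 * ((0 : F) * 1 + 1 * 0 + 0 * 1 * 1) * ((0 : F) * 1 + 1 * 0 + 0 * 1 * 1) = 0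
    ring

section Fld

variable [Fact (∀ r : F, r ^ 2 ≠ (-1 : F) + 0 * r)]

/-- Hilbert 90 for the quadratic extension -/
theorem exists_hilbert {z : (Lq F)ˣ} (hz : nm (z : Lq F) = 1) :
    ∃ y : (Lq F)ˣ, y * z = cjHom y := by
  unfold nm at hz
  by_cases h : (1 : Lq F) + cjM (z : Lq F) = 0
  · refine ⟨iU F, ?_⟩
    have h0 : (1 : F) + (z : Lq F).re = 0 := congrArg QuadraticAlgebra.re h
    have h1 : (0 : F) + -(z : Lq F).im = 0 := congrArg QuadraticAlgebra.im h
    apply Units.ext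
    apply QuadraticAlgebra.ext
    · show (0 : F) * (z : Lq F).re + (-1) * 1 * (z : Lq F).im = 0
      linear_combination h1
    · show (0 : F) * (z : Lq F).im + 1 * (z : Lq F).re + 0 * 1 * (z : Lq F).im = -1
      linear_combination h0
  · refine ⟨Units.mk0 _ h, ?_⟩
    apply Units.ext
    apply QuadraticAlgebra.ext
    · show ((1 : F) + (z : Lq F).re) * (z : Lq F).re + (-1) * ((0 : F) + -(z : Lq F).im)
        * (z : Lq F).im = (1 : F) + (z : Lq F).re
      linear_combination hz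
    · show ((1 : F) + (z : Lq F).re) * (z : Lq F).im + ((0 : F) + -(z : Lq F).im) * (z : Lq F).re
        + 0 * ((0 : F) + -(z : Lq F).im) * (z : Lq F).im = -((0 : F) + -(z : Lq F).im)
      ring

theorem exists_conj_rf {z : (Lq F)ˣ} (hz : nm (z : Lq F) = 1) :
    ∃ g : SL3 F, g * (rho z * fS F) * g⁻¹ = rho (-1) := by
  obtain ⟨y, hy⟩ := exists_hilbert hz
  refine ⟨vS F * rho y, ?_⟩
  have e1 : fS F * (rho y)⁻¹ = (rho (cjHom y))⁻¹ * fS F := by
    rw [eq_inv_mul_iff_mul_eq, ← mul_assoc, ← fS_rho', mul_assoc, mul_inv_cancel, mul_one]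
  have e2 : rho y * (rho z * fS F) * (rho y)⁻¹ = fS F := by
    calc rho y * (rho z * fS F) * (rho y)⁻¹ = (rho y * rho z) * (fS F * (rho y)⁻¹) := by group
      _ = fS F := by rw [e1, ← map_mul, hy, mul_inv_cancel_left]
  calc vS F * rho y * (rho z * fS F) * (vS F * rho y)⁻¹
      = vS F * (rho y * (rho z * fS F) * (rho y)⁻¹) * (vS F)⁻¹ := by group
    _ = rho (-1) := by rw [e2, vS_fS]

theorem rho_sq_one {z : (Lq F)ˣ} (h : rho z * rho z = 1) : z = 1 ∨ z = -1 := by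
  rw [← map_mul, ← map_one rho] at h
  exact unit_sq_one z (rho_injective h)

end Fld

/-- the norm of an element of `2`-power order -/
theorem nm_pm [Fintype F] {n m : ℕ} (hn : Fintype.card F = n + 1) (hnm : n = 2 * m)
    (hm : m % 2 = 1) {z : (Lq F)ˣ} {e : ℕ} (hz : z ^ (2 ^ (e + 1)) = 1) :
    nm (z : Lq F) = 1 ∨ nm (z : Lq F) = -1 := by
  have h1 : nm (z : Lq F) ^ (2 ^ (e + 1)) = 1 := by
    have := congrArg nmHom hz
    rw [map_pow, map_one] at this
    exact this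
  have h2 : nm (z : Lq F) ^ n = 1 := by
    have := FiniteField.pow_card_sub_one_eq_one (nm (z : Lq F)) (nm_ne_zero z)
    rwa [hn, Nat.add_sub_cancel] at this
  have h3 := pow_gcd_eq_one.2 ⟨h1, h2⟩
  have h4 : Nat.gcd (2 ^ (e + 1)) n = 2 := by
    rw [hnm, pow_succ', Nat.gcd_mul_left]
    have : Nat.Coprime (2 ^ e) m :=
      Nat.Coprime.pow_left e ((Nat.Prime.coprime_iff_not_dvd Nat.prime_two).2 (by omega))
    rw [this, mul_one]
  rw [h4, pow_two] at h3
  exact mul_self_eq_one_iff.1 h3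

/-- **The `2`-fusion system of `PSL_3(F)` is simple, `|F| ≡ 3 (mod 4)`.** -/
theorem psl3_nonsplit [Fintype F] (hq : Fintype.card F % 4 = 3)
    (S : Sylow 2 (Matrix.ProjectiveSpecialLinearGroup (Fin 3) F)) :
    (Cfsg.groupFusionSystem
      (S : Subgroup (Matrix.ProjectiveSpecialLinearGroup (Fin 3) F))).IsSimple 2 := by
  classical
  have hneg := neg_one_not_sq hq
  haveI : Fact (∀ r : F, r ^ 2 ≠ (-1 : F) + 0 * r) := ⟨hneg⟩
  obtain ⟨n, hn⟩ : ∃ n, Fintype.card F = n + 1 := ⟨Fintype.card F - 1, by omega⟩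
  obtain ⟨m, hnm⟩ : ∃ m, n = 2 * m := ⟨n / 2, by omega⟩
  have hm2 : m % 2 = 1 := by omega
  have hm : Odd m := Nat.odd_iff.2 hm2
  obtain ⟨k, m', hm', hnk⟩ := Nat.exists_eq_two_pow_mul_odd (n := n + 2) (by omega)
  have hm'2 : m' % 2 = 1 := Nat.odd_iff.1 hm'
  have hk : 2 ≤ k := by
    by_contra hcon
    interval_cases k <;> omega
  have h2 : (2 : F) ≠ 0 := two_ne_zero_of_odd (by omega)
  -- the quadratic extension
  haveI : Finite (Lq F) := Finite.of_equiv _ (QuadraticAlgebra.equivProd (-1 : F) 0).symm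
  have hcardL : Nat.card (Lq F) = (n + 1) * (n + 1) := by
    rw [Nat.card_congr (QuadraticAlgebra.equivProd (-1 : F) 0), Nat.card_prod,
      Nat.card_eq_fintype_card, hn]
  have hcardU : Nat.card (Lq F)ˣ = 2 ^ (k + 1) * (m * m') := by
    rw [Nat.card_units, hcardL]
    have : (n + 1) * (n + 1) - 1 = n * (n + 2) := by
      apply Nat.sub_eq_of_eq_add; ring
    rw [this, hnk, hnm]
    ring
  obtain ⟨v, hv, hvall⟩ := exists_gen_of_card hcardU (Nat.mul_pos hm.pos hm'.pos)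
  let μ₂ : Subgroup (Lq F)ˣ := Subgroup.zpowers v
  have hμpow : ∀ z ∈ μ₂, z ^ (2 ^ (k + 1)) = 1 := fun z hz =>
    orderOf_dvd_iff_pow_eq_one.1 (hv ▸ orderOf_dvd_of_mem_zpowers hz)
  let A : Subgroup (SL3 F) := μ₂.map rho
  have hA : ∀ x, x ∈ A ↔ ∃ z : (Lq F)ˣ, z ^ (2 ^ (k + 1)) = 1 ∧ rho z = x := by
    intro x
    constructor
    · rintro ⟨z, hz, rfl⟩
      exact ⟨z, hμpow z hz, rfl⟩
    · rintro ⟨z, hz, rfl⟩
      exact ⟨z, hvall z hz, rfl⟩
  have hfA : fS F ∉ A := by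
    intro h
    obtain ⟨z, -, hz⟩ := (hA _).1 h
    have h00 : (rho z).1 0 0 = (fS F).1 0 0 := by rw [hz]
    have h11 : (rho z).1 1 1 = (fS F).1 1 1 := by rw [hz]
    have e0 : (z : Lq F).re = 1 := h00
    have e1 : (z : Lq F).re = -1 := h11
    apply h2
    linear_combination e1 - e0
  have hAf : ∀ a ∈ A, fS F * a * fS F ∈ A := by
    intro a ha
    obtain ⟨z, hz, rfl⟩ := (hA a).1 ha
    rw [fS_rho]
    exact (hA _).2 ⟨cjHom z, by rw [← map_pow, hz, map_one], rfl⟩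
  let U : Subgroup (SL3 F) := ext2 A (fS F) fS_mul hAf
  have hS : ∀ x, x ∈ U ↔ x ∈ A ∨ x * fS F ∈ A := fun x => mem_ext2
  have hA2 : ∀ x ∈ A, ∃ i : ℕ, x ^ (2 ^ i) = 1 := by
    intro x hx
    obtain ⟨z, hz, rfl⟩ := (hA x).1 hx
    exact ⟨k + 1, by rw [← map_pow, hz, map_one]⟩
  have hUp : ∀ x ∈ U, ∃ i : ℕ, x ^ (2 ^ i) = 1 := pow_ext2 hA2
  have hcardA : Nat.card A = 2 ^ (k + 1) := by
    rw [Subgroup.card_map_of_injective rho_injective, Nat.card_zpowers, hv]
  have hcardUU : Nat.card U = 2 ^ (k + 2) := by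
    rw [card_ext2 hfA, hcardA]; ring
  have hidx : ¬ 2 ∣ U.index := by
    refine not_dvd_index_of_card (isPGroup_of_pow hUp) (e := k + 2)
      (r := m ^ 2 * (n + 1) ^ 3 * m' * ((n + 1) ^ 2 + (n + 1) + 1))
      (by rw [hcardUU]) ?_ ?_
    · rw [card_SL3 n hn, hnk, hnm]
      ring
    · have o2 : Odd (n + 1) := by rw [hnm]; exact odd_two_mul_add_one m
      have o4 : Odd ((n + 1) ^ 2 + (n + 1) + 1) := (o2.pow.add_odd o2).add_one
      exact Nat.odd_iff.1 ((((hm.pow).mul o2.pow).mul hm').mul o4)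
  -- the central involution
  have hz₀A : rho (-1) ∈ A :=
    (hA _).2 ⟨-1, Even.neg_one_pow (Nat.even_pow.2 ⟨even_two, by omega⟩), rfl⟩
  have hz₀ : rho (-1) ∈ U := Or.inl hz₀A
  have hneg1 : (-1 : (Lq F)ˣ) ≠ 1 := by
    intro h
    have h' : ((-1 : (Lq F)ˣ) : Lq F).re = ((1 : (Lq F)ˣ) : Lq F).re := by rw [h]
    rw [Units.val_neg, Units.val_one, QuadraticAlgebra.re_neg, QuadraticAlgebra.re_one] at h'
    apply h2
    linear_combination -h'
  have hz₀1 : rho (-1 : (Lq F)ˣ) ≠ 1 := by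
    intro h
    rw [← map_one rho] at h
    exact hneg1 (rho_injective h)
  have hU1 : U ≠ ⊥ := by
    intro hbot
    have := hz₀
    rw [hbot, Subgroup.mem_bot] at this
    exact hz₀1 this
  have hnmpm : ∀ z : (Lq F)ˣ, z ^ (2 ^ (k + 1)) = 1 →
      nm (z : Lq F) = 1 ∨ nm (z : Lq F) = -1 := fun z hz => nm_pm hn hnm hm2 hz
  have hinv : ∀ x ∈ U, x * x = 1 → x ≠ 1 → ∃ g : SL3 F, g * x * g⁻¹ = rho (-1) := by
    intro x hx hxx hx1
    rcases hx with hx | hx
    · obtain ⟨z, hz, rfl⟩ := (hA x).1 hx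
      rcases rho_sq_one hxx with h | h
      · exfalso; apply hx1; rw [h, map_one]
      · exact ⟨1, by rw [h, one_mul, inv_one, mul_one]⟩
    · obtain ⟨z, hz, hzx⟩ := (hA _).1 hx
      have hx' : x = rho z * fS F := by
        have : x * fS F * fS F = rho z * fS F := by rw [hzx]
        rwa [mul_assoc, fS_mul, mul_one] at this
      rw [hx'] at hxx ⊢
      exact exists_conj_rf (nm_of_rf_sq hxx)
  -- an element of norm `-1`
  obtain ⟨a₁, b₁, hab₁⟩ : ∃ a b : F, a ^ 2 + b ^ 2 = -1 := by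
    obtain ⟨a, b, hab⟩ := FiniteField.exists_root_sum_quadratic (R := F)
      (f := Polynomial.X ^ 2) (g := Polynomial.X ^ 2 + Polynomial.C 1)
      (Polynomial.degree_X_pow 2) (Polynomial.degree_X_pow_add_C (by norm_num) (1 : F))
      (by omega)
    refine ⟨a, b, ?_⟩
    rw [Polynomial.eval_pow, Polynomial.eval_X, Polynomial.eval_add, Polynomial.eval_pow,
      Polynomial.eval_X, Polynomial.eval_C] at hab
    linear_combination hab
  let z₁ : (Lq F)ˣ := Units.mk0 (⟨a₁, b₁⟩ : Lq F) (by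
    intro h
    have e0 : a₁ = 0 := congrArg QuadraticAlgebra.re h
    have e1 : b₁ = 0 := congrArg QuadraticAlgebra.im h
    rw [e0, e1] at hab₁
    have : (1 : F) = 0 := by linear_combination hab₁
    exact one_ne_zero this)
  have hnm₁ : nm ((z₁ : (Lq F)ˣ) : Lq F) = -1 := hab₁
  let zc : (Lq F)ˣ := z₁ ^ (m * m')
  have hzc_pow : zc ^ (2 ^ (k + 1)) = 1 := by
    show (z₁ ^ (m * m')) ^ (2 ^ (k + 1)) = 1
    rw [← pow_mul, mul_comm, ← hcardU, pow_card_eq_one']
  have hnmc : nm ((zc : (Lq F)ˣ) : Lq F) = -1 := by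
    have : nmHom zc = (nmHom z₁) ^ (m * m') := map_pow nmHom z₁ (m * m')
    have h1 : nmHom z₁ = -1 := hnm₁
    rw [h1, Odd.neg_one_pow (hm.mul hm')] at this
    exact this
  have hcA : rho zc ∈ A := (hA _).2 ⟨zc, hzc_pow, rfl⟩
  have hiA : rho (iU F) ∈ A := (hA _).2 ⟨iU F, by
    have : 2 ^ (k + 1) = 4 * 2 ^ (k - 1) := by
      obtain ⟨j, rfl⟩ : ∃ j, k = j + 1 := ⟨k - 1, by omega⟩
      rw [Nat.add_sub_cancel, pow_succ, pow_succ]; ring
    rw [this, pow_mul, iU_pow_four, one_pow], rfl⟩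
  have hbc : (zc : Lq F).im ≠ 0 := by
    intro h
    apply hneg (zc : Lq F).re
    have := hnmc
    unfold nm at this
    rw [h] at this
    linear_combination this
  let g₄ : SL3 F := ⟨G4 (zc : Lq F).re (zc : Lq F).im, det_G4 _ hbc⟩
  have hg₄ : g₄ * rho (iU F) * g₄⁻¹ = rho zc * fS F := by
    rw [mul_inv_eq_iff_eq_mul]
    apply Subtype.ext
    show G4 (zc : Lq F).re (zc : Lq F).im * (rho (iU F)).1
      = ((rho zc).1 * D3 1 (-1) (-1)) * G4 (zc : Lq F).re (zc : Lq F).im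
    rw [rho_iU_val, rho_val, hnmc, inv_neg_one]
    exact G4_mul hnmc hbc
  -- assembly
  refine psl3_simple U hUp hidx hU1 ?_ ?_ S
  · intro T hTU hT1 hT
    refine sd_closed (A := A) (f := fS F) (z₀ := rho (-1)) (c := rho zc) (x₄ := rho (iU F))
      (g₄ := g₄) hS hUp fS_mul hfA hz₀ hinv hcA hiA (rf_sq_one nm_iU) hg₄ ?_ hTU hT1 hT
    intro x hx
    obtain ⟨z, hz, rfl⟩ := (hA x).1 hx
    rcases hnmpm z hz with h | h
    · exact Or.inl (rf_sq_one h)
    · right
      rw [← map_inv, ← map_mul]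
      apply rf_sq_one
      rw [Units.val_mul, nm_mul]
      have h1 : nm ((zc⁻¹ : (Lq F)ˣ) : Lq F) * nm (zc : Lq F) = 1 := by
        rw [← nm_mul, ← Units.val_mul, inv_mul_cancel, Units.val_one, nm_one]
      rw [hnmc] at h1
      rw [h]
      exact h1
  · intro g hg hodd
    have hAr : A = Subgroup.zpowers (rho v) := MonoidHom.map_zpowers rho v
    have hord : orderOf (rho v) = 2 ^ (k + 1) := by
      rw [orderOf_injective rho rho_injective, hv]
    refine Cfsg.Agent.Lib.Helper86.conj_eq_self_of_odd_of_cyclic_index_two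
      (isPGroup_of_pow hUp) (r := rho v)
      (Or.inl ((hA _).2 ⟨v, hμpow v (Subgroup.mem_zpowers v), rfl⟩)) ?_ ?_ hg hodd
    · intro x hx hxr
      rw [← hAr] at hxr
      rcases hx with hx | hx
      · exact absurd hx hxr
      · obtain ⟨z, hz, hzx⟩ := (hA _).1 hx
        have hx' : x = rho z * fS F := by
          have : x * fS F * fS F = rho z * fS F := by rw [hzx]
          rwa [mul_assoc, fS_mul, mul_one] at this
        have hx4 : x ^ 4 = 1 := by
          rw [show (4 : ℕ) = 2 * 2 from rfl, pow_mul, pow_two, pow_two, hx']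
          rcases hnmpm z hz with h | h
          · rw [rf_sq_one h, one_mul]
          · rw [rf_sq_neg h, ← map_mul]; simp
        have h4 : orderOf x ≤ 4 := Nat.le_of_dvd (by norm_num) (orderOf_dvd_of_pow_eq_one hx4)
        rw [hord]
        have : 2 ^ 3 ≤ 2 ^ (k + 1) := Nat.pow_le_pow_right (by norm_num) (by omega)
        omega
    · intro x hx y hy hxr hyr
      rw [← hAr] at hxr hyr ⊢
      rcases hx with hx | hx
      · exact absurd hx hxr
      rcases hy with hy | hy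
      · exact absurd hy hyr
      have e : x * y = (x * fS F) * (fS F * (y * fS F) * fS F) := by
        calc x * y = x * (fS F * fS F) * y * (fS F * fS F) := by rw [fS_mul, mul_one, mul_one]
          _ = _ := by group
      rw [e]
      exact A.mul_mem hx (hAf _ hy)

end Quad

end Cfsg.Agent.Lib.Helper86.SL3
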