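import Mathlib
import Cfsg.Agent.Lib.Helper86.SU3Common
import Cfsg.Agent.Lib.Helper86.SU3Anti
import Cfsg.Agent.Lib.Helper86.SL3Nonsplit
import Cfsg.Agent.Lib.Helper86.SimpleCrit

set_option autoImplicit false
set_option linter.style.haveILetI false
set_option linter.unusedSectionVars false
set_option linter.dupNamespace false
set_option linter.unusedVariables false
set_option linter.unusedSimpArgs false

/-! # The `2`-fusion system of `PSU_3(q)`, `q ≡ 1 (mod 4)`: semidihedral Sylow `2`-subgroups -/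

namespace Cfsg.Agent.Lib.Helper86.SU3

open Matrix Cfsg.Agent.Lib.Helper45 Cfsg.Agent.Lib.Helper86.Un Cfsg.Agent.Lib.Helper86.Idx2
  Cfsg.Agent.Lib.Helper86.SL3

variable {F : Type*} [Field F] [Fintype F] {q : ℕ}

/-- **The `2`-fusion system of `PSU_3(q)` is simple, `q ≡ 1 (mod 4)`.** -/
theorem psu3_sd (hF : Fintype.card F = q ^ 2) (hq : q % 4 = 1)
    (S : Sylow 2 (Cfsg.PSU 3 F q)) :
    (Cfsg.groupFusionSystem (S : Subgroup (Cfsg.PSU 3 F q))).IsSimple 2 := by
  classical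
  have hs : Herm (sigmaQ hF) := herm_sigmaQ hF
  have hσ : ∀ x, sigmaQ hF (sigmaQ hF x) = x := hs.invol
  have hq2 : 2 ≤ q := two_le_q hF
  obtain ⟨n, hn⟩ : ∃ n, q = n + 1 := ⟨q - 1, by omega⟩
  have hn0 : n ≠ 0 := by omega
  obtain ⟨k, m, hm, hnk⟩ := Nat.exists_eq_two_pow_mul_odd hn0
  have hm2 : m % 2 = 1 := Nat.odd_iff.1 hm
  have hk : 2 ≤ k := by
    by_contra hcon
    interval_cases k <;> omega
  obtain ⟨m', hnm'⟩ : ∃ m', n + 2 = 2 * m' := ⟨(n + 2) / 2, by omega⟩
  have hm'2 : m' % 2 = 1 := by omega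
  have hm' : Odd m' := Nat.odd_iff.2 hm'2
  have hqodd : Odd q := Nat.odd_iff.2 (by omega)
  have h2 : (2 : F) ≠ 0 := two_ne_zero_of_odd (by rw [hF]; exact Nat.odd_iff.1 hqodd.pow)
  have hneg1 : (-1 : Fˣ) ≠ 1 := by
    intro h
    have h' := congrArg Units.val h
    rw [Units.val_neg, Units.val_one] at h'
    apply h2
    linear_combination -h'
  have hcardU : Nat.card Fˣ = 2 ^ (k + 1) * (m * m') := by
    rw [Nat.card_units, Nat.card_eq_fintype_card, hF, hn]
    have : (n + 1) ^ 2 - 1 = n * (n + 2) := by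
      apply Nat.sub_eq_of_eq_add; ring
    rw [this, hnm', hnk]
    ring
  obtain ⟨v, hv, hvall⟩ := exists_gen_of_card hcardU (Nat.mul_pos hm.pos hm'.pos)
  let μ₂ : Subgroup Fˣ := Subgroup.zpowers v
  have hμpow : ∀ z ∈ μ₂, z ^ (2 ^ (k + 1)) = 1 := fun z hz =>
    orderOf_dvd_iff_pow_eq_one.1 (hv ▸ orderOf_dvd_of_mem_zpowers hz)
  -- the generator is skew
  have hvk : v ^ (2 ^ k) = -1 := by
    have h1 : (v ^ (2 ^ k)) * (v ^ (2 ^ k)) = 1 := by
      rw [← pow_add, ← two_mul, ← pow_succ', ← hv, pow_orderOf_eq_one]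
    have h2' : v ^ (2 ^ k) ≠ 1 := by
      intro h
      have h3 := orderOf_dvd_of_pow_eq_one h
      rw [hv] at h3
      have h4 := Nat.le_of_dvd (by positivity) h3
      have : 2 ^ k < 2 ^ (k + 1) := Nat.pow_lt_pow_right (by norm_num) (by omega)
      omega
    rcases unit_sq_one _ h1 with h | h
    · exact absurd h h2'
    · exact h
  have hvn : v ^ n = -1 := by rw [hnk, pow_mul, hvk, Odd.neg_one_pow hm]
  have hσu : ∀ z : Fˣ, sigmaQ hF (z : F) = ((z ^ n * z : Fˣ) : F) := by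
    intro z
    rw [sigmaQ_apply, hn, ← pow_succ, Units.val_pow_eq_pow_val]
  have hσv : sigmaQ hF (v : F) = -(v : F) := by
    rw [hσu, hvn, Units.val_mul, Units.val_neg, Units.val_one]; ring
  -- the element of order four
  let iu : Fˣ := v ^ (2 ^ (k - 1))
  have hiu2 : iu * iu = -1 := by
    show v ^ (2 ^ (k - 1)) * v ^ (2 ^ (k - 1)) = -1
    rw [← pow_add, ← two_mul, ← pow_succ', Nat.sub_add_cancel (by omega), hvk]
  have hi : (iu : F) * (iu : F) = -1 := by
    rw [← Units.val_mul, hiu2, Units.val_neg, Units.val_one]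
  have hiun : iu ^ n = 1 := by
    have h4 : iu ^ 4 = 1 := by
      rw [show (4 : ℕ) = 2 + 2 from rfl, pow_add, pow_two, hiu2]; simp
    have : n = 4 * (2 ^ (k - 2) * m) := by
      rw [hnk]
      obtain ⟨j, rfl⟩ : ∃ j, k = j + 2 := ⟨k - 2, by omega⟩
      rw [Nat.add_sub_cancel]; ring
    rw [this, pow_mul, h4, one_pow]
  have hσi : sigmaQ hF (iu : F) = (iu : F) := by rw [hσu, hiun, one_mul]
  -- the torus
  let A : Subgroup (UJ 3 (sigmaQ hF)) := μ₂.map (torU hσ)
  have hA : ∀ x, x ∈ A ↔ ∃ z : Fˣ, z ^ (2 ^ (k + 1)) = 1 ∧ torU hσ z = x := by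
    intro x
    constructor
    · rintro ⟨z, hz, rfl⟩
      exact ⟨z, hμpow z hz, rfl⟩
    · rintro ⟨z, hz, rfl⟩
      exact ⟨z, hvall z hz, rfl⟩
  have hfA : fU (sigmaQ hF) ∉ A := by
    intro h
    obtain ⟨z, -, hz⟩ := (hA _).1 h
    exact fU_ne_tor hσ z hz
  have hAf : ∀ a ∈ A, fU (sigmaQ hF) * a * fU (sigmaQ hF) ∈ A := by
    intro a ha
    obtain ⟨z, hz, rfl⟩ := (hA a).1 ha
    rw [fU_tor]
    exact (hA _).2 ⟨cjU (sigmaQ hF) z, by rw [← map_pow, hz, map_one], rfl⟩
  let U : Subgroup (UJ 3 (sigmaQ hF)) := ext2 A (fU (sigmaQ hF)) fU_mul hAf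
  have hS : ∀ x, x ∈ U ↔ x ∈ A ∨ x * fU (sigmaQ hF) ∈ A := fun x => mem_ext2
  have hA2 : ∀ x ∈ A, ∃ i : ℕ, x ^ (2 ^ i) = 1 := by
    intro x hx
    obtain ⟨z, hz, rfl⟩ := (hA x).1 hx
    exact ⟨k + 1, by rw [← map_pow, hz, map_one]⟩
  have hUp : ∀ x ∈ U, ∃ i : ℕ, x ^ (2 ^ i) = 1 := pow_ext2 hA2
  have hcardA : Nat.card A = 2 ^ (k + 1) := by
    rw [Subgroup.card_map_of_injective (torU_injective hσ), Nat.card_zpowers, hv]
  have hcardUU : Nat.card U = 2 ^ (k + 2) := by
    rw [card_ext2 hfA, hcardA]; ring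
  have hidx : ¬ 2 ∣ U.index := by
    refine not_dvd_index_of_card (isPGroup_of_pow hUp) (e := k + 2)
      (r := (n + 1) ^ 3 * m * m' ^ 2 * (n ^ 2 + n + 1))
      (by rw [hcardUU]) ?_ ?_
    · rw [card_UJ3 hF n hn, hnm']
      have e : (n + 1) ^ 3 * n * (2 * m') ^ 2 * (n ^ 2 + n + 1)
          = (n + 1) ^ 3 * (2 ^ k * m) * (2 * m') ^ 2 * (n ^ 2 + n + 1) := by rw [← hnk]
      rw [e]
      ring
    · have o2 : Odd (n + 1) := by
        apply Even.add_one
        rw [hnk]
        exact Even.mul_right (Nat.even_pow.2 ⟨even_two, by omega⟩) m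
      have o4 : Odd (n ^ 2 + n + 1) := by
        apply Even.add_one
        rw [pow_two, ← Nat.mul_succ]
        exact Nat.even_mul_succ_self n
      exact Nat.odd_iff.1 ((((o2.pow).mul hm).mul hm'.pow).mul o4)
  -- the central involution
  have hz₀A : torU hσ (-1) ∈ A :=
    (hA _).2 ⟨-1, Even.neg_one_pow (Nat.even_pow.2 ⟨even_two, by omega⟩), rfl⟩
  have hz₀ : torU hσ (-1) ∈ U := Or.inl hz₀A
  have hz₀1 : torU hσ (-1 : Fˣ) ≠ 1 := by
    intro h
    rw [← map_one (torU hσ)] at h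
    exact hneg1 (torU_injective hσ h)
  have hU1 : U ≠ ⊥ := by
    intro hbot
    have := hz₀
    rw [hbot, Subgroup.mem_bot] at this
    exact hz₀1 this
  -- squares of the elements outside the torus
  have hzn : ∀ z : Fˣ, z ^ (2 ^ (k + 1)) = 1 → z ^ n = 1 ∨ z ^ n = -1 := by
    intro z hz
    apply unit_sq_one
    rw [← pow_add, ← two_mul, hnk, ← mul_assoc, ← pow_succ', pow_mul, hz, one_pow]
  have hcj_of_one : ∀ z : Fˣ, z ^ n = 1 → z * cjU (sigmaQ hF) z = 1 := by
    intro z hz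
    apply Units.ext
    rw [Units.val_mul, cjU_val, hσu, hz, one_mul, Units.val_one, mul_inv_cancel₀ z.ne_zero]
  have hcj_of_neg : ∀ z : Fˣ, z ^ n = -1 → z * cjU (sigmaQ hF) z = -1 := by
    intro z hz
    apply Units.ext
    rw [Units.val_mul, cjU_val, hσu, hz, Units.val_mul, Units.val_neg, Units.val_one, neg_one_mul,
      inv_neg, mul_neg, mul_inv_cancel₀ z.ne_zero]
  obtain ⟨c, hc⟩ := hs.norm (2 : F) (map_ofNat _ 2)
  have hc0 : c ≠ 0 := by
    intro h
    rw [h, zero_mul] at hc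
    exact h2 hc.symm
  have hσc : sigmaQ hF c = 2 / c := by
    rw [eq_div_iff hc0, mul_comm]; exact hc
  have hinv : ∀ x ∈ U, x * x = 1 → x ≠ 1 →
      ∃ g : UJ 3 (sigmaQ hF), g * x * g⁻¹ = torU hσ (-1) := by
    intro x hx hxx hx1
    rcases hx with hx | hx
    · obtain ⟨z, hz, rfl⟩ := (hA x).1 hx
      rw [← map_mul, ← map_one (torU hσ)] at hxx
      rcases unit_sq_one z (torU_injective hσ hxx) with h | h
      · exfalso; apply hx1; rw [h, map_one]
      · exact ⟨1, by rw [h, one_mul, inv_one, mul_one]⟩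
    · obtain ⟨z, hz, hzx⟩ := (hA _).1 hx
      have hx' : x = torU hσ z * fU (sigmaQ hF) := by
        have : x * fU (sigmaQ hF) * fU (sigmaQ hF) = torU hσ z * fU (sigmaQ hF) := by rw [hzx]
        rwa [mul_assoc, fU_mul, mul_one] at this
      rw [hx', tor_f_sq, ← map_one (torU hσ)] at hxx
      have hzc : z * cjU (sigmaQ hF) z = 1 := torU_injective hσ hxx
      have hσz : sigmaQ hF (z : F) = (z : F) := by
        have h1 : (z : F) * (sigmaQ hF (z : F))⁻¹ = 1 := by
          rw [← cjU_val, ← Units.val_mul, hzc, Units.val_one]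
        have h3 := eq_inv_of_mul_eq_one_right h1
        exact inv_injective h3
      obtain ⟨y, hy⟩ := hs.norm ((z : F)⁻¹) (by rw [map_inv₀, hσz])
      have hy0 : y ≠ 0 := by
        intro h
        rw [h, zero_mul] at hy
        exact inv_ne_zero z.ne_zero hy.symm
      let yu : Fˣ := Units.mk0 y hy0
      have hyz : yu * z * (cjU (sigmaQ hF) yu)⁻¹ = 1 := by
        apply Units.ext
        rw [Units.val_mul, Units.val_mul, Units.val_inv_eq_inv_val, cjU_val, inv_inv,
          Units.val_one]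
        show y * (z : F) * sigmaQ hF y = 1
        rw [mul_right_comm, hy, inv_mul_cancel₀ z.ne_zero]
      refine ⟨gFU hc0 h2 hσc * torU hσ yu, ?_⟩
      have e2 : torU hσ yu * (torU hσ z * fU (sigmaQ hF)) * (torU hσ yu)⁻¹
          = fU (sigmaQ hF) := by
        calc torU hσ yu * (torU hσ z * fU (sigmaQ hF)) * (torU hσ yu)⁻¹
            = (torU hσ yu * torU hσ z) * (fU (sigmaQ hF) * (torU hσ yu)⁻¹) := by group
          _ = fU (sigmaQ hF) := by
              rw [fU_tor_inv, ← mul_assoc, ← map_mul, ← map_inv, ← map_mul, hyz, map_one,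
                one_mul]
      rw [hx']
      calc gFU hc0 h2 hσc * torU hσ yu * (torU hσ z * fU (sigmaQ hF))
            * (gFU hc0 h2 hσc * torU hσ yu)⁻¹
          = gFU hc0 h2 hσc * (torU hσ yu * (torU hσ z * fU (sigmaQ hF)) * (torU hσ yu)⁻¹)
            * (gFU hc0 h2 hσc)⁻¹ := by group
        _ = torU hσ (-1) := by rw [e2, gFU_conj hσ]
  have hcA : torU hσ v ∈ A := (hA _).2 ⟨v, hμpow v (Subgroup.mem_zpowers v), rfl⟩
  have hiA : torU hσ iu ∈ A :=
    (hA _).2 ⟨iu, hμpow iu (Subgroup.pow_mem _ (Subgroup.mem_zpowers v) _), rfl⟩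
  have hg₄ := g4U_conj hσ v iu h2 hi hσv hσi
  -- assembly
  refine psu3_simple_UJ hF U hUp hidx hU1 ?_ ?_ S
  · intro T hTU hT1 hT
    refine sd_closed (A := A) (f := fU (sigmaQ hF)) (z₀ := torU hσ (-1)) (c := torU hσ v)
      (x₄ := torU hσ iu) (g₄ := g4U v.ne_zero h2 hi hσv hσi) hS hUp fU_mul hfA hz₀ hinv hcA hiA
      ?_ hg₄ ?_ hTU hT1 hT
    · rw [tor_f_sq, hcj_of_one iu hiun, map_one]
    · intro x hx
      obtain ⟨z, hz, rfl⟩ := (hA x).1 hx
      rcases hzn z hz with h | h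
      · left; rw [tor_f_sq, hcj_of_one z h, map_one]
      · right
        rw [← map_inv, ← map_mul, tor_f_sq]
        have : (v⁻¹ * z) ^ n = 1 := by rw [mul_pow, inv_pow, hvn, h]; simp
        rw [hcj_of_one _ this, map_one]
  · intro g hg hodd
    have hAr : A = Subgroup.zpowers (torU hσ v) := MonoidHom.map_zpowers (torU hσ) v
    have hord : orderOf (torU hσ v) = 2 ^ (k + 1) := by
      rw [orderOf_injective (torU hσ) (torU_injective hσ), hv]
    refine Cfsg.Agent.Lib.Helper86.conj_eq_self_of_odd_of_cyclic_index_two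
      (isPGroup_of_pow hUp) (r := torU hσ v) (Or.inl hcA) ?_ ?_ hg hodd
    · intro x hx hxr
      rw [← hAr] at hxr
      rcases hx with hx | hx
      · exact absurd hx hxr
      · obtain ⟨z, hz, hzx⟩ := (hA _).1 hx
        have hx' : x = torU hσ z * fU (sigmaQ hF) := by
          have : x * fU (sigmaQ hF) * fU (sigmaQ hF) = torU hσ z * fU (sigmaQ hF) := by rw [hzx]
          rwa [mul_assoc, fU_mul, mul_one] at this
        have hx4 : x ^ 4 = 1 := by
          rw [show (4 : ℕ) = 2 * 2 from rfl, pow_mul, pow_two, pow_two, hx', tor_f_sq, ← map_mul]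
          rcases hzn z hz with h | h
          · rw [hcj_of_one z h, mul_one, map_one]
          · rw [hcj_of_neg z h]; simp
        have h4 : orderOf x ≤ 4 := Nat.le_of_dvd (by norm_num) (orderOf_dvd_of_pow_eq_one hx4)
        rw [hord]
        have : 2 ^ 3 ≤ 2 ^ (k + 1) := Nat.pow_le_pow_right (by norm_num) (by omega)
        omega
    · intro x hx y hy hxr hyr
      rw [← hAr] at hxr hyr ⊢
      rcases hx with hx | hx
      · exact absurd hx hxr
      rcases hy with hy | hy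
      · exact absurd hy hyr
      have e : x * y = (x * fU (sigmaQ hF))
          * (fU (sigmaQ hF) * (y * fU (sigmaQ hF)) * fU (sigmaQ hF)) := by
        calc x * y = x * (fU (sigmaQ hF) * fU (sigmaQ hF)) * y
              * (fU (sigmaQ hF) * fU (sigmaQ hF)) := by rw [fU_mul, mul_one, mul_one]
          _ = _ := by group
      rw [e]
      exact A.mul_mem hx (hAf _ hy)

end Cfsg.Agent.Lib.Helper86.SU3
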