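import Mathlib
import Cfsg.Agent.Lib.Helper86.SU3Common
import Cfsg.Agent.Lib.Helper86.SL3Split

set_option autoImplicit false
set_option linter.style.haveILetI false
set_option linter.unusedSectionVars false
set_option linter.dupNamespace false
set_option linter.unusedVariables false
set_option linter.unusedSimpArgs false

/-! # The `2`-fusion system of `PSU_3(q)`, `q ≡ 3 (mod 4)`: wreathed Sylow `2`-subgroups -/

namespace Cfsg.Agent.Lib.Helper86.SU3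

open Matrix Cfsg.Agent.Lib.Helper45 Cfsg.Agent.Lib.Helper86.Un Cfsg.Agent.Lib.Helper86.Idx2
  Cfsg.Agent.Lib.Helper86.SL3

section Gram

variable {F : Type*} [Field F]

theorem gram3 (σ : F →+* F) (a b c d e f g h i : F) :
    (!![a, b, c; d, e, f; g, h, i] : Matrix (Fin 3) (Fin 3) F)ᵀ
        * (!![a, b, c; d, e, f; g, h, i] : Matrix (Fin 3) (Fin 3) F).map σ
      = !![a * σ a + d * σ d + g * σ g, a * σ b + d * σ e + g * σ h, a * σ c + d * σ f + g * σ i;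
           b * σ a + e * σ d + h * σ g, b * σ b + e * σ e + h * σ h, b * σ c + e * σ f + h * σ i;
           c * σ a + f * σ d + i * σ g, c * σ b + f * σ e + i * σ h, c * σ c + f * σ f + i * σ i] := by
  ext x y
  fin_cases x <;> fin_cases y <;> simp [Matrix.mul_apply, Fin.sum_univ_three]

end Gram

variable {F : Type*} [Field F] [Fintype F] {q : ℕ}

theorem mem_SU3_iff (hF : Fintype.card F = q ^ 2) (g : SL3 F) :
    g ∈ Cfsg.SU 3 F q ↔ g.1ᵀ * g.1.map (sigmaQ hF) = 1 := isHermIso_iff_gram hF g.1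

theorem dg_mem (hF : Fintype.card F = q ^ 2) {a b : Fˣ} (ha : (a : F) * sigmaQ hF a = 1)
    (hb : (b : F) * sigmaQ hF b = 1) : dg a b ∈ Cfsg.SU 3 F q := by
  rw [mem_SU3_iff hF]
  show (D3 (a : F) (b : F) ((a⁻¹ * b⁻¹ : Fˣ) : F))ᵀ
    * (D3 (a : F) (b : F) ((a⁻¹ * b⁻¹ : Fˣ) : F)).map (sigmaQ hF) = 1
  unfold D3
  rw [gram3, Matrix.one_fin_three]
  have hc : ((a⁻¹ * b⁻¹ : Fˣ) : F) * sigmaQ hF ((a⁻¹ * b⁻¹ : Fˣ) : F) = 1 := by
    rw [Units.val_mul, Units.val_inv_eq_inv_val, Units.val_inv_eq_inv_val, map_mul, map_inv₀,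
      map_inv₀, mul_mul_mul_comm, ← mul_inv, ← mul_inv, ha, hb, inv_one, mul_one]
  apply m3_ext <;> simp only [map_zero, mul_zero, zero_mul, add_zero, zero_add, ha, hb, hc]

theorem tS_mem (hF : Fintype.card F = q ^ 2) : tS F ∈ Cfsg.SU 3 F q := by
  rw [mem_SU3_iff hF]
  show (t3 F)ᵀ * (t3 F).map (sigmaQ hF) = 1
  unfold t3
  rw [gram3, Matrix.one_fin_three]
  apply m3_ext <;> simp only [map_zero, map_one, map_neg, mul_zero, zero_mul, add_zero, zero_add,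
    mul_one, one_mul, neg_zero, mul_neg, neg_neg, neg_mul]

theorem wS_mem (hF : Fintype.card F = q ^ 2) : wS F ∈ Cfsg.SU 3 F q := by
  rw [mem_SU3_iff hF]
  show (w3 F)ᵀ * (w3 F).map (sigmaQ hF) = 1
  unfold w3
  rw [gram3, Matrix.one_fin_three]
  apply m3_ext <;> simp only [map_zero, map_one, map_neg, mul_zero, zero_mul, add_zero, zero_add,
    mul_one, one_mul, neg_zero, mul_neg, neg_neg, neg_mul]

theorem vS_mem (hF : Fintype.card F = q ^ 2) : vS F ∈ Cfsg.SU 3 F q := by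
  rw [mem_SU3_iff hF]
  show (v3 F)ᵀ * (v3 F).map (sigmaQ hF) = 1
  unfold v3
  rw [gram3, Matrix.one_fin_three]
  apply m3_ext <;> simp only [map_zero, map_one, map_neg, mul_zero, zero_mul, add_zero, zero_add,
    mul_one, one_mul, neg_zero, mul_neg, neg_neg, neg_mul]


/-! ### the unitary diagonalizing element -/

section GU

variable {K : Type*} [Field K]

/-- unitary diagonalizing matrix for the involutions outside the torus -/
def gU3 (a l : K) : Matrix (Fin 3) (Fin 3) K :=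
  !![(2 * l * a)⁻¹, -(2 * l)⁻¹, 0; 0, 0, 1; -l, -(l * a), 0]

theorem det_gU3 {a l : K} (ha : a ≠ 0) (hl : l ≠ 0) (h2 : (2 : K) ≠ 0) : (gU3 a l).det = 1 := by
  unfold gU3; rw [det3]; field_simp; ring

theorem gU3_mul {a l : K} (ha : a ≠ 0) (hl : l ≠ 0) (h2 : (2 : K) ≠ 0) :
    gU3 a l * (D3 a a⁻¹ 1 * t3 K) = D3 (-1) (-1) 1 * gU3 a l := by
  unfold gU3 D3 t3
  rw [Matrix.mul_fin_three, Matrix.mul_fin_three, Matrix.mul_fin_three]
  apply m3_ext <;> first | ring1 | (field_simp; ring1)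

theorem gU3_gram (σ : K →+* K) {a l : K} (ha : a ≠ 0) (hl : l ≠ 0) (h2 : (2 : K) ≠ 0)
    (hσa : σ a = a⁻¹) (hσl : σ l = (2 * l)⁻¹) :
    (gU3 a l)ᵀ * (gU3 a l).map σ = 1 := by
  unfold gU3
  rw [gram3, Matrix.one_fin_three]
  apply m3_ext <;>
    simp only [map_inv₀, map_mul, map_neg, map_zero, map_one, map_ofNat, hσa, hσl] <;>
    first | ring1 | (field_simp; ring1)

end GU

/-- the diagonalizing element, in `SL_3` -/
def gUS (a : Fˣ) {l : F} (hl : l ≠ 0) (h2 : (2 : F) ≠ 0) : SL3 F :=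
  ⟨gU3 (a : F) l, det_gU3 a.ne_zero hl h2⟩

theorem gUS_mem (hF : Fintype.card F = q ^ 2) {a : Fˣ} {l : F} (hl : l ≠ 0) (h2 : (2 : F) ≠ 0)
    (ha : (a : F) * sigmaQ hF a = 1) (hl2 : l * sigmaQ hF l = 2⁻¹) :
    gUS a hl h2 ∈ Cfsg.SU 3 F q := by
  rw [mem_SU3_iff hF]
  refine gU3_gram (sigmaQ hF) a.ne_zero hl h2 ?_ ?_
  · exact eq_inv_of_mul_eq_one_right ha
  · rw [mul_inv]
    have h3 : sigmaQ hF l = l⁻¹ * (l * sigmaQ hF l) := by
      rw [← mul_assoc, inv_mul_cancel₀ hl, one_mul]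
    rw [h3, hl2, mul_comm]

theorem gUS_conj (a : Fˣ) {l : F} (hl : l ≠ 0) (h2 : (2 : F) ≠ 0) :
    gUS a hl h2 * (dg a a⁻¹ * tS F) * (gUS a hl h2)⁻¹ = dg (-1) (-1) := by
  rw [mul_inv_eq_iff_eq_mul]
  apply Subtype.ext
  show gU3 (a : F) l * (D3 (a : F) ((a⁻¹ : Fˣ) : F) ((a⁻¹ * a⁻¹⁻¹ : Fˣ) : F) * t3 F)
    = D3 ((-1 : Fˣ) : F) ((-1 : Fˣ) : F) (((-1 : Fˣ)⁻¹ * (-1 : Fˣ)⁻¹ : Fˣ) : F) * gU3 (a : F) l
  have e1 : D3 (a : F) ((a⁻¹ : Fˣ) : F) ((a⁻¹ * a⁻¹⁻¹ : Fˣ) : F) = D3 (a : F) (a : F)⁻¹ 1 := by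
    apply D3_congr rfl
    · simp
    · simp
  have e2 : D3 ((-1 : Fˣ) : F) ((-1 : Fˣ) : F) (((-1 : Fˣ)⁻¹ * (-1 : Fˣ)⁻¹ : Fˣ) : F)
      = D3 (-1 : F) (-1) 1 := by
    apply D3_congr
    · simp
    · simp
    · simp
  rw [e1, e2, gU3_mul a.ne_zero hl h2]

/-- **The `2`-fusion system of `PSU_3(q)` is simple, `q ≡ 3 (mod 4)`.** -/
theorem psu3_wreath (hF : Fintype.card F = q ^ 2) (hq : q % 4 = 3)
    (S : Sylow 2 (Cfsg.PSU 3 F q)) :
    (Cfsg.groupFusionSystem (S : Subgroup (Cfsg.PSU 3 F q))).IsSimple 2 := by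
  classical
  obtain ⟨n, hn⟩ : ∃ n, q = n + 1 := ⟨q - 1, by omega⟩
  obtain ⟨m, hnm⟩ : ∃ m, n = 2 * m := ⟨n / 2, by omega⟩
  have hm2 : m % 2 = 1 := by omega
  have hm : Odd m := Nat.odd_iff.2 hm2
  obtain ⟨k, m', hm', hnk⟩ := Nat.exists_eq_two_pow_mul_odd (n := n + 2) (by omega)
  have hm'2 : m' % 2 = 1 := Nat.odd_iff.1 hm'
  have hk : 2 ≤ k := by
    by_contra hcon
    interval_cases k <;> omega
  obtain ⟨j, rfl⟩ : ∃ j, k = j + 1 := ⟨k - 1, by omega⟩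
  have hj : 1 ≤ j := by omega
  have hqodd : Odd q := Nat.odd_iff.2 (by omega)
  have h2 : (2 : F) ≠ 0 := two_ne_zero_of_odd (by rw [hF]; exact Nat.odd_iff.1 hqodd.pow)
  have hneg1 : (-1 : Fˣ) ≠ 1 := by
    intro h
    have h' := congrArg Units.val h
    rw [Units.val_neg, Units.val_one] at h'
    apply h2
    linear_combination -h'
  -- a generator of the `2`-part of the norm one group
  have hcardU : Nat.card Fˣ = 2 ^ (j + 1) * (m' * n) := by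
    rw [Nat.card_units, Nat.card_eq_fintype_card, hF, hn]
    have : (n + 1) ^ 2 - 1 = n * (n + 2) := by
      apply Nat.sub_eq_of_eq_add; ring
    rw [this, hnk]
    ring
  have hn0 : 0 < n := by omega
  obtain ⟨ζ, hζ⟩ := exists_orderOf_eq hcardU (Nat.mul_pos hm'.pos hn0)
  let μ : Subgroup Fˣ := Subgroup.zpowers ζ
  have hμpow : ∀ a ∈ μ, a ^ (2 ^ (j + 1)) = 1 := fun a ha =>
    orderOf_dvd_iff_pow_eq_one.1 (hζ ▸ orderOf_dvd_of_mem_zpowers ha)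
  have hμnorm : ∀ a ∈ μ, (a : F) * sigmaQ hF (a : F) = 1 := by
    intro a ha
    rw [sigmaQ_apply, ← pow_succ', hn, hnk, ← Units.val_pow_eq_pow_val, pow_mul, hμpow a ha,
      one_pow, Units.val_one]
  have hζμ : ζ ∈ μ := Subgroup.mem_zpowers ζ
  have hnegμ : (-1 : Fˣ) ∈ μ := by
    have h1 : (ζ ^ (2 ^ j)) * (ζ ^ (2 ^ j)) = 1 := by
      rw [← pow_add, ← two_mul, ← pow_succ', ← hζ, pow_orderOf_eq_one]
    have h2' : ζ ^ (2 ^ j) ≠ 1 := by
      intro h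
      have h3 := orderOf_dvd_of_pow_eq_one h
      rw [hζ] at h3
      have h4 := Nat.le_of_dvd (by positivity) h3
      have : 2 ^ j < 2 ^ (j + 1) := Nat.pow_lt_pow_right (by norm_num) (by omega)
      omega
    rcases unit_sq_one _ h1 with h | h
    · exact absurd h h2'
    · rw [← h]; exact Subgroup.pow_mem _ hζμ _
  have hζζ : ζ * ζ ≠ 1 := by
    intro h
    have h3 : orderOf ζ ∣ 2 := orderOf_dvd_of_pow_eq_one (by rw [pow_two]; exact h)
    rw [hζ] at h3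
    have h4 := Nat.le_of_dvd (by norm_num) h3
    have : 2 ^ 2 ≤ 2 ^ (j + 1) := Nat.pow_le_pow_right (by norm_num) (by omega)
    omega
  -- the elements of `SU_3(q)`
  let dH : μ × μ →* Cfsg.SU 3 F q := (dHom μ).codRestrict (Cfsg.SU 3 F q)
    (fun p => dg_mem hF (hμnorm _ p.1.2) (hμnorm _ p.2.2))
  let d : μ → μ → Cfsg.SU 3 F q := fun a b => dH (a, b)
  have hdval : ∀ a b : μ, (d a b : SL3 F) = dg (a : Fˣ) (b : Fˣ) := fun a b => rfl
  let tU : Cfsg.SU 3 F q := ⟨tS F, tS_mem hF⟩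
  let wU : Cfsg.SU 3 F q := ⟨wS F, wS_mem hF⟩
  let vU : Cfsg.SU 3 F q := ⟨vS F, vS_mem hF⟩
  have htU : tU * tU = 1 := Subtype.ext tS_mul
  let A : Subgroup (Cfsg.SU 3 F q) := dH.range
  have hA : ∀ x, x ∈ A ↔ ∃ a b, x = d a b := by
    intro x
    constructor
    · rintro ⟨⟨a, b⟩, h⟩
      exact ⟨a, b, h.symm⟩
    · rintro ⟨a, b, h⟩
      exact ⟨(a, b), h.symm⟩
  have hd_mul : ∀ a b a' b' : μ, d a b * d a' b' = d (a * a') (b * b') :=
    fun a b a' b' => Subtype.ext (dg_mul _ _ _ _)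
  have hd_one : d 1 1 = 1 := Subtype.ext dg_one
  have hd_inj : ∀ a b a' b' : μ, d a b = d a' b' → a = a' ∧ b = b' := by
    intro a b a' b' h
    obtain ⟨h1, h2⟩ := dg_inj (congrArg Subtype.val h)
    exact ⟨Subtype.ext h1, Subtype.ext h2⟩
  have hdH_inj : Function.Injective dH := by
    rintro ⟨a, b⟩ ⟨a', b'⟩ h
    obtain ⟨h1, h2⟩ := hd_inj a b a' b' h
    rw [h1, h2]
  have htd : ∀ a b : μ, tU * d a b * tU = d b a := fun a b => Subtype.ext (tS_dg _ _)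
  have htA : tU ∉ A := by
    intro h
    obtain ⟨a, b, hab⟩ := (hA _).1 h
    exact tS_ne_dg _ _ (congrArg Subtype.val hab)
  have hAt : ∀ x ∈ A, tU * x * tU ∈ A := by
    intro x hx
    obtain ⟨a, b, rfl⟩ := (hA x).1 hx
    rw [htd]
    exact (hA _).2 ⟨b, a, rfl⟩
  let U : Subgroup (Cfsg.SU 3 F q) := ext2 A tU htU hAt
  have hS : ∀ x, x ∈ U ↔ x ∈ A ∨ x * tU ∈ A := fun x => mem_ext2
  have hA2 : ∀ x ∈ A, ∃ i : ℕ, x ^ (2 ^ i) = 1 := by
    rintro x ⟨⟨a, b⟩, rfl⟩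
    refine ⟨j + 1, ?_⟩
    rw [← map_pow]
    have : (a, b) ^ (2 ^ (j + 1)) = (1 : μ × μ) := by
      apply Prod.ext
      · exact Subtype.ext (by
          show ((a ^ (2 ^ (j + 1)) : μ) : Fˣ) = 1
          rw [Subgroup.coe_pow]; exact hμpow a a.2)
      · exact Subtype.ext (by
          show ((b ^ (2 ^ (j + 1)) : μ) : Fˣ) = 1
          rw [Subgroup.coe_pow]; exact hμpow b b.2)
    rw [this, map_one]
  have hUp : ∀ x ∈ U, ∃ i : ℕ, x ^ (2 ^ i) = 1 := pow_ext2 hA2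
  -- the order of `U`
  have hcardμ : Nat.card μ = 2 ^ (j + 1) := by
    rw [Nat.card_zpowers, hζ]
  have hcardA : Nat.card A = 2 ^ (j + 1) * 2 ^ (j + 1) := by
    rw [← Nat.card_congr (MonoidHom.ofInjective hdH_inj).toEquiv, Nat.card_prod, hcardμ]
  have hcardUU : Nat.card U = 2 ^ (2 * (j + 1) + 1) := by
    rw [card_ext2 htA, hcardA]; ring
  have hidx : ¬ 2 ∣ U.index := by
    refine not_dvd_index_of_card (isPGroup_of_pow hUp) (e := 2 * (j + 1) + 1)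
      (r := (n + 1) ^ 3 * m * m' ^ 2 * (n ^ 2 + n + 1))
      (by rw [hcardUU]) ?_ ?_
    · rw [card_SU3 hF n hn, hnk]
      have e : (n + 1) ^ 3 * n * (2 ^ (j + 1) * m') ^ 2 * (n ^ 2 + n + 1)
          = (n + 1) ^ 3 * (2 * m) * (2 ^ (j + 1) * m') ^ 2 * (n ^ 2 + n + 1) := by rw [← hnm]
      rw [e]
      ring
    · have o2 : Odd (n + 1) := by rw [hnm]; exact odd_two_mul_add_one m
      have o4 : Odd (n ^ 2 + n + 1) := by
        apply Even.add_one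
        rw [pow_two, ← Nat.mul_succ]
        exact Nat.even_mul_succ_self n
      exact Nat.odd_iff.1 ((((o2.pow).mul hm).mul hm'.pow).mul o4)
  -- the central involution
  have hνμ : (⟨-1, hnegμ⟩ : μ) * ⟨-1, hnegμ⟩ = 1 := Subtype.ext (by
    show (-1 : Fˣ) * (-1) = 1
    simp)
  have hz₀A : d ⟨-1, hnegμ⟩ ⟨-1, hnegμ⟩ ∈ A := (hA _).2 ⟨_, _, rfl⟩
  have hz₀ : d ⟨-1, hnegμ⟩ ⟨-1, hnegμ⟩ ∈ U := Or.inl hz₀A
  have hU1 : U ≠ ⊥ := by
    intro hbot
    have h1 : d ⟨-1, hnegμ⟩ ⟨-1, hnegμ⟩ = 1 := by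
      have := hz₀
      rwa [hbot, Subgroup.mem_bot] at this
    rw [← hd_one] at h1
    exact hneg1 (congrArg Subtype.val (hd_inj _ _ _ _ h1).1)
  obtain ⟨l, hl⟩ := (herm_sigmaQ hF).norm (2⁻¹ : F) (by rw [map_inv₀, map_ofNat])
  have hl0 : l ≠ 0 := by
    intro h
    rw [h, zero_mul] at hl
    exact inv_ne_zero h2 hl.symm
  have hinv : ∀ x ∈ U, x * x = 1 → x ≠ 1 →
      ∃ g : Cfsg.SU 3 F q, g * x * g⁻¹ = d ⟨-1, hnegμ⟩ ⟨-1, hnegμ⟩ := by
    intro x hx hxx hx1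
    rcases hx with hx | hx
    · obtain ⟨a, b, rfl⟩ := (hA x).1 hx
      have h1 : d (a * a) (b * b) = d 1 1 := by
        rw [← hd_mul, hd_one]; exact hxx
      obtain ⟨ha, hb⟩ := hd_inj _ _ _ _ h1
      have ha' : (a : Fˣ) * a = 1 := congrArg Subtype.val ha
      have hb' : (b : Fˣ) * b = 1 := congrArg Subtype.val hb
      rcases unit_sq_one _ ha' with ha | ha <;> rcases unit_sq_one _ hb' with hb | hb
      · exfalso; apply hx1
        apply Subtype.ext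
        show dg (a : Fˣ) (b : Fˣ) = 1
        rw [ha, hb, dg_one]
      · refine ⟨vU, ?_⟩
        apply Subtype.ext
        show vS F * dg (a : Fˣ) (b : Fˣ) * (vS F)⁻¹ = dg (-1) (-1)
        rw [ha, hb, vS_conj]
      · refine ⟨wU, ?_⟩
        apply Subtype.ext
        show wS F * dg (a : Fˣ) (b : Fˣ) * (wS F)⁻¹ = dg (-1) (-1)
        rw [ha, hb, wS_conj]
      · refine ⟨1, ?_⟩
        apply Subtype.ext
        show 1 * dg (a : Fˣ) (b : Fˣ) * 1⁻¹ = dg (-1) (-1)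
        rw [ha, hb, one_mul, inv_one, mul_one]
    · obtain ⟨a, b, hab⟩ := (hA _).1 hx
      have hx' : x = d a b * tU := by
        have : x * tU * tU = d a b * tU := by rw [hab]
        rwa [mul_assoc, htU, mul_one] at this
      have h1 : d (a * b) (b * a) = d 1 1 := by
        rw [← hd_mul, ← htd a b, hd_one, ← hxx, hx']
        simp only [mul_assoc]
      obtain ⟨hab1, -⟩ := hd_inj _ _ _ _ h1
      have hab1' : (a : Fˣ) * b = 1 := congrArg Subtype.val hab1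
      have hb : (b : Fˣ) = (a : Fˣ)⁻¹ := eq_inv_of_mul_eq_one_right hab1'
      refine ⟨⟨gUS (a : Fˣ) hl0 h2, gUS_mem hF hl0 h2 (hμnorm _ a.2) hl⟩, ?_⟩
      apply Subtype.ext
      show gUS (a : Fˣ) hl0 h2 * (x : SL3 F) * (gUS (a : Fˣ) hl0 h2)⁻¹ = dg (-1) (-1)
      rw [hx']
      show gUS (a : Fˣ) hl0 h2 * (dg (a : Fˣ) (b : Fˣ) * tS F) * (gUS (a : Fˣ) hl0 h2)⁻¹
        = dg (-1) (-1)
      rw [hb, gUS_conj]
  -- assembly
  refine psu3_simple hF U hUp hidx hU1 ?_ ?_ S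
  · intro T hTU hT1 hT
    refine wreath_closed (d := d) (t := tU) (w := wU) (z₀ := d ⟨-1, hnegμ⟩ ⟨-1, hnegμ⟩) hA hS hUp
      hd_mul hd_one htU htd htA (fun a => ?_) hz₀ hinv hTU hT1 hT
    apply Subtype.ext
    show wS F * dg (a : Fˣ) ((a⁻¹ : μ) : Fˣ) * (wS F)⁻¹ = dg (a : Fˣ) ((1 : μ) : Fˣ)
    exact wS_dg _
  · intro g hg hodd
    refine wreath_centralize (d := d) (t := tU) (ν := ⟨-1, hnegμ⟩) (a₀ := ⟨ζ, hζμ⟩) hA hS hd_mul
      hd_one hd_inj htU htd htA ?_ ?_ ?_ hνμ ?_ hg hodd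
    · intro a
      exact ⟨j + 1, Subtype.ext (by
        show ((a ^ (2 ^ (j + 1)) : μ) : Fˣ) = 1
        rw [Subgroup.coe_pow]; exact hμpow a a.2)⟩
    · intro a ha
      have h1 : (a : Fˣ) * a = 1 := congrArg Subtype.val ha
      rcases unit_sq_one _ h1 with h | h
      · exact Or.inl (Subtype.ext h)
      · exact Or.inr (Subtype.ext h)
    · intro h
      exact hneg1 (congrArg Subtype.val h)
    · intro h
      exact hζζ (congrArg Subtype.val h)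

end Cfsg.Agent.Lib.Helper86.SU3
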