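import Mathlib
import Cfsg.Agent.Lib.Helper86.PSL2Fusion
import Cfsg.Agent.Lib.Helper86.Saturated

set_option autoImplicit false
set_option linter.style.haveILetI false
set_option linter.unusedSectionVars false
set_option linter.dupNamespace false
set_option linter.unusedVariables false

/-! # The quaternion type `2`-subgroup `Q = C₂ ∪ C₂ s` of `SL₂(F)` and its normalizer -/

namespace Cfsg.Agent.Lib.Helper86.Sp4

open Matrix

/-- `SL₂(F)` -/
abbrev L2 (F : Type*) [Field F] := Matrix.SpecialLinearGroup (Fin 2) F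

section extBy
variable {G : Type*} [Group G]

/-- the subgroup `A ∪ A s⁻¹` for `s` normalizing `A` with `s² ∈ A` -/
def extBy (A : Subgroup G) (s : G) (hs : s * s ∈ A) (hA : ∀ a ∈ A, s * a * s⁻¹ ∈ A) :
    Subgroup G where
  carrier := {x | x ∈ A ∨ x * s ∈ A}
  one_mem' := Or.inl A.one_mem
  mul_mem' := by
    have hA' : ∀ a ∈ A, s⁻¹ * a * s ∈ A := by
      intro a ha
      have e : s⁻¹ * a * s = (s * s)⁻¹ * (s * a * s⁻¹) * (s * s) := by group
      rw [e]
      exact A.mul_mem (A.mul_mem (A.inv_mem hs) (hA a ha)) hs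
    rintro x y (hx | hx) (hy | hy)
    · exact Or.inl (A.mul_mem hx hy)
    · right
      show x * y * s ∈ A
      rw [mul_assoc]
      exact A.mul_mem hx hy
    · right
      show x * y * s ∈ A
      have e : x * y * s = (x * s) * (s⁻¹ * y * s) := by group
      rw [e]
      exact A.mul_mem hx (hA' y hy)
    · left
      show x * y ∈ A
      have e : x * y = (x * s) * (s⁻¹ * (y * s) * s) * (s * s)⁻¹ := by group
      rw [e]
      exact A.mul_mem (A.mul_mem hx (hA' _ hy)) (A.inv_mem hs)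
  inv_mem' := by
    rintro x (hx | hx)
    · exact Or.inl (A.inv_mem hx)
    · right
      show x⁻¹ * s ∈ A
      have e : x⁻¹ * s = (s * (x * s)⁻¹ * s⁻¹) * (s * s) := by group
      rw [e]
      exact A.mul_mem (hA _ (A.inv_mem hx)) hs

theorem mem_extBy {A : Subgroup G} {s : G} {hs : s * s ∈ A} {hA : ∀ a ∈ A, s * a * s⁻¹ ∈ A}
    {x : G} : x ∈ extBy A s hs hA ↔ x ∈ A ∨ x * s ∈ A := Iff.rfl

end extBy

section sl2
variable {F : Type*} [Field F]

theorem l2_ext {g k : L2 F} (h : g.1 = k.1) : g = k := Subtype.ext h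

/-- the element `J` of order four -/
def jS : L2 F := ⟨!![0, -1; 1, 0], by simp [Matrix.det_fin_two]⟩

theorem jS_coe : (jS : L2 F).1 = !![0, -1; 1, 0] := rfl

theorem jS_sq : (jS : L2 F).1 * (jS : L2 F).1 = -1 := by
  rw [jS_coe]
  ext i j
  fin_cases i <;> fin_cases j <;> simp [Matrix.mul_apply, Fin.sum_univ_two]

theorem jS_mul_self : (jS : L2 F) * jS = -1 := l2_ext jS_sq

theorem comm_jS_iff (A : Matrix (Fin 2) (Fin 2) F) :
    A * (jS : L2 F).1 = (jS : L2 F).1 * A ↔ A 1 1 = A 0 0 ∧ A 1 0 = -A 0 1 := by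
  constructor
  · intro h
    have h00 := congrFun (congrFun h 0) 0
    have h01 := congrFun (congrFun h 0) 1
    simp only [jS_coe, Matrix.mul_apply, Fin.sum_univ_two] at h00 h01
    simp at h00 h01
    exact ⟨by linear_combination -h01, by linear_combination h00⟩
  · rintro ⟨h1, h2⟩
    ext i j
    fin_cases i <;> fin_cases j <;> simp [jS_coe, Matrix.mul_apply, Fin.sum_univ_two, h1, h2]

theorem anti_jS_iff (A : Matrix (Fin 2) (Fin 2) F) :
    A * (jS : L2 F).1 = -((jS : L2 F).1 * A) ↔ A 1 1 = -A 0 0 ∧ A 1 0 = A 0 1 := by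
  constructor
  · intro h
    have h00 := congrFun (congrFun h 0) 0
    have h01 := congrFun (congrFun h 0) 1
    simp only [jS_coe, Matrix.mul_apply, Fin.sum_univ_two, Matrix.neg_apply] at h00 h01
    simp at h00 h01
    exact ⟨by linear_combination -h01, by linear_combination -h00⟩
  · rintro ⟨h1, h2⟩
    ext i j
    rw [Matrix.neg_apply, Matrix.mul_apply, Matrix.mul_apply]
    simp only [Fin.sum_univ_two]
    fin_cases i <;> fin_cases j <;> simp [jS_coe, h1, h2]

theorem jS_not_scalar : ¬ Helper59.IsScalar2 (jS : L2 F).1 := by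
  rintro ⟨h, -, -⟩
  simp [jS_coe] at h

/-- elements commuting with `J` commute with each other -/
theorem comm_of_comm_jS (g k : L2 F) (hg : g * jS = jS * g) (hk : k * jS = jS * k) :
    g * k = k * g := by
  apply l2_ext
  rw [Matrix.SpecialLinearGroup.coe_mul, Matrix.SpecialLinearGroup.coe_mul]
  exact Helper59.comm_trans2 g.1 (jS : L2 F).1 k.1 jS_not_scalar
    (by rw [← Matrix.SpecialLinearGroup.coe_mul, hg, Matrix.SpecialLinearGroup.coe_mul])
    (by rw [← Matrix.SpecialLinearGroup.coe_mul, hk, Matrix.SpecialLinearGroup.coe_mul])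

/-- the `2`-elements commuting with `J` -/
def C2 : Subgroup (L2 F) where
  carrier := {g | g * jS = jS * g ∧ ∃ n : ℕ, g ^ (2 ^ n) = 1}
  one_mem' := ⟨by rw [one_mul, mul_one], 0, by simp⟩
  mul_mem' := by
    rintro g k ⟨hg, n, hn⟩ ⟨hk, m, hm⟩
    refine ⟨by rw [mul_assoc, hk, ← mul_assoc, hg, mul_assoc], n + m, ?_⟩
    have hc : Commute g k := comm_of_comm_jS g k hg hk
    rw [hc.mul_pow, pow_add, pow_mul, hn, one_pow, one_mul, mul_comm (2 ^ n), pow_mul, hm,
      one_pow]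
  inv_mem' := by
    rintro g ⟨hg, n, hn⟩
    refine ⟨?_, n, by rw [inv_pow, hn, inv_one]⟩
    calc g⁻¹ * jS = g⁻¹ * (jS * g) * g⁻¹ := by group
      _ = g⁻¹ * (g * jS) * g⁻¹ := by rw [hg]
      _ = jS * g⁻¹ := by group

theorem mem_C2 {g : L2 F} : g ∈ (C2 : Subgroup (L2 F)) ↔
    g * jS = jS * g ∧ ∃ n : ℕ, g ^ (2 ^ n) = 1 := Iff.rfl

theorem neg_one_sq : (-1 : L2 F) * (-1) = 1 := by
  apply l2_ext
  simp

theorem neg_one_mem_C2 : (-1 : L2 F) ∈ (C2 : Subgroup (L2 F)) := by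
  refine ⟨?_, 1, by rw [pow_one, pow_two, neg_one_sq]⟩
  apply l2_ext
  simp

theorem jS_mem_C2 : (jS : L2 F) ∈ (C2 : Subgroup (L2 F)) := by
  refine ⟨rfl, 2, ?_⟩
  have e : (jS : L2 F) ^ (2 ^ 2) = (jS * jS) * (jS * jS) := by
    norm_num
    rw [show (4 : ℕ) = 2 + 2 from rfl, pow_add, pow_two]
  rw [e, jS_mul_self, neg_one_sq]

variable {a b : F} (h : a * a + b * b = -1)

/-- the element `s` of order four inverting the centralizer of `J` -/
def sS (a b : F) (h : a * a + b * b = -1) : L2 F :=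
  ⟨!![a, b; b, -a], by rw [Matrix.det_fin_two]; simp; linear_combination -h⟩

theorem sS_coe : (sS a b h).1 = !![a, b; b, -a] := rfl

theorem sS_sq : (sS a b h).1 * (sS a b h).1 = -1 := by
  rw [sS_coe]
  ext i j
  fin_cases i <;> fin_cases j <;> simp [Matrix.mul_apply, Fin.sum_univ_two]
  · linear_combination h
  · ring
  · ring
  · linear_combination h

theorem sS_mul_self : sS a b h * sS a b h = -1 := l2_ext (sS_sq h)

theorem sS_anti : (sS a b h).1 * (jS : L2 F).1 = -((jS : L2 F).1 * (sS a b h).1) := by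
  rw [anti_jS_iff]
  simp [sS_coe]

theorem sS_jS : sS a b h * jS = -(jS * sS a b h) := l2_ext (sS_anti h)

/-- `s` inverts the centralizer of `J` -/
theorem sS_conj_mat (c : L2 F) (hc : c * jS = jS * c) :
    (sS a b h).1 * c.1 = (c⁻¹).1 * (sS a b h).1 := by
  have hc' := (comm_jS_iff c.1).1 (by
    rw [← Matrix.SpecialLinearGroup.coe_mul, hc, Matrix.SpecialLinearGroup.coe_mul])
  obtain ⟨h11, h10⟩ := hc'
  rw [Matrix.SpecialLinearGroup.coe_inv, Matrix.adjugate_fin_two, sS_coe]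
  ext i j
  fin_cases i <;> fin_cases j <;> simp [Matrix.mul_apply, Fin.sum_univ_two, h11, h10] <;> ring

theorem sS_conj (c : L2 F) (hc : c * jS = jS * c) : sS a b h * c = c⁻¹ * sS a b h :=
  l2_ext (sS_conj_mat h c hc)

theorem sS_conj' (c : L2 F) (hc : c * jS = jS * c) : sS a b h * c * (sS a b h)⁻¹ = c⁻¹ := by
  rw [sS_conj h c hc, mul_inv_cancel_right]

/-- the quaternion type subgroup `Q = C₂ ∪ C₂ s` -/
def Qs (a b : F) (h : a * a + b * b = -1) : Subgroup (L2 F) :=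
  extBy C2 (sS a b h) (by rw [sS_mul_self]; exact neg_one_mem_C2)
    (fun c hc => by rw [sS_conj' h c hc.1]; exact C2.inv_mem hc)

theorem mem_Qs {g : L2 F} : g ∈ Qs a b h ↔ g ∈ (C2 : Subgroup (L2 F)) ∨ g * sS a b h ∈ C2 :=
  Iff.rfl

theorem C2_le_Qs : (C2 : Subgroup (L2 F)) ≤ Qs a b h := fun g hg => Or.inl hg

theorem jS_mem_Qs : (jS : L2 F) ∈ Qs a b h := C2_le_Qs h jS_mem_C2

theorem neg_one_mem_Qs : (-1 : L2 F) ∈ Qs a b h := C2_le_Qs h neg_one_mem_C2

theorem sS_mem_Qs : sS a b h ∈ Qs a b h := by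
  right
  rw [sS_mul_self]
  exact neg_one_mem_C2


theorem neg_mem_Qs {g : L2 F} (hg : g ∈ Qs a b h) : -g ∈ Qs a b h := by
  have := (Qs a b h).mul_mem (neg_one_mem_Qs h) hg
  rwa [neg_one_mul] at this

theorem inv_comm_jS (g : L2 F) (hg : g * jS = jS * g) : g⁻¹ * jS = jS * g⁻¹ := by
  calc g⁻¹ * jS = g⁻¹ * (jS * g) * g⁻¹ := by group
    _ = g⁻¹ * (g * jS) * g⁻¹ := by rw [hg]
    _ = jS * g⁻¹ := by group

theorem pow_four_of_sq {g : L2 F} (hg : g * g = 1 ∨ g * g = -1) : g ^ (2 ^ 2) = 1 := by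
  have e : g ^ (2 ^ 2) = (g * g) * (g * g) := by
    norm_num
    rw [show (4 : ℕ) = 2 + 2 from rfl, pow_add, pow_two]
  rw [e]
  rcases hg with hg | hg
  · rw [hg, one_mul]
  · rw [hg, neg_one_sq]

/-- no element of `SL₂` is its own negative -/
theorem l2_ne_neg (h2 : (2 : F) ≠ 0) (A : L2 F) : A.1 ≠ -A.1 := by
  intro hA
  have h0 : A.1 = 0 := by
    ext i j
    have := congrFun (congrFun hA i) j
    rw [Matrix.neg_apply] at this
    have h3 : 2 * A.1 i j = 0 := by linear_combination this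
    rcases mul_eq_zero.1 h3 with h4 | h4
    · exact absurd h4 h2
    · simpa using h4
  have hd := A.det_coe
  rw [h0] at hd
  simp at hd

theorem l2_ne_neg' (h2 : (2 : F) ≠ 0) (A : L2 F) : A ≠ -A := fun hA =>
  l2_ne_neg h2 A (congrArg Subtype.val hA)

theorem one_ne_neg_one (h2 : (2 : F) ≠ 0) : (1 : L2 F) ≠ -1 := l2_ne_neg' h2 1

/-- elements of `Q` outside `C₂` have square `-1` -/
theorem sq_of_mul_sS_mem (g : L2 F) (hg : g * sS a b h ∈ (C2 : Subgroup (L2 F))) :
    g * g = -1 := by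
  have h1 : sS a b h * (g * sS a b h) = (g * sS a b h)⁻¹ * sS a b h := sS_conj h _ hg.1
  have h2 : sS a b h * sS a b h * g = g⁻¹ := by
    have h3 : sS a b h * g = (sS a b h)⁻¹ * g⁻¹ := by
      rw [_root_.mul_inv_rev] at h1
      exact mul_right_cancel (by rw [mul_assoc]; exact h1)
    rw [mul_assoc, h3, mul_inv_cancel_left]
  rw [sS_mul_self] at h2
  have h3 : g * (-1 * g) = 1 := by rw [h2, mul_inv_cancel]
  rw [neg_one_mul, mul_neg] at h3
  have h4 := congrArg Neg.neg h3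
  rwa [neg_neg] at h4

theorem Qs_pow (g : L2 F) (hg : g ∈ Qs a b h) : ∃ n : ℕ, g ^ (2 ^ n) = 1 := by
  rcases hg with hg | hg
  · exact hg.2
  · exact ⟨2, pow_four_of_sq (Or.inr (sq_of_mul_sS_mem h g hg))⟩

theorem mul_sS_sq (c : L2 F) (hc : c ∈ (C2 : Subgroup (L2 F))) :
    (c * sS a b h) * (c * sS a b h) = -1 :=
  sq_of_mul_sS_mem h _ (by rw [mul_assoc, sS_mul_self]; exact C2.mul_mem hc neg_one_mem_C2)

theorem sS_jS_ne (h2 : (2 : F) ≠ 0) : sS a b h * jS ≠ jS * sS a b h := by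
  intro h3
  rw [sS_jS] at h3
  exact l2_ne_neg' h2 _ h3.symm

/-- elements of `Q` commuting with `J` lie in `C₂` -/
theorem mem_C2_of_mem_Qs_comm (h2 : (2 : F) ≠ 0) (g : L2 F) (hg : g ∈ Qs a b h)
    (hc : g * jS = jS * g) : g ∈ (C2 : Subgroup (L2 F)) := by
  rcases hg with hg | hg
  · exact hg
  · exfalso
    have h1 := hg.1
    have h3 : sS a b h * jS = jS * sS a b h := by
      have : g * (sS a b h * jS) = g * (jS * sS a b h) := by
        rw [← mul_assoc, h1, ← mul_assoc, ← hc, mul_assoc]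
      exact mul_left_cancel this
    exact sS_jS_ne h h2 h3

/-- the center of `Q` is `±1` -/
theorem Qs_center (h2 : (2 : F) ≠ 0) (g : L2 F) (hg : g ∈ Qs a b h)
    (hcen : ∀ c ∈ Qs a b h, c * g = g * c) : g = 1 ∨ g = -1 := by
  have hJ := hcen jS (jS_mem_Qs h)
  have hgC := mem_C2_of_mem_Qs_comm h h2 g hg hJ.symm
  have hs := hcen _ (sS_mem_Qs h)
  rw [sS_conj h g hgC.1] at hs
  have h3 : g⁻¹ = g := mul_right_cancel hs
  have h4 : g * g = 1 := by
    nth_rewrite 1 [← h3]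
    exact inv_mul_cancel g
  rcases Helper41.sl2_sq_eq_one h2 g (by rw [← Matrix.SpecialLinearGroup.coe_mul, h4]; rfl)
    with h5 | h5
  · exact Or.inl (l2_ext h5)
  · exact Or.inr (l2_ext h5)

/-- a nontrivial `2`-element of `SL₂` has `-1` among its powers -/
theorem exists_pow_eq_neg_one (h2 : (2 : F) ≠ 0) (w : L2 F) (hw : w ≠ 1) (n : ℕ)
    (hn : w ^ (2 ^ n) = 1) : ∃ k : ℕ, w ^ k = -1 := by
  induction n with
  | zero =>
    rw [pow_zero, pow_one] at hn
    exact absurd hn hw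
  | succ n ih =>
    by_cases h1 : w ^ (2 ^ n) = 1
    · exact ih h1
    · refine ⟨2 ^ n, ?_⟩
      have hsq : (w ^ (2 ^ n)) * (w ^ (2 ^ n)) = 1 := by
        rw [← pow_add, ← two_mul, ← pow_succ']
        exact hn
      rcases Helper41.sl2_sq_eq_one h2 _
        (by rw [← Matrix.SpecialLinearGroup.coe_mul, hsq]; rfl) with h3 | h3
      · exact absurd (l2_ext h3) h1
      · exact l2_ext h3

/-- an element commuting with `J` and commuting up to sign with `s` lies in `C₂` -/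
theorem mem_C2_of_comm (g : L2 F) (hJ : g.1 * (jS : L2 F).1 = (jS : L2 F).1 * g.1)
    (hs : g.1 * (sS a b h).1 = (sS a b h).1 * g.1 ∨ g.1 * (sS a b h).1 = -((sS a b h).1 * g.1)) :
    g ∈ (C2 : Subgroup (L2 F)) := by
  have hJ' : g * jS = jS * g := l2_ext (by
    rw [Matrix.SpecialLinearGroup.coe_mul, Matrix.SpecialLinearGroup.coe_mul]; exact hJ)
  have hc := sS_conj h g hJ'
  refine ⟨hJ', 2, pow_four_of_sq ?_⟩
  rcases hs with hs | hs
  · left
    have h1 : g * sS a b h = sS a b h * g := l2_ext (by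
      rw [Matrix.SpecialLinearGroup.coe_mul, Matrix.SpecialLinearGroup.coe_mul]; exact hs)
    rw [hc] at h1
    have h3 : g = g⁻¹ := mul_right_cancel h1
    nth_rewrite 2 [h3]
    exact mul_inv_cancel g
  · right
    have h1 : g * sS a b h = -(sS a b h * g) := l2_ext (by
      rw [Matrix.SpecialLinearGroup.coe_mul, Matrix.SpecialLinearGroup.coe_neg,
        Matrix.SpecialLinearGroup.coe_mul]; exact hs)
    rw [hc] at h1
    have h3 : g = -g⁻¹ := by
      have : g * sS a b h = (-g⁻¹) * sS a b h := by rw [h1, neg_mul]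
      exact mul_right_cancel this
    nth_rewrite 2 [h3]
    rw [mul_neg, mul_inv_cancel]

/-- an element commuting up to sign with `J` and with `s` lies in `Q` -/
theorem mem_Qs_of_comm (g : L2 F)
    (hJ : g.1 * (jS : L2 F).1 = (jS : L2 F).1 * g.1 ∨
      g.1 * (jS : L2 F).1 = -((jS : L2 F).1 * g.1))
    (hs : g.1 * (sS a b h).1 = (sS a b h).1 * g.1 ∨ g.1 * (sS a b h).1 = -((sS a b h).1 * g.1)) :
    g ∈ Qs a b h := by
  rcases hJ with hJ | hJ
  · exact Or.inl (mem_C2_of_comm h g hJ hs)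
  · right
    apply mem_C2_of_comm h
    · rw [Matrix.SpecialLinearGroup.coe_mul, mul_assoc, sS_anti h, mul_neg, ← mul_assoc, hJ,
        neg_mul, neg_neg, mul_assoc]
    · rcases hs with hs | hs
      · left
        rw [Matrix.SpecialLinearGroup.coe_mul, ← mul_assoc, hs]
      · right
        rw [Matrix.SpecialLinearGroup.coe_mul, ← mul_assoc, hs, neg_mul]

/-- an element of square `-1` commuting with `J` is `±J` -/
theorem eq_jS_of_sq (h2 : (2 : F) ≠ 0) (w : L2 F)
    (hJ : w.1 * (jS : L2 F).1 = (jS : L2 F).1 * w.1) (hw : w.1 * w.1 = -1) :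
    w.1 = (jS : L2 F).1 ∨ w.1 = -(jS : L2 F).1 := by
  obtain ⟨h11, h10⟩ := (comm_jS_iff w.1).1 hJ
  have hd := w.det_coe
  rw [Matrix.det_fin_two, h11, h10] at hd
  have h00 := congrFun (congrFun hw 0) 0
  simp only [Matrix.mul_apply, Fin.sum_univ_two, h10] at h00
  simp at h00
  have hu : w.1 0 0 = 0 := by
    have h3 : 2 * (w.1 0 0 * w.1 0 0) = 0 := by linear_combination hd + h00
    rcases mul_eq_zero.1 h3 with h4 | h4
    · exact absurd h4 h2
    · exact mul_self_eq_zero.1 h4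
  have hv : (w.1 0 1 - 1) * (w.1 0 1 + 1) = 0 := by
    rw [hu] at hd
    linear_combination hd
  rcases mul_eq_zero.1 hv with hv | hv
  · right
    have hv' : w.1 0 1 = 1 := by linear_combination hv
    ext i j
    fin_cases i <;> fin_cases j <;> simp [jS_coe, hu, h11, h10, hv']
  · left
    have hv' : w.1 0 1 = -1 := by linear_combination hv
    ext i j
    fin_cases i <;> fin_cases j <;> simp [jS_coe, hu, h11, h10, hv']

/-- an element normalizing `Q` and commuting with `J` lies in `C₂` -/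
theorem mem_C2_of_norm_comm (h2 : (2 : F) ≠ 0) (g : L2 F)
    (hN : ∀ q ∈ Qs a b h, g * q * g⁻¹ ∈ Qs a b h) (hJ : g * jS = jS * g) :
    g ∈ (C2 : Subgroup (L2 F)) := by
  have h1 := hN _ (sS_mem_Qs h)
  have h3 : sS a b h * g⁻¹ = g * sS a b h := by
    have := sS_conj h g⁻¹ (inv_comm_jS g hJ)
    rwa [inv_inv] at this
  have e : g * sS a b h * g⁻¹ = g * g * sS a b h := by rw [mul_assoc, h3, ← mul_assoc]
  rw [e] at h1
  have h4 : g * g ∈ Qs a b h := by
    have := (Qs a b h).mul_mem h1 ((Qs a b h).inv_mem (sS_mem_Qs h))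
    rwa [mul_inv_cancel_right] at this
  have h5 : g * g ∈ (C2 : Subgroup (L2 F)) := mem_C2_of_mem_Qs_comm h h2 _ h4
    (by rw [mul_assoc, hJ, ← mul_assoc, hJ, mul_assoc])
  obtain ⟨n, hn⟩ := h5.2
  refine ⟨hJ, n + 1, ?_⟩
  rw [pow_succ', pow_mul, pow_two]
  exact hn

/-- an element normalizing `Q` and commuting up to sign with `J` lies in `Q` -/
theorem mem_Qs_of_norm (h2 : (2 : F) ≠ 0) (g : L2 F)
    (hN : ∀ q ∈ Qs a b h, g * q * g⁻¹ ∈ Qs a b h)
    (hJ : g * jS = jS * g ∨ g * jS = -(jS * g)) : g ∈ Qs a b h := by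
  rcases hJ with hJ | hJ
  · exact Or.inl (mem_C2_of_norm_comm h h2 g hN hJ)
  · right
    apply mem_C2_of_norm_comm h h2 (g * sS a b h)
    · intro q hq
      have e : g * sS a b h * q * (g * sS a b h)⁻¹
          = g * (sS a b h * q * (sS a b h)⁻¹) * g⁻¹ := by group
      rw [e]
      exact hN _ ((Qs a b h).mul_mem ((Qs a b h).mul_mem (sS_mem_Qs h) hq)
        ((Qs a b h).inv_mem (sS_mem_Qs h)))
    · rw [mul_assoc, sS_jS h, mul_neg, ← mul_assoc, hJ, neg_mul, neg_neg, mul_assoc]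

/-- if `C₂` has an element of order at least eight, the normalizer of `Q` normalizes `⟨J⟩` -/
theorem norm_comm_of_big (h2 : (2 : F) ≠ 0) (c₀ : L2 F) (hc₀ : c₀ ∈ (C2 : Subgroup (L2 F)))
    (h1 : c₀ * c₀ ≠ 1) (hm1 : c₀ * c₀ ≠ -1) (g : L2 F)
    (hN : ∀ q ∈ Qs a b h, g * q * g⁻¹ ∈ Qs a b h) :
    g * jS = jS * g ∨ g * jS = -(jS * g) := by
  have hq := hN c₀ (C2_le_Qs h hc₀)
  have hC : g * c₀ * g⁻¹ ∈ (C2 : Subgroup (L2 F)) := by
    rcases hq with hq | hq
    · exact hq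
    · exfalso
      have h3 := sq_of_mul_sS_mem h _ hq
      have e : g * c₀ * g⁻¹ * (g * c₀ * g⁻¹) = g * (c₀ * c₀) * g⁻¹ := by group
      rw [e] at h3
      apply hm1
      have h4 : c₀ * c₀ = g⁻¹ * (g * (c₀ * c₀) * g⁻¹) * g := by group
      rw [h4, h3, mul_neg, mul_one, neg_mul, inv_mul_cancel]
  have h3 : (g⁻¹ * jS * g) * c₀ = c₀ * (g⁻¹ * jS * g) := by
    have h4 := hC.1
    calc (g⁻¹ * jS * g) * c₀ = g⁻¹ * (jS * (g * c₀ * g⁻¹)) * g := by group
      _ = g⁻¹ * (g * c₀ * g⁻¹ * jS) * g := by rw [h4]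
      _ = c₀ * (g⁻¹ * jS * g) := by group
  have hns : ¬ Helper59.IsScalar2 c₀.1 := by
    intro hsc
    have hcen : c₀ ∈ Subgroup.center (L2 F) := (Helper59.mem_center_sl2_iff c₀).2 hsc
    rw [Helper41.sl2_mem_center_iff] at hcen
    apply h1
    apply l2_ext
    rcases hcen with hc | hc
    · rw [Matrix.SpecialLinearGroup.coe_mul, hc, mul_one]
      rfl
    · rw [Matrix.SpecialLinearGroup.coe_mul, hc]
      simp
  have h4 : (g⁻¹ * jS * g).1 * (jS : L2 F).1 = (jS : L2 F).1 * (g⁻¹ * jS * g).1 :=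
    Helper59.comm_trans2 (g⁻¹ * jS * g).1 c₀.1 (jS : L2 F).1 hns
      (by rw [← Matrix.SpecialLinearGroup.coe_mul, h3, Matrix.SpecialLinearGroup.coe_mul])
      (by rw [← Matrix.SpecialLinearGroup.coe_mul, ← hc₀.1, Matrix.SpecialLinearGroup.coe_mul])
  have h5 : (g⁻¹ * jS * g).1 * (g⁻¹ * jS * g).1 = -1 := by
    have h6 : (g⁻¹ * jS * g) * (g⁻¹ * jS * g) = -1 := by
      calc g⁻¹ * jS * g * (g⁻¹ * jS * g) = g⁻¹ * (jS * jS) * g := by group
        _ = -1 := by rw [jS_mul_self, mul_neg, mul_one, neg_mul, inv_mul_cancel]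
    rw [← Matrix.SpecialLinearGroup.coe_mul, h6]
    rfl
  rcases eq_jS_of_sq h2 _ h4 h5 with h6 | h6
  · left
    have h7 : g⁻¹ * jS * g = jS := l2_ext h6
    have e : g * jS = g * (g⁻¹ * jS * g) := by rw [h7]
    rw [e]
    group
  · right
    have h7 : g⁻¹ * jS * g = -jS := l2_ext h6
    have e : g * jS = -(g * (g⁻¹ * jS * g)) := by rw [h7, mul_neg, neg_neg]
    rw [e]
    congr 1
    group


theorem jS_ne_one : (jS : L2 F) ≠ 1 := by
  intro h3
  have := congrFun (congrFun (congrArg Subtype.val h3) 0) 1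
  simp [jS_coe] at this

theorem jS_ne_neg_one : (jS : L2 F) ≠ -1 := by
  intro h3
  have := congrFun (congrFun (congrArg Subtype.val h3) 0) 1
  simp [jS_coe] at this

theorem sS_inv : (sS a b h)⁻¹ = -sS a b h := by
  symm
  apply eq_inv_of_mul_eq_one_right
  rw [mul_neg, sS_mul_self, neg_neg]

/-- all elements of order four of `SL₂(F)` are conjugate -/
theorem exists_conj_of_sq [Fintype F] (h2 : (2 : F) ≠ 0) (u v : L2 F) (hu : u * u = -1)
    (hv : v * v = -1) : ∃ P : L2 F, P * u * P⁻¹ = v := by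
  have tr0 : ∀ w : L2 F, w * w = -1 → w.1.trace = 0 := by
    intro w hw
    have hc := Helper41.cayley2_det_one w.det_coe
    have hw' : w.1 * w.1 = -1 := by
      rw [← Matrix.SpecialLinearGroup.coe_mul, hw]
      rfl
    rw [hw'] at hc
    have hz : w.1.trace • w.1 = 0 := by
      have : w.1.trace • w.1 = (w.1.trace • w.1 - 1) + 1 := by abel
      rw [this, ← hc]
      simp
    by_contra ht
    rcases smul_eq_zero.mp hz with h3 | h3
    · exact ht h3
    · have hdet := w.det_coe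
      rw [h3] at hdet
      simp at hdet
  have h4 : u.1.trace * u.1.trace ≠ 4 := by
    rw [tr0 u hu]
    intro h3
    apply h2
    have : (2 : F) * 2 = 0 := by linear_combination -h3
    exact mul_self_eq_zero.mp this
  exact Helper41.conj_of_trace_eq h2 u v h4 ((tr0 v hv).trans (tr0 u hu).symm)

instance finite_L2 [Fintype F] : Finite (L2 F) :=
  Finite.of_injective (fun g : L2 F => g.1) (fun _ _ hgk => l2_ext hgk)

/-! ### The quaternion group of order eight -/

/-- the element of order three or six normalizing the quaternion group `⟨J, s⟩` -/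
def xS (h2 : (2 : F) ≠ 0) (a b : F) (h : a * a + b * b = -1) : L2 F :=
  ⟨!![(1 + a - b) / 2, (a + b - 1) / 2; (a + b + 1) / 2, (1 - a + b) / 2], by
    rw [Matrix.det_fin_two]
    simp
    field_simp
    linear_combination (-2) * h⟩

theorem xS_coe (h2 : (2 : F) ≠ 0) : (xS h2 a b h).1 =
    !![(1 + a - b) / 2, (a + b - 1) / 2; (a + b + 1) / 2, (1 - a + b) / 2] := rfl

theorem xS_coe_eq (h2 : (2 : F) ≠ 0) : (xS h2 a b h).1 =
    (1 / 2 : F) • ((1 + (jS : L2 F).1) * (1 + (sS a b h).1)) := by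
  rw [xS_coe, jS_coe, sS_coe]
  ext i j
  fin_cases i <;> fin_cases j <;>
    simp [Matrix.mul_apply, Fin.sum_univ_two, Matrix.one_apply] <;> ring

theorem xS_jS (h2 : (2 : F) ≠ 0) : xS h2 a b h * jS = sS a b h * xS h2 a b h := by
  apply l2_ext
  rw [Matrix.SpecialLinearGroup.coe_mul, Matrix.SpecialLinearGroup.coe_mul, xS_coe, jS_coe,
    sS_coe]
  ext i j
  fin_cases i <;> fin_cases j <;> simp [Matrix.mul_apply, Fin.sum_univ_two] <;> field_simp <;>
    first | ring1 | linear_combination h | linear_combination -h | linear_combination 2 * h | linear_combination (-2) * h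

theorem xS_sS (h2 : (2 : F) ≠ 0) :
    xS h2 a b h * sS a b h = jS * sS a b h * xS h2 a b h := by
  apply l2_ext
  rw [Matrix.SpecialLinearGroup.coe_mul, Matrix.SpecialLinearGroup.coe_mul,
    Matrix.SpecialLinearGroup.coe_mul, xS_coe, jS_coe, sS_coe]
  ext i j
  fin_cases i <;> fin_cases j <;> simp [Matrix.mul_apply, Fin.sum_univ_two] <;> field_simp <;>
    first | ring1 | linear_combination h | linear_combination -h | linear_combination 2 * h | linear_combination (-2) * h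

theorem xS_jS_sS (h2 : (2 : F) ≠ 0) :
    xS h2 a b h * (jS * sS a b h) = jS * xS h2 a b h := by
  apply l2_ext
  rw [Matrix.SpecialLinearGroup.coe_mul, Matrix.SpecialLinearGroup.coe_mul,
    Matrix.SpecialLinearGroup.coe_mul, xS_coe, jS_coe, sS_coe]
  ext i j
  fin_cases i <;> fin_cases j <;> simp [Matrix.mul_apply, Fin.sum_univ_two] <;> field_simp <;>
    first | ring1 | linear_combination h | linear_combination -h | linear_combination 2 * h | linear_combination (-2) * h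

theorem xS_sq (h2 : (2 : F) ≠ 0) :
    (xS h2 a b h).1 * (xS h2 a b h).1 = (xS h2 a b h).1 - 1 := by
  have hc := Helper41.cayley2_det_one (xS h2 a b h).det_coe
  have ht : (xS h2 a b h).1.trace = 1 := by
    rw [xS_coe, Matrix.trace_fin_two]
    simp
    field_simp
    ring
  rw [hc, ht, one_smul]

theorem xS_cube (h2 : (2 : F) ≠ 0) : xS h2 a b h * xS h2 a b h * xS h2 a b h = -1 := by
  apply l2_ext
  rw [Matrix.SpecialLinearGroup.coe_mul, Matrix.SpecialLinearGroup.coe_mul, xS_sq, sub_mul,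
    one_mul, xS_sq]
  simp

theorem xS_offdiag (h2 : (2 : F) ≠ 0) :
    ¬ ((xS h2 a b h).1 0 1 = 0 ∧ (xS h2 a b h).1 1 0 = 0) := by
  rintro ⟨h01, h10⟩
  simp [xS_coe] at h01 h10
  have : (2 : F) = 0 := by
    rcases h01 with h01 | h01
    · rcases h10 with h10 | h10
      · linear_combination h10 - h01
      · exact h10
    · exact h01
  exact h2 this

theorem xinv_sS (h2 : (2 : F) ≠ 0) :
    (xS h2 a b h)⁻¹ * sS a b h = jS * (xS h2 a b h)⁻¹ := by
  have h3 := xS_jS h h2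
  calc (xS h2 a b h)⁻¹ * sS a b h
      = (xS h2 a b h)⁻¹ * (sS a b h * xS h2 a b h) * (xS h2 a b h)⁻¹ := by group
    _ = (xS h2 a b h)⁻¹ * (xS h2 a b h * jS) * (xS h2 a b h)⁻¹ := by rw [h3]
    _ = jS * (xS h2 a b h)⁻¹ := by group

theorem xinv_jS_sS (h2 : (2 : F) ≠ 0) :
    (xS h2 a b h)⁻¹ * (jS * sS a b h) = sS a b h * (xS h2 a b h)⁻¹ := by
  have h3 := xS_sS h h2
  calc (xS h2 a b h)⁻¹ * (jS * sS a b h)
      = (xS h2 a b h)⁻¹ * (jS * sS a b h * xS h2 a b h) * (xS h2 a b h)⁻¹ := by group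
    _ = (xS h2 a b h)⁻¹ * (xS h2 a b h * sS a b h) * (xS h2 a b h)⁻¹ := by rw [h3]
    _ = sS a b h * (xS h2 a b h)⁻¹ := by group

section small
variable (h2 : (2 : F) ≠ 0)
  (hA : ∀ c ∈ (C2 : Subgroup (L2 F)), c * c = 1 ∨ c * c = -1)
include h2 hA

theorem C2_list (c : L2 F) (hc : c ∈ (C2 : Subgroup (L2 F))) :
    c = 1 ∨ c = -1 ∨ c = jS ∨ c = -jS := by
  rcases hA c hc with h1 | h1
  · rcases Helper41.sl2_sq_eq_one h2 c
      (by rw [← Matrix.SpecialLinearGroup.coe_mul, h1]; rfl) with h3 | h3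
    · exact Or.inl (l2_ext h3)
    · exact Or.inr (Or.inl (l2_ext h3))
  · have hJ : c.1 * (jS : L2 F).1 = (jS : L2 F).1 * c.1 := by
      rw [← Matrix.SpecialLinearGroup.coe_mul, hc.1, Matrix.SpecialLinearGroup.coe_mul]
    rcases eq_jS_of_sq h2 c hJ
      (by rw [← Matrix.SpecialLinearGroup.coe_mul, h1]; rfl) with h3 | h3
    · exact Or.inr (Or.inr (Or.inl (l2_ext h3)))
    · exact Or.inr (Or.inr (Or.inr (l2_ext h3)))

theorem Qs_list (q : L2 F) (hq : q ∈ Qs a b h) :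
    q = 1 ∨ q = -1 ∨ q = jS ∨ q = -jS ∨ q = sS a b h ∨ q = -sS a b h ∨
      q = jS * sS a b h ∨ q = -(jS * sS a b h) := by
  rcases hq with hq | hq
  · rcases C2_list h2 hA q hq with h1 | h1 | h1 | h1
    · exact Or.inl h1
    · exact Or.inr (Or.inl h1)
    · exact Or.inr (Or.inr (Or.inl h1))
    · exact Or.inr (Or.inr (Or.inr (Or.inl h1)))
  · have e : q = (q * sS a b h) * (-sS a b h) := by rw [← sS_inv h, mul_inv_cancel_right]
    rcases C2_list h2 hA _ hq with h1 | h1 | h1 | h1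
    · right; right; right; right; right; left
      rw [e, h1, one_mul]
    · right; right; right; right; left
      rw [e, h1, neg_mul_neg, one_mul]
    · right; right; right; right; right; right; right
      rw [e, h1, mul_neg]
    · right; right; right; right; right; right; left
      rw [e, h1, neg_mul_neg]

theorem Qs_sq (q : L2 F) (hq : q ∈ Qs a b h) : q * q = 1 ∨ q * q = -1 := by
  rcases hq with hq | hq
  · exact hA q hq
  · exact Or.inr (sq_of_mul_sS_mem h q hq)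

theorem xS_conj_mem (q : L2 F) (hq : q ∈ Qs a b h) :
    xS h2 a b h * q * (xS h2 a b h)⁻¹ ∈ Qs a b h := by
  have e1 : xS h2 a b h * jS * (xS h2 a b h)⁻¹ = sS a b h := by
    rw [xS_jS, mul_inv_cancel_right]
  have e2 : xS h2 a b h * sS a b h * (xS h2 a b h)⁻¹ = jS * sS a b h := by
    rw [xS_sS, mul_inv_cancel_right]
  have e3 : xS h2 a b h * (jS * sS a b h) * (xS h2 a b h)⁻¹ = jS := by
    rw [xS_jS_sS, mul_inv_cancel_right]
  have hJs : jS * sS a b h ∈ Qs a b h := (Qs a b h).mul_mem (jS_mem_Qs h) (sS_mem_Qs h)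
  rcases Qs_list h h2 hA q hq with rfl | rfl | rfl | rfl | rfl | rfl | rfl | rfl
  · rw [mul_one, mul_inv_cancel]
    exact (Qs a b h).one_mem
  · rw [mul_neg, mul_one, neg_mul, mul_inv_cancel]
    exact neg_one_mem_Qs h
  · rw [e1]
    exact sS_mem_Qs h
  · rw [mul_neg, neg_mul, e1]
    exact neg_mem_Qs h (sS_mem_Qs h)
  · rw [e2]
    exact hJs
  · rw [mul_neg, neg_mul, e2]
    exact neg_mem_Qs h hJs
  · rw [e3]
    exact jS_mem_Qs h
  · rw [mul_neg, neg_mul, e3]
    exact neg_mem_Qs h (jS_mem_Qs h)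

theorem xS_not_mem : xS h2 a b h ∉ Qs a b h := by
  intro hx
  apply xS_offdiag h h2
  have h3 : (xS h2 a b h).1 - 1 = 1 ∨ (xS h2 a b h).1 - 1 = -1 := by
    rw [← xS_sq, ← Matrix.SpecialLinearGroup.coe_mul]
    rcases Qs_sq h h2 hA _ hx with h4 | h4
    · left; rw [h4]; rfl
    · right; rw [h4]; rfl
  rcases h3 with h3 | h3
  · have h01 := congrFun (congrFun h3 0) 1
    have h10 := congrFun (congrFun h3 1) 0
    simp at h01 h10
    exact ⟨h01, h10⟩
  · have h01 := congrFun (congrFun h3 0) 1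
    have h10 := congrFun (congrFun h3 1) 0
    simp at h01 h10
    exact ⟨h01, h10⟩

theorem xS_sq_not_mem : xS h2 a b h * xS h2 a b h ∉ Qs a b h := by
  intro hx
  apply xS_offdiag h h2
  have h3 : xS h2 a b h = 1 ∨ xS h2 a b h = -1 := by
    have e : xS h2 a b h * xS h2 a b h * (xS h2 a b h * xS h2 a b h)
        = (xS h2 a b h * xS h2 a b h * xS h2 a b h) * xS h2 a b h := by group
    rcases Qs_sq h h2 hA _ hx with h4 | h4
    · right
      rw [e, xS_cube, neg_one_mul] at h4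
      have h5 := congrArg Neg.neg h4
      rwa [neg_neg] at h5
    · left
      rw [e, xS_cube, neg_one_mul] at h4
      exact neg_injective h4
  rcases h3 with h3 | h3
  · rw [h3]
    simp
  · rw [h3]
    simp

variable [Fintype F]

theorem xS_mem_normalizer : xS h2 a b h ∈ Subgroup.normalizer (Qs a b h : Set (L2 F)) :=
  mem_normalizer_of_finite (fun q hq => xS_conj_mem h h2 hA q hq)

theorem normalizer_cases (g : L2 F)
    (hg : g ∈ Subgroup.normalizer (Qs a b h : Set (L2 F))) :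
    g ∈ Qs a b h ∨ (xS h2 a b h)⁻¹ * g ∈ Qs a b h ∨
      (xS h2 a b h)⁻¹ * (xS h2 a b h)⁻¹ * g ∈ Qs a b h := by
  have hxN := xS_mem_normalizer h h2 hA
  have hN : ∀ k ∈ Subgroup.normalizer (Qs a b h : Set (L2 F)), ∀ q ∈ Qs a b h,
      k * q * k⁻¹ ∈ Qs a b h := fun k hk q hq => (Subgroup.mem_normalizer_iff.1 hk q).1 hq
  have hw := hN g hg jS (jS_mem_Qs h)
  have hxi := (Subgroup.normalizer (Qs a b h : Set (L2 F))).inv_mem hxN
  have eJ : (jS : L2 F) = g⁻¹ * (g * jS * g⁻¹) * g := by group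
  have e : g * jS = (g * jS * g⁻¹) * g := by group
  have e1 : (xS h2 a b h)⁻¹ * g * jS = (xS h2 a b h)⁻¹ * (g * jS * g⁻¹) * g := by group
  have e2 : (xS h2 a b h)⁻¹ * (xS h2 a b h)⁻¹ * g * jS
      = (xS h2 a b h)⁻¹ * ((xS h2 a b h)⁻¹ * (g * jS * g⁻¹)) * g := by group
  rcases Qs_list h h2 hA _ hw with h1 | h1 | h1 | h1 | h1 | h1 | h1 | h1
  · exfalso
    apply jS_ne_one (F := F)
    rw [eJ, h1]
    group
  · exfalso
    apply jS_ne_neg_one (F := F)
    rw [eJ, h1, mul_neg, mul_one, neg_mul, inv_mul_cancel]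
  · left
    apply mem_Qs_of_norm h h2 g (hN g hg)
    left
    rw [e, h1]
  · left
    apply mem_Qs_of_norm h h2 g (hN g hg)
    right
    rw [e, h1, neg_mul]
  · right; left
    apply mem_Qs_of_norm h h2 _ (hN _ ((Subgroup.normalizer _).mul_mem hxi hg))
    left
    rw [e1, h1, xinv_sS, mul_assoc]
  · right; left
    apply mem_Qs_of_norm h h2 _ (hN _ ((Subgroup.normalizer _).mul_mem hxi hg))
    right
    rw [e1, h1, mul_neg, neg_mul, xinv_sS, mul_assoc]
  · right; right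
    apply mem_Qs_of_norm h h2 _ (hN _ ((Subgroup.normalizer _).mul_mem
      ((Subgroup.normalizer _).mul_mem hxi hxi) hg))
    left
    rw [e2, h1, xinv_jS_sS, ← mul_assoc, xinv_sS]
    simp only [mul_assoc]
  · right; right
    apply mem_Qs_of_norm h h2 _ (hN _ ((Subgroup.normalizer _).mul_mem
      ((Subgroup.normalizer _).mul_mem hxi hxi) hg))
    right
    rw [e2, h1, mul_neg, mul_neg, neg_mul, xinv_jS_sS, ← mul_assoc, xinv_sS]
    simp only [mul_assoc]

theorem sq_not_mem (k : L2 F) (hk : k ∈ Subgroup.normalizer (Qs a b h : Set (L2 F)))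
    (hkQ : k ∉ Qs a b h) : k * k ∉ Qs a b h := by
  have hxN := xS_mem_normalizer h h2 hA
  have hxi := (Subgroup.normalizer (Qs a b h : Set (L2 F))).inv_mem hxN
  intro hkk
  rcases normalizer_cases h h2 hA k hk with h1 | h1 | h1
  · exact hkQ h1
  · apply xS_sq_not_mem h h2 hA
    have h3 : (xS h2 a b h)⁻¹ * ((xS h2 a b h)⁻¹ * k) * xS h2 a b h ∈ Qs a b h := by
      have := (Subgroup.mem_normalizer_iff.1 hxi ((xS h2 a b h)⁻¹ * k)).1 h1
      rwa [inv_inv] at this
    have e : xS h2 a b h * xS h2 a b h = (k * k) * ((xS h2 a b h)⁻¹ * k)⁻¹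
        * ((xS h2 a b h)⁻¹ * ((xS h2 a b h)⁻¹ * k) * xS h2 a b h)⁻¹ := by
      rw [← pow_two]
      group
    rw [e]
    exact (Qs a b h).mul_mem ((Qs a b h).mul_mem hkk ((Qs a b h).inv_mem h1))
      ((Qs a b h).inv_mem h3)
  · apply xS_not_mem h h2 hA
    have hxi2 := (Subgroup.normalizer (Qs a b h : Set (L2 F))).mul_mem hxi hxi
    have h3 : (xS h2 a b h)⁻¹ * (xS h2 a b h)⁻¹ * ((xS h2 a b h)⁻¹ * (xS h2 a b h)⁻¹ * k)
        * (xS h2 a b h * xS h2 a b h) ∈ Qs a b h := by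
      have := (Subgroup.mem_normalizer_iff.1 hxi2 ((xS h2 a b h)⁻¹ * (xS h2 a b h)⁻¹ * k)).1 h1
      rwa [_root_.mul_inv_rev, inv_inv] at this
    have hx3 : xS h2 a b h * xS h2 a b h * xS h2 a b h ∈ Qs a b h := by
      rw [xS_cube]
      exact neg_one_mem_Qs h
    have e : xS h2 a b h = (xS h2 a b h * xS h2 a b h * xS h2 a b h)⁻¹ * (k * k)
        * ((xS h2 a b h)⁻¹ * (xS h2 a b h)⁻¹ * k)⁻¹
        * ((xS h2 a b h)⁻¹ * (xS h2 a b h)⁻¹ * ((xS h2 a b h)⁻¹ * (xS h2 a b h)⁻¹ * k)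
          * (xS h2 a b h * xS h2 a b h))⁻¹ := by group
    rw [e]
    exact (Qs a b h).mul_mem ((Qs a b h).mul_mem ((Qs a b h).mul_mem ((Qs a b h).inv_mem hx3) hkk)
      ((Qs a b h).inv_mem h1)) ((Qs a b h).inv_mem h3)

end small

section main
variable [Fintype F] (h2 : (2 : F) ≠ 0)
include h2

/-- the `2`-elements of the normalizer of `Q` lie in `Q` -/
theorem mem_Qs_of_normalizer_pow (g : L2 F)
    (hg : g ∈ Subgroup.normalizer (Qs a b h : Set (L2 F))) (n : ℕ) (hn : g ^ (2 ^ n) = 1) :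
    g ∈ Qs a b h := by
  have hN : ∀ q ∈ Qs a b h, g * q * g⁻¹ ∈ Qs a b h :=
    fun q hq => (Subgroup.mem_normalizer_iff.1 hg q).1 hq
  by_cases hB : ∃ c₀ ∈ (C2 : Subgroup (L2 F)), c₀ * c₀ ≠ 1 ∧ c₀ * c₀ ≠ -1
  · obtain ⟨c₀, hc₀, h1, hm1⟩ := hB
    exact mem_Qs_of_norm h h2 g hN (norm_comm_of_big h h2 c₀ hc₀ h1 hm1 g hN)
  · have hA : ∀ c ∈ (C2 : Subgroup (L2 F)), c * c = 1 ∨ c * c = -1 := by
      intro c hc
      by_contra hcon
      push Not at hcon
      exact hB ⟨c, hc, hcon.1, hcon.2⟩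
    by_contra hgQ
    have key : ∀ m : ℕ, g ^ (2 ^ m) ∈ Subgroup.normalizer (Qs a b h : Set (L2 F)) ∧
        g ^ (2 ^ m) ∉ Qs a b h := by
      intro m
      induction m with
      | zero =>
        rw [pow_zero, pow_one]
        exact ⟨hg, hgQ⟩
      | succ m ih =>
        have e : g ^ (2 ^ (m + 1)) = g ^ (2 ^ m) * g ^ (2 ^ m) := by
          rw [← pow_add, ← two_mul, ← pow_succ']
        rw [e]
        exact ⟨(Subgroup.normalizer _).mul_mem ih.1 ih.1, sq_not_mem h h2 hA _ ih.1 ih.2⟩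
    apply (key n).2
    rw [hn]
    exact (Qs a b h).one_mem

/-- the structure of the normalizer of `Q` -/
theorem Qs_normalizer_structure :
    (∀ g ∈ Subgroup.normalizer (Qs a b h : Set (L2 F)), g ∈ Qs a b h) ∨
    ((∀ q ∈ Qs a b h, q * q = 1 ∨ q * q = -1) ∧
      xS h2 a b h ∈ Subgroup.normalizer (Qs a b h : Set (L2 F)) ∧
      ∀ g ∈ Subgroup.normalizer (Qs a b h : Set (L2 F)),
        ∃ i : ℕ, ∃ q ∈ Qs a b h, g = xS h2 a b h ^ i * q) := by
  by_cases hB : ∃ c₀ ∈ (C2 : Subgroup (L2 F)), c₀ * c₀ ≠ 1 ∧ c₀ * c₀ ≠ -1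
  · left
    obtain ⟨c₀, hc₀, h1, hm1⟩ := hB
    intro g hg
    have hN : ∀ q ∈ Qs a b h, g * q * g⁻¹ ∈ Qs a b h :=
      fun q hq => (Subgroup.mem_normalizer_iff.1 hg q).1 hq
    exact mem_Qs_of_norm h h2 g hN (norm_comm_of_big h h2 c₀ hc₀ h1 hm1 g hN)
  · right
    have hA : ∀ c ∈ (C2 : Subgroup (L2 F)), c * c = 1 ∨ c * c = -1 := by
      intro c hc
      by_contra hcon
      push Not at hcon
      exact hB ⟨c, hc, hcon.1, hcon.2⟩
    refine ⟨Qs_sq h h2 hA, xS_mem_normalizer h h2 hA, fun g hg => ?_⟩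
    rcases normalizer_cases h h2 hA g hg with h1 | h1 | h1
    · exact ⟨0, g, h1, by rw [pow_zero, one_mul]⟩
    · exact ⟨1, _, h1, by rw [pow_one, mul_inv_cancel_left]⟩
    · exact ⟨2, _, h1, by rw [pow_two]; group⟩

end main

end sl2

end Cfsg.Agent.Lib.Helper86.Sp4
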