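import Mathlib
import Cfsg.Agent.Lib.Helper86.Sp4SL2
import Cfsg.Agent.Lib.Helper86.Idx2
import Cfsg.Agent.Lib.Helper40.SympCenter

set_option autoImplicit false
set_option linter.style.haveILetI false
set_option linter.unusedSectionVars false
set_option linter.dupNamespace false
set_option linter.unusedVariables false

/-! # Elements of `Sp₄(F)`: the subgroup `SL₂ × SL₂`, the swap, and the `2`-subgroup `Q ≀ 2` -/

namespace Cfsg.Agent.Lib.Helper86.Sp4

open Matrix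

/-- `Sp₄(F)` -/
abbrev H4 (F : Type*) [Field F] : Type _ := ↥(Matrix.symplecticGroup (Fin 2) F)

section mats
variable {F : Type*} [Field F]

theorem h4_ext {x y : H4 F} (h : x.1 = y.1) : x = y := Subtype.ext h

theorem h4_coe_mul (x y : H4 F) : (x * y).1 = x.1 * y.1 := rfl

theorem h4_coe_one : (1 : H4 F).1 = 1 := rfl

/-- the block diagonal embedding of a pair of two by two matrices -/
def phiMat (A B : Matrix (Fin 2) (Fin 2) F) : Matrix (Fin 2 ⊕ Fin 2) (Fin 2 ⊕ Fin 2) F :=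
  fromBlocks !![A 0 0, 0; 0, B 0 0] !![A 0 1, 0; 0, B 0 1] !![A 1 0, 0; 0, B 1 0]
    !![A 1 1, 0; 0, B 1 1]

theorem phiMat_mul (A B A' B' : Matrix (Fin 2) (Fin 2) F) :
    phiMat A B * phiMat A' B' = phiMat (A * A') (B * B') := by
  unfold phiMat
  rw [fromBlocks_multiply]
  congr 1 <;>
  · ext i j
    fin_cases i <;> fin_cases j <;> simp [Matrix.mul_apply, Fin.sum_univ_two]

theorem phiMat_one : phiMat (1 : Matrix (Fin 2) (Fin 2) F) 1 = 1 := by
  unfold phiMat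
  rw [← fromBlocks_one]
  congr 1 <;>
  · ext i j
    fin_cases i <;> fin_cases j <;> simp

theorem phiMat_neg (A B : Matrix (Fin 2) (Fin 2) F) : phiMat (-A) (-B) = -phiMat A B := by
  unfold phiMat
  rw [fromBlocks_neg]
  congr 1 <;>
  · ext i j
    fin_cases i <;> fin_cases j <;> simp

theorem phiMat_inj {A B A' B' : Matrix (Fin 2) (Fin 2) F} (h : phiMat A B = phiMat A' B') :
    A = A' ∧ B = B' := by
  unfold phiMat at h
  rw [fromBlocks_inj] at h
  obtain ⟨h1, h2, h3, h4⟩ := h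
  have a1 := congrFun (congrFun h1 0) 0
  have a2 := congrFun (congrFun h2 0) 0
  have a3 := congrFun (congrFun h3 0) 0
  have a4 := congrFun (congrFun h4 0) 0
  have b1 := congrFun (congrFun h1 1) 1
  have b2 := congrFun (congrFun h2 1) 1
  have b3 := congrFun (congrFun h3 1) 1
  have b4 := congrFun (congrFun h4 1) 1
  simp at a1 a2 a3 a4 b1 b2 b3 b4
  constructor
  · ext i j
    fin_cases i <;> fin_cases j <;> assumption
  · ext i j
    fin_cases i <;> fin_cases j <;> assumption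

theorem phiMat_mem_iff (A B : Matrix (Fin 2) (Fin 2) F) :
    phiMat A B ∈ Matrix.symplecticGroup (Fin 2) F ↔ A.det = 1 ∧ B.det = 1 := by
  unfold phiMat
  rw [SymplecticGroup.fromBlocks_mem_iff, Matrix.det_fin_two, Matrix.det_fin_two]
  constructor
  · rintro ⟨-, -, h3⟩
    have h00 := congrFun (congrFun h3 0) 0
    have h11 := congrFun (congrFun h3 1) 1
    simp [Matrix.mul_apply, Fin.sum_univ_two] at h00 h11
    exact ⟨by linear_combination h00, by linear_combination h11⟩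
  · rintro ⟨hA, hB⟩
    refine ⟨?_, ?_, ?_⟩
    · ext i j
      fin_cases i <;> fin_cases j <;> simp [Matrix.mul_apply, Fin.sum_univ_two, mul_comm]
    · ext i j
      fin_cases i <;> fin_cases j <;> simp [Matrix.mul_apply, Fin.sum_univ_two, mul_comm]
    · ext i j
      fin_cases i <;> fin_cases j <;> simp [Matrix.mul_apply, Fin.sum_univ_two]
      · linear_combination hA
      · linear_combination hB

/-- pure tensors `g ⊗ P` -/
def tens (g P : Matrix (Fin 2) (Fin 2) F) : Matrix (Fin 2 ⊕ Fin 2) (Fin 2 ⊕ Fin 2) F :=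
  fromBlocks (g 0 0 • P) (g 0 1 • P) (g 1 0 • P) (g 1 1 • P)

theorem tens_mul (g P g' P' : Matrix (Fin 2) (Fin 2) F) :
    tens g P * tens g' P' = tens (g * g') (P * P') := by
  unfold tens
  rw [fromBlocks_multiply]
  simp only [Matrix.smul_mul, Matrix.mul_smul, smul_smul, ← add_smul, Matrix.mul_apply,
    Fin.sum_univ_two]
  congr 1 <;>
  · congr 1
    ring

theorem tens_mem (g P : Matrix (Fin 2) (Fin 2) F) (h : g.det • (Pᵀ * P) = 1) :
    tens g P ∈ Matrix.symplecticGroup (Fin 2) F := by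
  unfold tens
  rw [SymplecticGroup.fromBlocks_mem_iff]
  simp only [Matrix.transpose_smul, Matrix.smul_mul, Matrix.mul_smul, smul_smul]
  refine ⟨by rw [mul_comm], by rw [mul_comm], ?_⟩
  rw [← sub_smul, ← h, Matrix.det_fin_two]
  congr 1
  ring

theorem tens_smul (c : F) (g P : Matrix (Fin 2) (Fin 2) F) : tens (c • g) P = tens g (c • P) := by
  unfold tens
  simp only [Matrix.smul_apply, smul_eq_mul, smul_smul, mul_comm]

theorem tens_one_one : tens (1 : Matrix (Fin 2) (Fin 2) F) 1 = 1 := by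
  unfold tens
  rw [← fromBlocks_one]
  congr 1 <;> simp

theorem tens_neg_neg (g P : Matrix (Fin 2) (Fin 2) F) : tens (-g) (-P) = tens g P := by
  unfold tens
  simp

theorem phiMat_self (A : Matrix (Fin 2) (Fin 2) F) : phiMat A A = tens A 1 := by
  unfold phiMat tens
  congr 1 <;>
  · ext i j
    fin_cases i <;> fin_cases j <;> simp

theorem phiMat_self_neg (A : Matrix (Fin 2) (Fin 2) F) :
    phiMat A (-A) = tens A !![1, 0; 0, -1] := by
  unfold phiMat tens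
  congr 1 <;>
  · ext i j
    fin_cases i <;> fin_cases j <;> simp

/-- the swap of the two hyperbolic planes -/
def tauMat : Matrix (Fin 2 ⊕ Fin 2) (Fin 2 ⊕ Fin 2) F :=
  fromBlocks !![0, 1; 1, 0] 0 0 !![0, 1; 1, 0]

theorem tauMat_eq : (tauMat : Matrix (Fin 2 ⊕ Fin 2) (Fin 2 ⊕ Fin 2) F) = tens 1 !![0, 1; 1, 0] := by
  unfold tauMat tens
  congr 1 <;> simp

theorem tauMat_mem : (tauMat : Matrix (Fin 2 ⊕ Fin 2) (Fin 2 ⊕ Fin 2) F) ∈
    Matrix.symplecticGroup (Fin 2) F := by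
  rw [tauMat_eq]
  apply tens_mem
  rw [Matrix.det_one, one_smul]
  ext i j
  fin_cases i <;> fin_cases j <;> simp [Matrix.mul_apply, Fin.sum_univ_two]

theorem tauMat_sq : (tauMat : Matrix (Fin 2 ⊕ Fin 2) (Fin 2 ⊕ Fin 2) F) * tauMat = 1 := by
  rw [tauMat_eq, tens_mul, ← tens_one_one]
  congr 1
  · simp
  · ext i j
    fin_cases i <;> fin_cases j <;> simp

theorem tauMat_phiMat (A B : Matrix (Fin 2) (Fin 2) F) :
    tauMat * phiMat A B = phiMat B A * tauMat := by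
  unfold tauMat phiMat
  rw [fromBlocks_multiply, fromBlocks_multiply]
  congr 1 <;>
  · ext i j
    fin_cases i <;> fin_cases j <;> simp [Matrix.mul_apply, Fin.sum_univ_two]

theorem tauMat_ne_phiMat (A B : Matrix (Fin 2) (Fin 2) F) : tauMat ≠ phiMat A B := by
  intro h
  unfold tauMat phiMat at h
  rw [fromBlocks_inj] at h
  have := congrFun (congrFun h.1 0) 1
  simp at this

end mats

section elts
variable {F : Type*} [Field F]

/-- the embedding of `SL₂ × SL₂` into `Sp₄` -/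
def phi (g₁ g₂ : L2 F) : H4 F :=
  ⟨phiMat g₁.1 g₂.1, (phiMat_mem_iff _ _).2 ⟨g₁.det_coe, g₂.det_coe⟩⟩

theorem phi_coe (g₁ g₂ : L2 F) : (phi g₁ g₂).1 = phiMat g₁.1 g₂.1 := rfl

theorem phi_mul (g₁ g₂ k₁ k₂ : L2 F) : phi g₁ g₂ * phi k₁ k₂ = phi (g₁ * k₁) (g₂ * k₂) := by
  apply h4_ext
  rw [h4_coe_mul, phi_coe, phi_coe, phi_coe, phiMat_mul, Matrix.SpecialLinearGroup.coe_mul,
    Matrix.SpecialLinearGroup.coe_mul]

theorem phi_one : phi (1 : L2 F) 1 = 1 := by
  apply h4_ext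
  rw [phi_coe, h4_coe_one]
  exact phiMat_one

theorem phi_inv (g₁ g₂ : L2 F) : (phi g₁ g₂)⁻¹ = phi g₁⁻¹ g₂⁻¹ := by
  symm
  apply eq_inv_of_mul_eq_one_right
  rw [phi_mul, mul_inv_cancel, mul_inv_cancel, phi_one]

theorem phi_pow (g₁ g₂ : L2 F) (n : ℕ) : (phi g₁ g₂) ^ n = phi (g₁ ^ n) (g₂ ^ n) := by
  induction n with
  | zero => rw [pow_zero, pow_zero, pow_zero, phi_one]
  | succ n ih => rw [pow_succ, ih, phi_mul, ← pow_succ, ← pow_succ]

theorem phi_inj {g₁ g₂ k₁ k₂ : L2 F} (h : phi g₁ g₂ = phi k₁ k₂) : g₁ = k₁ ∧ g₂ = k₂ := by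
  have := phiMat_inj (congrArg Subtype.val h)
  exact ⟨l2_ext this.1, l2_ext this.2⟩

/-- the swap -/
def tau : H4 F := ⟨tauMat, tauMat_mem⟩

theorem tau_mul_self : (tau : H4 F) * tau = 1 := h4_ext tauMat_sq

theorem tau_inv : (tau : H4 F)⁻¹ = tau := inv_eq_of_mul_eq_one_left tau_mul_self

theorem tau_phi (g₁ g₂ : L2 F) : tau * phi g₁ g₂ = phi g₂ g₁ * tau :=
  h4_ext (tauMat_phiMat _ _)

theorem tau_phi_tau (g₁ g₂ : L2 F) : tau * phi g₁ g₂ * tau = phi g₂ g₁ := by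
  rw [tau_phi, mul_assoc, tau_mul_self, mul_one]

theorem tau_ne_phi (k₁ k₂ : L2 F) : (tau : H4 F) ≠ phi k₁ k₂ := fun h =>
  tauMat_ne_phiMat _ _ (congrArg Subtype.val h)

theorem phi_mul_tau_ne (g₁ g₂ k₁ k₂ : L2 F) : phi g₁ g₂ * tau ≠ phi k₁ k₂ := by
  intro h
  have h3 : (tau : H4 F) = phi (g₁⁻¹ * k₁) (g₂⁻¹ * k₂) := by
    rw [← phi_mul, ← phi_inv, ← h, inv_mul_cancel_left]
  exact tau_ne_phi _ _ h3

/-- the central involution `-1` -/
def negOne : H4 F := phi (-1) (-1)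

theorem negOne_coe : (negOne : H4 F).1 = -1 := by
  rw [negOne, phi_coe]
  have : ((-1 : L2 F)).1 = -(1 : Matrix (Fin 2) (Fin 2) F) := rfl
  rw [this, phiMat_neg, phiMat_one]

theorem negOne_mul_coe (x : H4 F) : (negOne * x).1 = -x.1 := by
  rw [h4_coe_mul, negOne_coe, neg_one_mul]

theorem negOne_comm (x : H4 F) : negOne * x = x * negOne := by
  apply h4_ext
  rw [h4_coe_mul, h4_coe_mul, negOne_coe]
  simp

theorem negOne_mul_self : (negOne : H4 F) * negOne = 1 := by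
  apply h4_ext
  rw [negOne_mul_coe, negOne_coe, neg_neg]
  rfl

theorem negOne_inv : (negOne : H4 F)⁻¹ = negOne := inv_eq_of_mul_eq_one_left negOne_mul_self

theorem phi_neg_neg (g₁ g₂ : L2 F) : phi (-g₁) (-g₂) = negOne * phi g₁ g₂ := by
  rw [negOne, phi_mul, neg_one_mul, neg_one_mul]

theorem eq_negOne_mul {x y : H4 F} (h : x.1 = -y.1) : x = negOne * y :=
  h4_ext (by rw [negOne_mul_coe]; exact h)

theorem negOne_ne_one (h2 : (2 : F) ≠ 0) : (negOne : H4 F) ≠ 1 := by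
  intro h
  have := (phi_inj (h.trans phi_one.symm)).1
  exact one_ne_neg_one h2 this.symm

theorem negOne_mul_ne (h2 : (2 : F) ≠ 0) (x : H4 F) : negOne * x ≠ x := by
  intro h
  apply negOne_ne_one h2
  exact mul_right_cancel (h.trans (one_mul x).symm)

/-- the involution `diag(-1, 1, -1, 1)` -/
def zE : H4 F := phi (-1) 1

theorem zE_mul_self : (zE : H4 F) * zE = 1 := by
  rw [zE, phi_mul, neg_one_sq, one_mul, phi_one]

theorem zE_inv : (zE : H4 F)⁻¹ = zE := inv_eq_of_mul_eq_one_left zE_mul_self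

theorem tau_zE : (tau : H4 F) * zE = negOne * zE * tau := by
  rw [zE, tau_phi, negOne, phi_mul, neg_one_sq, mul_one]

theorem zE_coe : (zE : H4 F).1 = fromBlocks !![-1, 0; 0, 1] 0 0 !![-1, 0; 0, 1] := by
  rw [zE, phi_coe]
  unfold phiMat
  congr 1 <;>
  · ext i j
    fin_cases i <;> fin_cases j <;> simp

theorem zE_ne_one (h2 : (2 : F) ≠ 0) : (zE : H4 F) ≠ 1 := by
  intro h
  have := (phi_inj (h.trans phi_one.symm)).1
  exact one_ne_neg_one h2 this.symm

theorem zE_ne_negOne (h2 : (2 : F) ≠ 0) : (zE : H4 F) ≠ negOne := by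
  intro h
  have := (phi_inj h).2
  exact one_ne_neg_one h2 this

/-! ### The subgroups `Q × Q` and `Q ≀ 2` -/

/-- the image of `Q × Q` -/
def Bsub (Q : Subgroup (L2 F)) : Subgroup (H4 F) where
  carrier := {g | ∃ u ∈ Q, ∃ v ∈ Q, g = phi u v}
  one_mem' := ⟨1, Q.one_mem, 1, Q.one_mem, phi_one.symm⟩
  mul_mem' := by
    rintro _ _ ⟨u, hu, v, hv, rfl⟩ ⟨u', hu', v', hv', rfl⟩
    exact ⟨u * u', Q.mul_mem hu hu', v * v', Q.mul_mem hv hv', phi_mul _ _ _ _⟩
  inv_mem' := by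
    rintro _ ⟨u, hu, v, hv, rfl⟩
    exact ⟨u⁻¹, Q.inv_mem hu, v⁻¹, Q.inv_mem hv, phi_inv _ _⟩

theorem phi_mem_Bsub {Q : Subgroup (L2 F)} {u v : L2 F} :
    phi u v ∈ Bsub Q ↔ u ∈ Q ∧ v ∈ Q := by
  constructor
  · rintro ⟨u', hu', v', hv', h⟩
    obtain ⟨rfl, rfl⟩ := phi_inj h
    exact ⟨hu', hv'⟩
  · rintro ⟨hu, hv⟩
    exact ⟨u, hu, v, hv, rfl⟩

theorem tau_Bsub (Q : Subgroup (L2 F)) : ∀ g ∈ Bsub Q, tau * g * tau ∈ Bsub Q := by
  rintro _ ⟨u, hu, v, hv, rfl⟩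
  rw [tau_phi_tau]
  exact ⟨v, hv, u, hu, rfl⟩

/-- the subgroup `Q ≀ 2` -/
def Ssub (Q : Subgroup (L2 F)) : Subgroup (H4 F) :=
  Idx2.ext2 (Bsub Q) tau tau_mul_self (tau_Bsub Q)

theorem mem_Ssub {Q : Subgroup (L2 F)} {x : H4 F} :
    x ∈ Ssub Q ↔ x ∈ Bsub Q ∨ x * tau ∈ Bsub Q := Iff.rfl

theorem Bsub_le_Ssub (Q : Subgroup (L2 F)) : Bsub Q ≤ Ssub Q := fun x hx => Or.inl hx

theorem tau_mem_Ssub (Q : Subgroup (L2 F)) : tau ∈ Ssub Q := Idx2.t_mem_ext2

theorem phi_mem_Ssub {Q : Subgroup (L2 F)} {u v : L2 F} :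
    phi u v ∈ Ssub Q ↔ u ∈ Q ∧ v ∈ Q := by
  constructor
  · rintro (h | h)
    · exact phi_mem_Bsub.1 h
    · obtain ⟨u', hu', v', hv', h⟩ := h
      exact absurd h (phi_mul_tau_ne _ _ _ _)
  · intro h
    exact Or.inl (phi_mem_Bsub.2 h)

theorem phi_tau_mem_Ssub {Q : Subgroup (L2 F)} {u v : L2 F} :
    phi u v * tau ∈ Ssub Q ↔ u ∈ Q ∧ v ∈ Q := by
  constructor
  · intro h
    have := (Ssub Q).mul_mem h (tau_mem_Ssub Q)
    rw [mul_assoc, tau_mul_self, mul_one] at this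
    exact phi_mem_Ssub.1 this
  · intro h
    exact (Ssub Q).mul_mem (phi_mem_Ssub.2 h) (tau_mem_Ssub Q)

/-- elements of `S` are of the form `φ(u, v)` or `φ(u, v) τ` -/
theorem Ssub_cases {Q : Subgroup (L2 F)} {x : H4 F} (hx : x ∈ Ssub Q) :
    ∃ u ∈ Q, ∃ v ∈ Q, x = phi u v ∨ x = phi u v * tau := by
  rcases hx with hx | hx
  · obtain ⟨u, hu, v, hv, rfl⟩ := hx
    exact ⟨u, hu, v, hv, Or.inl rfl⟩
  · obtain ⟨u, hu, v, hv, h⟩ := hx
    refine ⟨u, hu, v, hv, Or.inr ?_⟩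
    rw [← h, mul_assoc, tau_mul_self, mul_one]

theorem Ssub_pow {Q : Subgroup (L2 F)} (hQ : ∀ q ∈ Q, ∃ n : ℕ, q ^ (2 ^ n) = 1) :
    ∀ x ∈ Ssub Q, ∃ n : ℕ, x ^ (2 ^ n) = 1 := by
  apply Idx2.pow_ext2
  rintro _ ⟨u, hu, v, hv, rfl⟩
  obtain ⟨n, hn⟩ := hQ u hu
  obtain ⟨m, hm⟩ := hQ v hv
  refine ⟨n + m, ?_⟩
  rw [phi_pow, pow_add, pow_mul, hn, one_pow, mul_comm (2 ^ n), pow_mul, hm, one_pow, phi_one]

/-! ### The center -/

theorem center_cases (g : H4 F) (hg : g ∈ Subgroup.center (H4 F)) : g = 1 ∨ g = negOne := by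
  obtain ⟨c, hc, hgc⟩ := Helper40.center_scalar 2 (by norm_num) g hg
  have h3 : (c - 1) * (c + 1) = 0 := by linear_combination hc
  rcases mul_eq_zero.1 h3 with h | h
  · left
    apply h4_ext
    rw [hgc, show c = 1 by linear_combination h, one_smul]
    rfl
  · right
    apply h4_ext
    rw [hgc, negOne_coe, show c = -1 by linear_combination h]
    simp

theorem negOne_mem_center : (negOne : H4 F) ∈ Subgroup.center (H4 F) := by
  rw [Subgroup.mem_center_iff]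
  intro x
  exact (negOne_comm x).symm

theorem mk_eq_one_iff (g : H4 F) :
    (QuotientGroup.mk' (Subgroup.center (H4 F))) g = 1 ↔ g = 1 ∨ g = negOne := by
  rw [QuotientGroup.mk'_apply, QuotientGroup.eq_one_iff]
  constructor
  · exact center_cases g
  · rintro (rfl | rfl)
    · exact Subgroup.one_mem _
    · exact negOne_mem_center

theorem mk_eq_mk_iff (x y : H4 F) :
    (QuotientGroup.mk' (Subgroup.center (H4 F))) x = (QuotientGroup.mk' (Subgroup.center (H4 F))) y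
      ↔ x = y ∨ x = negOne * y := by
  have e : (QuotientGroup.mk' (Subgroup.center (H4 F))) x
      = (QuotientGroup.mk' (Subgroup.center (H4 F))) y ↔
      (QuotientGroup.mk' (Subgroup.center (H4 F))) (x * y⁻¹) = 1 := by
    rw [map_mul, map_inv, mul_inv_eq_one]
  rw [e, mk_eq_one_iff]
  constructor
  · rintro (h | h)
    · left
      rw [mul_inv_eq_one] at h
      exact h
    · right
      rw [← h, inv_mul_cancel_right]
  · rintro (h | h)
    · left
      rw [h, mul_inv_cancel]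
    · right
      rw [h, mul_inv_cancel_right]


/-! ### Conjugating `z` to the swap -/

theorem zE_coe_tens : (zE : H4 F).1 = tens 1 !![-1, 0; 0, 1] := by
  rw [zE_coe]
  unfold tens
  congr 1 <;> simp

/-- an element conjugating `z` to the swap -/
def mE (h2 : (2 : F) ≠ 0) : H4 F :=
  ⟨tens !![1 / 2, 0; 0, 1] !![1, 1; -1, 1], by
    apply tens_mem
    rw [Matrix.det_fin_two]
    ext i j
    fin_cases i <;> fin_cases j <;> simp [Matrix.mul_apply, Fin.sum_univ_two] <;> field_simp <;>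
      norm_num⟩

theorem mE_conj (h2 : (2 : F) ≠ 0) : mE h2 * zE * (mE h2)⁻¹ = tau := by
  have e : mE h2 * zE = tau * mE h2 := by
    apply h4_ext
    rw [h4_coe_mul, h4_coe_mul, zE_coe_tens]
    show tens !![1 / 2, 0; 0, 1] !![1, 1; -1, 1] * tens 1 !![-1, 0; 0, 1]
      = tauMat * tens !![1 / 2, 0; 0, 1] !![1, 1; -1, 1]
    rw [tauMat_eq, tens_mul, tens_mul, mul_one, one_mul]
    congr 1
    ext i j
    fin_cases i <;> fin_cases j <;> simp [Matrix.mul_apply, Fin.sum_univ_two]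
  rw [e, mul_inv_cancel_right]

/-! ### Elements normalizing `⟨z, -1⟩` -/

theorem diag_of_comm (h2 : (2 : F) ≠ 0) (X : Matrix (Fin 2) (Fin 2) F)
    (hX : X * !![-1, 0; 0, 1] = !![-1, 0; 0, 1] * X) : X = !![X 0 0, 0; 0, X 1 1] := by
  have h01 := congrFun (congrFun hX 0) 1
  have h10 := congrFun (congrFun hX 1) 0
  simp [Matrix.mul_apply, Fin.sum_univ_two] at h01 h10
  have e01 : X 0 1 = 0 := by
    have h3 : 2 * X 0 1 = 0 := by linear_combination h01
    rcases mul_eq_zero.1 h3 with h4 | h4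
    · exact absurd h4 h2
    · exact h4
  have e10 : X 1 0 = 0 := by
    have h3 : 2 * X 1 0 = 0 := by linear_combination -h10
    rcases mul_eq_zero.1 h3 with h4 | h4
    · exact absurd h4 h2
    · exact h4
  ext i j
  fin_cases i <;> fin_cases j <;> simp [e01, e10]

/-- an element commuting with `z` lies in `SL₂ × SL₂` -/
theorem exists_phi_of_comm (h2 : (2 : F) ≠ 0) (g : H4 F) (hg : g * zE = zE * g) :
    ∃ g₁ g₂ : L2 F, g = phi g₁ g₂ := by
  have hm : g.1 * (zE : H4 F).1 = (zE : H4 F).1 * g.1 := congrArg Subtype.val hg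
  obtain ⟨A, B, C, D, hgABCD⟩ : ∃ A B C D, g.1 = fromBlocks A B C D :=
    ⟨_, _, _, _, (fromBlocks_toBlocks g.1).symm⟩
  rw [hgABCD, zE_coe, fromBlocks_multiply, fromBlocks_multiply] at hm
  simp only [Matrix.mul_zero, Matrix.zero_mul, add_zero, zero_add] at hm
  rw [fromBlocks_inj] at hm
  obtain ⟨hA, hB, hC, hD⟩ := hm
  have eA := diag_of_comm h2 A hA
  have eB := diag_of_comm h2 B hB
  have eC := diag_of_comm h2 C hC
  have eD := diag_of_comm h2 D hD
  have e : g.1 = phiMat !![A 0 0, B 0 0; C 0 0, D 0 0] !![A 1 1, B 1 1; C 1 1, D 1 1] := by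
    rw [hgABCD]
    unfold phiMat
    congr 1
  have hmem : phiMat !![A 0 0, B 0 0; C 0 0, D 0 0] !![A 1 1, B 1 1; C 1 1, D 1 1]
      ∈ Matrix.symplecticGroup (Fin 2) F := by
    rw [← e]
    exact g.2
  obtain ⟨d1, d2⟩ := (phiMat_mem_iff _ _).1 hmem
  exact ⟨⟨_, d1⟩, ⟨_, d2⟩, h4_ext e⟩

/-- an element commuting with `z` up to sign lies in `(SL₂ × SL₂)⟨τ⟩` -/
theorem exists_phi_of_comm' (h2 : (2 : F) ≠ 0) (g : H4 F)
    (hg : g * zE = zE * g ∨ g * zE = negOne * (zE * g)) :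
    ∃ g₁ g₂ : L2 F, g = phi g₁ g₂ ∨ g = phi g₁ g₂ * tau := by
  rcases hg with hg | hg
  · obtain ⟨g₁, g₂, h⟩ := exists_phi_of_comm h2 g hg
    exact ⟨g₁, g₂, Or.inl h⟩
  · have h3 : (g * tau) * zE = zE * (g * tau) := by
      rw [mul_assoc, tau_zE, ← mul_assoc, ← mul_assoc, ← negOne_comm, mul_assoc negOne, hg,
        ← mul_assoc negOne, negOne_mul_self, one_mul, mul_assoc]
    obtain ⟨g₁, g₂, h⟩ := exists_phi_of_comm h2 (g * tau) h3
    refine ⟨g₁, g₂, Or.inr ?_⟩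
    rw [← h, mul_assoc, tau_mul_self, mul_one]

end elts

end Cfsg.Agent.Lib.Helper86.Sp4
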