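import Mathlib
import Cfsg.Agent.Lib.Helper86.Sp4Elts

set_option autoImplicit false
set_option linter.style.haveILetI false
set_option linter.unusedSectionVars false
set_option linter.dupNamespace false
set_option linter.unusedVariables false

/-! # Strongly closed subgroups of the `2`-subgroup `Q ≀ 2` of `Sp₄(F)` -/

namespace Cfsg.Agent.Lib.Helper86.Sp4

open Matrix

section closed
variable {F : Type*} [Field F] [Fintype F] {a b : F} (h : a * a + b * b = -1)

/-- a strongly closed subgroup of `S = Q ≀ 2` containing the center properly is `S` -/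
theorem closed_eq (h2 : (2 : F) ≠ 0) (T : Subgroup (H4 F)) (hTS : T ≤ Ssub (Qs a b h))
    (hneg : negOne ∈ T) (hne : ∃ t ∈ T, t ≠ 1 ∧ t ≠ negOne)
    (hcl : ∀ x ∈ T, ∀ g : H4 F, g * x * g⁻¹ ∈ Ssub (Qs a b h) → g * x * g⁻¹ ∈ T) :
    T = Ssub (Qs a b h) := by
  have hnorm : ∀ x ∈ T, ∀ g ∈ Ssub (Qs a b h), g * x * g⁻¹ ∈ T := fun x hx g hg =>
    hcl x hx g ((Ssub (Qs a b h)).mul_mem ((Ssub (Qs a b h)).mul_mem hg (hTS hx))
      ((Ssub (Qs a b h)).inv_mem hg))
  -- Step 1: `z ∈ T`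
  have step1a : ∀ w ∈ Qs a b h, w ≠ 1 → phi w 1 ∈ T → zE ∈ T := by
    intro w hw hw1 hT
    obtain ⟨n, hn⟩ := Qs_pow h w hw
    obtain ⟨k, hk⟩ := exists_pow_eq_neg_one h2 w hw1 n hn
    have := T.pow_mem hT k
    rwa [phi_pow, hk, one_pow] at this
  have step1a' : ∀ w ∈ Qs a b h, w ≠ 1 → phi 1 w ∈ T → zE ∈ T := by
    intro w hw hw1 hT
    apply step1a w hw hw1
    have := hnorm _ hT tau (tau_mem_Ssub _)
    rwa [tau_inv, tau_phi_tau] at this
  have step1b : ∀ u ∈ Qs a b h, ∀ v ∈ Qs a b h, phi u v ∈ T → ¬ (u = 1 ∧ v = 1) →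
      ¬ (u = -1 ∧ v = -1) → zE ∈ T := by
    intro u hu v hv hT h11 hmm
    by_cases hu1 : u = 1 ∨ u = -1
    · by_cases hv1 : v = 1 ∨ v = -1
      · rcases hu1 with rfl | rfl
        · rcases hv1 with rfl | rfl
          · exact absurd ⟨rfl, rfl⟩ h11
          · have := T.mul_mem hneg hT
            rwa [negOne, phi_mul, mul_one, neg_one_sq] at this
        · rcases hv1 with rfl | rfl
          · exact hT
          · exact absurd ⟨rfl, rfl⟩ hmm
      · have hex : ∃ c ∈ Qs a b h, c * v ≠ v * c := by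
          by_contra hcon
          push Not at hcon
          exact hv1 (Qs_center h h2 v hv hcon)
        obtain ⟨c, hc, hcv⟩ := hex
        apply step1a' (c * v * c⁻¹ * v⁻¹) ((Qs a b h).mul_mem ((Qs a b h).mul_mem
          ((Qs a b h).mul_mem hc hv) ((Qs a b h).inv_mem hc)) ((Qs a b h).inv_mem hv))
        · intro h1
          apply hcv
          have e : c * v = (c * v * c⁻¹ * v⁻¹) * (v * c) := by group
          rw [e, h1, one_mul]
        · have h3 := hnorm _ hT (phi 1 c) (phi_mem_Ssub.2 ⟨(Qs a b h).one_mem, hc⟩)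
          have h4 := T.mul_mem h3 (T.inv_mem hT)
          rw [phi_inv, phi_inv, phi_mul, phi_mul, phi_mul] at h4
          have e : (1 : L2 F) * u * 1⁻¹ * u⁻¹ = 1 := by group
          rwa [e] at h4
    · have hex : ∃ c ∈ Qs a b h, c * u ≠ u * c := by
        by_contra hcon
        push Not at hcon
        exact hu1 (Qs_center h h2 u hu hcon)
      obtain ⟨c, hc, hcu⟩ := hex
      apply step1a (c * u * c⁻¹ * u⁻¹) ((Qs a b h).mul_mem ((Qs a b h).mul_mem
        ((Qs a b h).mul_mem hc hu) ((Qs a b h).inv_mem hc)) ((Qs a b h).inv_mem hu))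
      · intro h1
        apply hcu
        have e : c * u = (c * u * c⁻¹ * u⁻¹) * (u * c) := by group
        rw [e, h1, one_mul]
      · have h3 := hnorm _ hT (phi c 1) (phi_mem_Ssub.2 ⟨hc, (Qs a b h).one_mem⟩)
        have h4 := T.mul_mem h3 (T.inv_mem hT)
        rw [phi_inv, phi_inv, phi_mul, phi_mul, phi_mul] at h4
        have e : (1 : L2 F) * v * 1⁻¹ * v⁻¹ = 1 := by group
        rwa [e] at h4
  have hz : zE ∈ T := by
    obtain ⟨t, ht, ht1, htn⟩ := hne
    obtain ⟨u, hu, v, hv, h3 | h3⟩ := Ssub_cases (hTS ht)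
    · subst h3
      apply step1b u hu v hv ht
      · rintro ⟨rfl, rfl⟩
        exact ht1 phi_one
      · rintro ⟨rfl, rfl⟩
        exact htn rfl
    · subst h3
      have h4 := hnorm _ ht (phi jS 1) (phi_mem_Ssub.2 ⟨jS_mem_Qs h, (Qs a b h).one_mem⟩)
      have h5 := T.mul_mem h4 (T.inv_mem ht)
      have e : phi jS 1 * (phi u v * tau) * (phi jS 1)⁻¹ * (phi u v * tau)⁻¹
          = phi jS (v * jS⁻¹ * v⁻¹) := by
        rw [_root_.mul_inv_rev, tau_inv, phi_inv, phi_inv]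
        have e2 : phi jS 1 * (phi u v * tau) * phi jS⁻¹ 1⁻¹ * (tau * phi u⁻¹ v⁻¹)
            = phi jS 1 * phi u v * (tau * phi jS⁻¹ 1⁻¹ * tau) * phi u⁻¹ v⁻¹ := by
          simp only [mul_assoc]
        rw [e2, tau_phi_tau, phi_mul, phi_mul, phi_mul]
        congr 1 <;> group
      rw [e] at h5
      exact step1b jS (jS_mem_Qs h) _ ((Qs a b h).mul_mem ((Qs a b h).mul_mem hv
        ((Qs a b h).inv_mem (jS_mem_Qs h))) ((Qs a b h).inv_mem hv)) h5
        (fun h6 => jS_ne_one h6.1) (fun h6 => jS_ne_neg_one h6.1)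
  -- Step 2: the swap lies in `T`
  have htau : tau ∈ T := by
    have h3 := hcl zE hz (mE h2)
    rw [mE_conj] at h3
    exact h3 (tau_mem_Ssub _)
  -- Step 3: pairs of elements of order four
  have hJJ : phi jS jS⁻¹ ∈ T := by
    have h3 := hnorm tau htau (phi jS 1) (phi_mem_Ssub.2 ⟨jS_mem_Qs h, (Qs a b h).one_mem⟩)
    have h4 := T.mul_mem h3 htau
    have e : phi jS 1 * tau * (phi jS 1)⁻¹ * tau = phi (jS : L2 F) jS⁻¹ := by
      rw [phi_inv, mul_assoc, mul_assoc, ← mul_assoc tau, tau_phi_tau, phi_mul]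
      congr 1 <;> group
    rwa [e] at h4
  have step3 : ∀ u ∈ Qs a b h, ∀ v ∈ Qs a b h, u * u = -1 → v * v = -1 → phi u v ∈ T := by
    intro u hu v hv hu2 hv2
    obtain ⟨P₁, hP₁⟩ := exists_conj_of_sq h2 jS u jS_mul_self hu2
    have hJi : (jS : L2 F)⁻¹ * jS⁻¹ = -1 := by
      rw [← _root_.mul_inv_rev, jS_mul_self]
      exact inv_eq_of_mul_eq_one_left neg_one_sq
    obtain ⟨P₂, hP₂⟩ := exists_conj_of_sq h2 jS⁻¹ v hJi hv2
    have h3 := hcl _ hJJ (phi P₁ P₂)
    have e : phi P₁ P₂ * phi jS jS⁻¹ * (phi P₁ P₂)⁻¹ = phi u v := by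
      rw [phi_inv, phi_mul, phi_mul, hP₁, hP₂]
    rw [e] at h3
    exact h3 (phi_mem_Ssub.2 ⟨hu, hv⟩)
  -- Step 4: `Q × 1 ≤ T`
  have hs2 := sS_mul_self h
  have hss : phi (sS a b h) (sS a b h) ∈ T := step3 _ (sS_mem_Qs h) _ (sS_mem_Qs h) hs2 hs2
  have step4a : ∀ c ∈ (C2 : Subgroup (L2 F)), phi c 1 ∈ T := by
    intro c hc
    have h3 := step3 (c * sS a b h) ((Qs a b h).mul_mem (C2_le_Qs h hc) (sS_mem_Qs h)) _
      (sS_mem_Qs h) (mul_sS_sq h c hc) hs2
    have h4 := T.mul_mem h3 (T.inv_mem hss)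
    rwa [phi_inv, phi_mul, mul_inv_cancel_right, mul_inv_cancel] at h4
  have hs1 : phi (sS a b h) 1 ∈ T := by
    have h3 := step3 (sS a b h) (sS_mem_Qs h) jS (jS_mem_Qs h) hs2 jS_mul_self
    have h4 := step3 jS (jS_mem_Qs h) jS (jS_mem_Qs h) jS_mul_self jS_mul_self
    have h5 := step4a jS jS_mem_C2
    have h6 := T.mul_mem (T.mul_mem h3 (T.inv_mem h4)) h5
    rwa [phi_inv, phi_mul, phi_mul, inv_mul_cancel_right, mul_inv_cancel, one_mul] at h6
  have step4 : ∀ g ∈ Qs a b h, phi g 1 ∈ T := by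
    intro g hg
    rcases hg with hg | hg
    · exact step4a g hg
    · have h3 := T.mul_mem (step4a _ hg) (T.inv_mem hs1)
      rwa [phi_inv, phi_mul, mul_inv_cancel_right, inv_one, mul_one] at h3
  have step5 : ∀ g ∈ Qs a b h, phi 1 g ∈ T := by
    intro g hg
    have := hnorm _ (step4 g hg) tau (tau_mem_Ssub _)
    rwa [tau_inv, tau_phi_tau] at this
  have hB : ∀ u ∈ Qs a b h, ∀ v ∈ Qs a b h, phi u v ∈ T := by
    intro u hu v hv
    have := T.mul_mem (step4 u hu) (step5 v hv)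
    rwa [phi_mul, mul_one, one_mul] at this
  apply le_antisymm hTS
  intro x hx
  obtain ⟨u, hu, v, hv, h3 | h3⟩ := Ssub_cases hx
  · rw [h3]
    exact hB u hu v hv
  · rw [h3]
    exact T.mul_mem (hB u hu v hv) htau

end closed

end Cfsg.Agent.Lib.Helper86.Sp4
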