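import Mathlib
import Cfsg.Agent.Lib.Helper86.Sp4Elts

set_option autoImplicit false
set_option linter.style.haveILetI false
set_option linter.unusedSectionVars false
set_option linter.dupNamespace false
set_option linter.unusedVariables false

/-! # The normalizer of the `2`-subgroup `Q ≀ 2` of `Sp₄(F)` -/

namespace Cfsg.Agent.Lib.Helper86.Sp4

open Matrix

section norm
variable {F : Type*} [Field F] {a b : F} (h : a * a + b * b = -1)

/-- `z` commutes up to sign with `S` -/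
theorem zE_comm_Ssub (s : H4 F) (hs : s ∈ Ssub (Qs a b h)) :
    zE * s = s * zE ∨ zE * s = negOne * (s * zE) := by
  obtain ⟨u, hu, v, hv, h3 | h3⟩ := Ssub_cases hs
  · left
    rw [h3, zE, phi_mul, phi_mul, neg_one_mul, mul_neg_one, one_mul, mul_one]
  · right
    have e1 : zE * (phi u v * tau) = phi (-u) v * tau := by
      rw [← mul_assoc, zE, phi_mul, neg_one_mul, one_mul]
    have e2 : negOne * (phi u v * tau * zE) = phi (-u) v * tau := by
      rw [mul_assoc (phi u v), tau_zE, negOne, zE]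
      simp only [← mul_assoc, phi_mul]
      congr 1
      congr 1 <;> simp
    rw [h3, e1, e2]

/-- the elements of `S` that are central modulo `±1` -/
theorem central_mod (h2 : (2 : F) ≠ 0) (t : H4 F) (ht : t ∈ Ssub (Qs a b h))
    (hc : ∀ s ∈ Ssub (Qs a b h), t * s = s * t ∨ t * s = negOne * (s * t)) :
    t = 1 ∨ t = negOne ∨ t = zE ∨ t = negOne * zE := by
  obtain ⟨u, hu, v, hv, h3 | h3⟩ := Ssub_cases ht
  · subst h3
    have hu' : u = 1 ∨ u = -1 := by
      apply Qs_center h h2 u hu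
      intro c hc'
      rcases hc (phi c 1) (phi_mem_Ssub.2 ⟨hc', (Qs a b h).one_mem⟩) with h4 | h4
      · rw [phi_mul, phi_mul] at h4
        exact (phi_inj h4).1.symm
      · exfalso
        rw [phi_mul, phi_mul, ← phi_neg_neg] at h4
        have h5 := (phi_inj h4).2
        rw [mul_one, one_mul] at h5
        exact l2_ne_neg' h2 v h5
    have hv' : v = 1 ∨ v = -1 := by
      apply Qs_center h h2 v hv
      intro c hc'
      rcases hc (phi 1 c) (phi_mem_Ssub.2 ⟨(Qs a b h).one_mem, hc'⟩) with h4 | h4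
      · rw [phi_mul, phi_mul] at h4
        exact (phi_inj h4).2.symm
      · exfalso
        rw [phi_mul, phi_mul, ← phi_neg_neg] at h4
        have h5 := (phi_inj h4).1
        rw [mul_one, one_mul] at h5
        exact l2_ne_neg' h2 u h5
    rcases hu' with rfl | rfl <;> rcases hv' with rfl | rfl
    · left
      exact phi_one
    · right; right; right
      rw [zE, negOne, phi_mul, neg_one_sq, mul_one]
    · right; right; left
      rfl
    · right; left
      rfl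
  · subst h3
    exfalso
    have e1 : phi u v * tau * phi jS 1 = phi u (v * jS) * tau := by
      rw [mul_assoc, tau_phi, ← mul_assoc, phi_mul, mul_one]
    have e2 : phi jS 1 * (phi u v * tau) = phi (jS * u) v * tau := by
      rw [← mul_assoc, phi_mul, one_mul]
    rcases hc (phi jS 1) (phi_mem_Ssub.2 ⟨jS_mem_Qs h, (Qs a b h).one_mem⟩) with h4 | h4
    · rw [e1, e2] at h4
      have h5 := (phi_inj (mul_right_cancel h4)).1
      apply jS_ne_one (F := F)
      have h6 : (jS : L2 F) * u = 1 * u := by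
        rw [one_mul]
        exact h5.symm
      exact mul_right_cancel h6
    · rw [e1, e2, ← mul_assoc, ← phi_neg_neg] at h4
      have h5 := (phi_inj (mul_right_cancel h4)).1
      apply jS_ne_neg_one (F := F)
      have h6 : (jS : L2 F) * u = (-1) * u := by
        rw [neg_one_mul]
        have h7 := congrArg Neg.neg h5
        rw [neg_neg] at h7
        exact h7.symm
      exact mul_right_cancel h6

variable [Fintype F]

/-- the components of an element of `SL₂ × SL₂` normalizing `S` -/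
theorem normalizer_phi (g₁ g₂ : L2 F)
    (hg : phi g₁ g₂ ∈ Subgroup.normalizer (Ssub (Qs a b h) : Set (H4 F))) :
    g₁ ∈ Subgroup.normalizer (Qs a b h : Set (L2 F)) ∧
      g₂ ∈ Subgroup.normalizer (Qs a b h : Set (L2 F)) ∧ g₁ * g₂⁻¹ ∈ Qs a b h := by
  have hN : ∀ s ∈ Ssub (Qs a b h), phi g₁ g₂ * s * (phi g₁ g₂)⁻¹ ∈ Ssub (Qs a b h) :=
    fun s hs => (Subgroup.mem_normalizer_iff.1 hg s).1 hs
  refine ⟨mem_normalizer_of_finite (fun q hq => ?_), mem_normalizer_of_finite (fun q hq => ?_), ?_⟩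
  · have h3 := hN (phi q 1) (phi_mem_Ssub.2 ⟨hq, (Qs a b h).one_mem⟩)
    rw [phi_inv, phi_mul, phi_mul] at h3
    exact (phi_mem_Ssub.1 h3).1
  · have h3 := hN (phi 1 q) (phi_mem_Ssub.2 ⟨(Qs a b h).one_mem, hq⟩)
    rw [phi_inv, phi_mul, phi_mul] at h3
    exact (phi_mem_Ssub.1 h3).2
  · have h3 := hN tau (tau_mem_Ssub _)
    rw [phi_inv, mul_assoc, tau_phi, ← mul_assoc, phi_mul] at h3
    exact (phi_tau_mem_Ssub.1 h3).1

/-- conversely -/
theorem phi_mem_normalizer (g₁ g₂ : L2 F)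
    (hg₁ : g₁ ∈ Subgroup.normalizer (Qs a b h : Set (L2 F)))
    (hg₂ : g₂ ∈ Subgroup.normalizer (Qs a b h : Set (L2 F))) (hq : g₁ * g₂⁻¹ ∈ Qs a b h) :
    phi g₁ g₂ ∈ Subgroup.normalizer (Ssub (Qs a b h) : Set (H4 F)) := by
  have hB : ∀ u ∈ Qs a b h, ∀ v ∈ Qs a b h,
      phi g₁ g₂ * phi u v * (phi g₁ g₂)⁻¹ ∈ Ssub (Qs a b h) := by
    intro u hu v hv
    rw [phi_inv, phi_mul, phi_mul]
    exact phi_mem_Ssub.2 ⟨(Subgroup.mem_normalizer_iff.1 hg₁ u).1 hu,
      (Subgroup.mem_normalizer_iff.1 hg₂ v).1 hv⟩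
  have ht : phi g₁ g₂ * tau * (phi g₁ g₂)⁻¹ ∈ Ssub (Qs a b h) := by
    rw [phi_inv, mul_assoc, tau_phi, ← mul_assoc, phi_mul]
    refine phi_tau_mem_Ssub.2 ⟨hq, ?_⟩
    have := (Qs a b h).inv_mem hq
    rwa [_root_.mul_inv_rev, inv_inv] at this
  apply mem_normalizer_of_finite
  intro s hs
  obtain ⟨u, hu, v, hv, h3 | h3⟩ := Ssub_cases hs
  · rw [h3]
    exact hB u hu v hv
  · rw [h3]
    have e : phi g₁ g₂ * (phi u v * tau) * (phi g₁ g₂)⁻¹
        = (phi g₁ g₂ * phi u v * (phi g₁ g₂)⁻¹) * (phi g₁ g₂ * tau * (phi g₁ g₂)⁻¹) := by group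
    rw [e]
    exact (Ssub (Qs a b h)).mul_mem (hB u hu v hv) ht

/-- the form of the elements of the normalizer of `S` -/
theorem normalizer_form (h2 : (2 : F) ≠ 0) (g : H4 F)
    (hg : g ∈ Subgroup.normalizer (Ssub (Qs a b h) : Set (H4 F))) :
    ∃ g₁ g₂ : L2 F, g₁ ∈ Subgroup.normalizer (Qs a b h : Set (L2 F)) ∧
      g₂ ∈ Subgroup.normalizer (Qs a b h : Set (L2 F)) ∧ g₁ * g₂⁻¹ ∈ Qs a b h ∧
      (g = phi g₁ g₂ ∨ g = phi g₁ g₂ * tau) := by
  have hN : ∀ k ∈ Subgroup.normalizer (Ssub (Qs a b h) : Set (H4 F)), ∀ s ∈ Ssub (Qs a b h),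
      k * s * k⁻¹ ∈ Ssub (Qs a b h) := fun k hk s hs => (Subgroup.mem_normalizer_iff.1 hk s).1 hs
  have hginv := (Subgroup.normalizer (Ssub (Qs a b h) : Set (H4 F))).inv_mem hg
  have hzS : zE ∈ Ssub (Qs a b h) := phi_mem_Ssub.2 ⟨neg_one_mem_Qs h, (Qs a b h).one_mem⟩
  have ht : g * zE * g⁻¹ ∈ Ssub (Qs a b h) := hN g hg zE hzS
  have htc : ∀ s ∈ Ssub (Qs a b h), (g * zE * g⁻¹) * s = s * (g * zE * g⁻¹) ∨
      (g * zE * g⁻¹) * s = negOne * (s * (g * zE * g⁻¹)) := by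
    intro s hs
    have hs' : g⁻¹ * s * g ∈ Ssub (Qs a b h) := by
      have := hN g⁻¹ hginv s hs
      rwa [inv_inv] at this
    rcases zE_comm_Ssub h _ hs' with h3 | h3
    · left
      calc g * zE * g⁻¹ * s = g * (zE * (g⁻¹ * s * g)) * g⁻¹ := by group
        _ = g * ((g⁻¹ * s * g) * zE) * g⁻¹ := by rw [h3]
        _ = s * (g * zE * g⁻¹) := by group
    · right
      calc g * zE * g⁻¹ * s = g * (zE * (g⁻¹ * s * g)) * g⁻¹ := by group
        _ = g * (negOne * ((g⁻¹ * s * g) * zE)) * g⁻¹ := by rw [h3]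
        _ = negOne * (g * ((g⁻¹ * s * g) * zE) * g⁻¹) := by
          rw [← mul_assoc g, ← negOne_comm g]
          simp only [mul_assoc]
        _ = negOne * (s * (g * zE * g⁻¹)) := by
          congr 1
          group
  have ez : zE = g⁻¹ * (g * zE * g⁻¹) * g := by group
  have eg : g * zE = (g * zE * g⁻¹) * g := by group
  have hcomm : g * zE = zE * g ∨ g * zE = negOne * (zE * g) := by
    rcases central_mod h h2 _ ht htc with h3 | h3 | h3 | h3
    · exfalso
      apply zE_ne_one h2 (F := F)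
      rw [ez, h3]
      group
    · exfalso
      apply zE_ne_negOne h2 (F := F)
      rw [ez, h3, ← negOne_comm, mul_assoc, inv_mul_cancel, mul_one]
    · left
      rw [eg, h3]
    · right
      rw [eg, h3, mul_assoc]
  obtain ⟨g₁, g₂, h3 | h3⟩ := exists_phi_of_comm' h2 g hcomm
  · rw [h3] at hg
    obtain ⟨h4, h5, h6⟩ := normalizer_phi h g₁ g₂ hg
    exact ⟨g₁, g₂, h4, h5, h6, Or.inl h3⟩
  · have hg' : phi g₁ g₂ ∈ Subgroup.normalizer (Ssub (Qs a b h) : Set (H4 F)) := by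
      have h4 := (Subgroup.normalizer (Ssub (Qs a b h) : Set (H4 F))).mul_mem hg
        (Subgroup.le_normalizer (tau_mem_Ssub (Qs a b h)))
      rwa [h3, mul_assoc, tau_mul_self, mul_one] at h4
    obtain ⟨h4, h5, h6⟩ := normalizer_phi h g₁ g₂ hg'
    exact ⟨g₁, g₂, h4, h5, h6, Or.inr h3⟩

/-- the `2`-elements of the normalizer of `S` lie in `S` -/
theorem mem_Ssub_of_normalizer_pow (h2 : (2 : F) ≠ 0) (g : H4 F)
    (hg : g ∈ Subgroup.normalizer (Ssub (Qs a b h) : Set (H4 F))) (n : ℕ)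
    (hn : g ^ (2 ^ n) = 1) : g ∈ Ssub (Qs a b h) := by
  obtain ⟨g₁, g₂, hg₁, hg₂, hq, h3 | h3⟩ := normalizer_form h h2 g hg
  · subst h3
    rw [phi_pow] at hn
    have h4 := phi_inj (hn.trans phi_one.symm)
    exact phi_mem_Ssub.2 ⟨mem_Qs_of_normalizer_pow h h2 g₁ hg₁ n h4.1,
      mem_Qs_of_normalizer_pow h h2 g₂ hg₂ n h4.2⟩
  · subst h3
    have hsq : (phi g₁ g₂ * tau) * (phi g₁ g₂ * tau) = phi (g₁ * g₂) (g₂ * g₁) := by
      rw [mul_assoc, ← mul_assoc tau, tau_phi_tau, phi_mul]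
    have h4 : (phi (g₁ * g₂) (g₂ * g₁)) ^ (2 ^ n) = 1 := by
      rw [← hsq, ← pow_two, ← pow_mul, mul_comm, pow_mul, hn, one_pow]
    rw [phi_pow] at h4
    have h5 := (phi_inj (h4.trans phi_one.symm)).1
    have h6 : g₁ * g₂ ∈ Qs a b h := mem_Qs_of_normalizer_pow h h2 _
      ((Subgroup.normalizer _).mul_mem hg₁ hg₂) n h5
    have h7 : g₂ * g₂ ∈ Qs a b h := by
      have h8 := (Qs a b h).mul_mem ((Qs a b h).inv_mem hq) h6
      have e : (g₁ * g₂⁻¹)⁻¹ * (g₁ * g₂) = g₂ * g₂ := by group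
      rwa [e] at h8
    obtain ⟨m, hm⟩ := Qs_pow h _ h7
    have h8 : g₂ ∈ Qs a b h := mem_Qs_of_normalizer_pow h h2 g₂ hg₂ (m + 1) (by
      rw [pow_succ', pow_mul, pow_two]
      exact hm)
    have h9 : g₁ ∈ Qs a b h := by
      have := (Qs a b h).mul_mem hq h8
      rwa [inv_mul_cancel_right] at this
    exact phi_tau_mem_Ssub.2 ⟨h9, h8⟩

end norm

end Cfsg.Agent.Lib.Helper86.Sp4
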