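import Mathlib
import Cfsg.Agent.Lib.Helper86.Sp4Norm

set_option autoImplicit false
set_option linter.style.haveILetI false
set_option linter.unusedSectionVars false
set_option linter.dupNamespace false
set_option linter.unusedVariables false

/-! # The extraspecial type subgroup `R = {φ(q, ±q)}⟨τ⟩` of `Q ≀ 2` in `Sp₄(F)` -/

namespace Cfsg.Agent.Lib.Helper86.Sp4

open Matrix

section rad
variable {F : Type*} [Field F]

theorem neg_mem_of {Q : Subgroup (L2 F)} (hQ : (-1 : L2 F) ∈ Q) {q : L2 F} (hq : q ∈ Q) :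
    -q ∈ Q := by
  have := Q.mul_mem hQ hq
  rwa [neg_one_mul] at this

/-- the subgroup `{φ(q, ±q)}` -/
def Dsub (Q : Subgroup (L2 F)) (hQ : (-1 : L2 F) ∈ Q) : Subgroup (H4 F) where
  carrier := {g | ∃ q ∈ Q, g = phi q q ∨ g = phi q (-q)}
  one_mem' := ⟨1, Q.one_mem, Or.inl phi_one.symm⟩
  mul_mem' := by
    rintro _ _ ⟨q, hq, rfl | rfl⟩ ⟨p, hp, rfl | rfl⟩
    · exact ⟨q * p, Q.mul_mem hq hp, Or.inl (phi_mul _ _ _ _)⟩
    · exact ⟨q * p, Q.mul_mem hq hp, Or.inr (by rw [phi_mul, mul_neg])⟩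
    · exact ⟨q * p, Q.mul_mem hq hp, Or.inr (by rw [phi_mul, neg_mul])⟩
    · exact ⟨q * p, Q.mul_mem hq hp, Or.inl (by rw [phi_mul, neg_mul_neg])⟩
  inv_mem' := by
    rintro _ ⟨q, hq, rfl | rfl⟩
    · exact ⟨q⁻¹, Q.inv_mem hq, Or.inl (phi_inv _ _)⟩
    · exact ⟨q⁻¹, Q.inv_mem hq, Or.inr (by rw [phi_inv, inv_neg])⟩

theorem phi_pm_mem_Dsub {Q : Subgroup (L2 F)} {hQ : (-1 : L2 F) ∈ Q} {q q' q'' : L2 F}
    (hq : q ∈ Q) (h' : q' = q ∨ q' = -q) (h'' : q'' = q ∨ q'' = -q) :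
    phi q' q'' ∈ Dsub Q hQ := by
  rcases h' with h' | h' <;> rcases h'' with h'' | h'' <;> rw [h', h'']
  · exact ⟨q, hq, Or.inl rfl⟩
  · exact ⟨q, hq, Or.inr rfl⟩
  · exact ⟨-q, neg_mem_of hQ hq, Or.inr (by rw [neg_neg])⟩
  · exact ⟨-q, neg_mem_of hQ hq, Or.inl rfl⟩

theorem tau_Dsub (Q : Subgroup (L2 F)) (hQ : (-1 : L2 F) ∈ Q) :
    ∀ g ∈ Dsub Q hQ, tau * g * tau ∈ Dsub Q hQ := by
  rintro _ ⟨q, hq, rfl | rfl⟩
  · rw [tau_phi_tau]
    exact ⟨q, hq, Or.inl rfl⟩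
  · rw [tau_phi_tau]
    exact phi_pm_mem_Dsub hq (Or.inr rfl) (Or.inl rfl)

/-- the subgroup `R = {φ(q, ±q)}⟨τ⟩` -/
def Rsub (Q : Subgroup (L2 F)) (hQ : (-1 : L2 F) ∈ Q) : Subgroup (H4 F) :=
  Idx2.ext2 (Dsub Q hQ) tau tau_mul_self (tau_Dsub Q hQ)

theorem Dsub_le_Bsub (Q : Subgroup (L2 F)) (hQ : (-1 : L2 F) ∈ Q) : Dsub Q hQ ≤ Bsub Q := by
  rintro _ ⟨q, hq, rfl | rfl⟩
  · exact ⟨q, hq, q, hq, rfl⟩
  · exact ⟨q, hq, -q, neg_mem_of hQ hq, rfl⟩

theorem Rsub_le_Ssub (Q : Subgroup (L2 F)) (hQ : (-1 : L2 F) ∈ Q) : Rsub Q hQ ≤ Ssub Q := by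
  rintro x (hx | hx)
  · exact Or.inl (Dsub_le_Bsub Q hQ hx)
  · exact Or.inr (Dsub_le_Bsub Q hQ hx)

theorem tau_mem_Rsub (Q : Subgroup (L2 F)) (hQ : (-1 : L2 F) ∈ Q) : tau ∈ Rsub Q hQ :=
  Idx2.t_mem_ext2

theorem comm_mul_tau {g r : H4 F} (hr : tau * r = r * tau)
    (hg : g * r = r * g ∨ g * r = negOne * (r * g)) :
    (g * tau) * r = r * (g * tau) ∨ (g * tau) * r = negOne * (r * (g * tau)) := by
  rcases hg with hg | hg
  · left
    rw [mul_assoc, hr, ← mul_assoc, hg, mul_assoc]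
  · right
    rw [mul_assoc, hr, ← mul_assoc, hg]
    simp only [mul_assoc]

variable {a b : F} (h : a * a + b * b = -1)

theorem mem_Dsub_of_comm (g₁ g₂ : L2 F)
    (ht : phi g₁ g₂ * tau = tau * phi g₁ g₂ ∨ phi g₁ g₂ * tau = negOne * (tau * phi g₁ g₂))
    (hJ : phi g₁ g₂ * phi jS jS = phi jS jS * phi g₁ g₂ ∨
      phi g₁ g₂ * phi jS jS = negOne * (phi jS jS * phi g₁ g₂))
    (hs : phi g₁ g₂ * phi (sS a b h) (sS a b h) = phi (sS a b h) (sS a b h) * phi g₁ g₂ ∨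
      phi g₁ g₂ * phi (sS a b h) (sS a b h) = negOne * (phi (sS a b h) (sS a b h) * phi g₁ g₂)) :
    phi g₁ g₂ ∈ Dsub (Qs a b h) (neg_one_mem_Qs h) := by
  have hε : g₂ = g₁ ∨ g₂ = -g₁ := by
    rcases ht with ht | ht
    · rw [tau_phi] at ht
      exact Or.inl (phi_inj (mul_right_cancel ht)).2
    · rw [tau_phi, ← mul_assoc, ← phi_neg_neg] at ht
      exact Or.inr (phi_inj (mul_right_cancel ht)).2
  have hJ' : g₁.1 * (jS : L2 F).1 = (jS : L2 F).1 * g₁.1 ∨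
      g₁.1 * (jS : L2 F).1 = -((jS : L2 F).1 * g₁.1) := by
    rcases hJ with hJ | hJ
    · rw [phi_mul, phi_mul] at hJ
      left
      have h3 := (phi_inj hJ).1
      rw [← Matrix.SpecialLinearGroup.coe_mul, h3, Matrix.SpecialLinearGroup.coe_mul]
    · rw [phi_mul, phi_mul, ← phi_neg_neg] at hJ
      right
      have h3 := (phi_inj hJ).1
      rw [← Matrix.SpecialLinearGroup.coe_mul, h3]
      rfl
  have hs' : g₁.1 * (sS a b h).1 = (sS a b h).1 * g₁.1 ∨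
      g₁.1 * (sS a b h).1 = -((sS a b h).1 * g₁.1) := by
    rcases hs with hs | hs
    · rw [phi_mul, phi_mul] at hs
      left
      have h3 := (phi_inj hs).1
      rw [← Matrix.SpecialLinearGroup.coe_mul, h3, Matrix.SpecialLinearGroup.coe_mul]
    · rw [phi_mul, phi_mul, ← phi_neg_neg] at hs
      right
      have h3 := (phi_inj hs).1
      rw [← Matrix.SpecialLinearGroup.coe_mul, h3]
      rfl
  have hg₁ : g₁ ∈ Qs a b h := mem_Qs_of_comm h g₁ hJ' hs'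
  exact phi_pm_mem_Dsub hg₁ (Or.inl rfl) hε

/-- `R` is self-centralizing modulo `±1` -/
theorem Rsub_self_centralizing (h2 : (2 : F) ≠ 0) (g : H4 F)
    (hg : ∀ r ∈ Rsub (Qs a b h) (neg_one_mem_Qs h), g * r = r * g ∨ g * r = negOne * (r * g)) :
    g ∈ Rsub (Qs a b h) (neg_one_mem_Qs h) := by
  have hzR : zE ∈ Rsub (Qs a b h) (neg_one_mem_Qs h) :=
    Or.inl ⟨-1, neg_one_mem_Qs h, Or.inr (by rw [neg_neg]; rfl)⟩
  have htR : tau ∈ Rsub (Qs a b h) (neg_one_mem_Qs h) := tau_mem_Rsub _ _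
  have hJR : phi jS jS ∈ Rsub (Qs a b h) (neg_one_mem_Qs h) :=
    Or.inl ⟨jS, jS_mem_Qs h, Or.inl rfl⟩
  have hsR : phi (sS a b h) (sS a b h) ∈ Rsub (Qs a b h) (neg_one_mem_Qs h) :=
    Or.inl ⟨_, sS_mem_Qs h, Or.inl rfl⟩
  obtain ⟨g₁, g₂, h3 | h3⟩ := exists_phi_of_comm' h2 g (hg zE hzR)
  · rw [h3] at hg ⊢
    exact Or.inl (mem_Dsub_of_comm h g₁ g₂ (hg _ htR) (hg _ hJR) (hg _ hsR))
  · have h4 : g * tau = phi g₁ g₂ := by rw [h3, mul_assoc, tau_mul_self, mul_one]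
    right
    show g * tau ∈ Dsub _ _
    rw [h4]
    apply mem_Dsub_of_comm h g₁ g₂
    · rw [← h4]
      exact comm_mul_tau rfl (hg _ htR)
    · rw [← h4]
      exact comm_mul_tau (tau_phi _ _) (hg _ hJR)
    · rw [← h4]
      exact comm_mul_tau (tau_phi _ _) (hg _ hsR)

/-! ### The case of the quaternion group of order eight -/

section caseA
variable (hsq : ∀ q ∈ Qs a b h, q * q = 1 ∨ q * q = -1)
include hsq

theorem Qs_comm_or (c q : L2 F) (hc : c ∈ Qs a b h) (hq : q ∈ Qs a b h) :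
    c * q = q * c ∨ c * q = -(q * c) := by
  have e : q * c = c * (c * c)⁻¹ * (c * q * (c * q)) * (q * q)⁻¹ * q := by group
  rcases hsq c hc with h1 | h1 <;> rcases hsq q hq with h2 | h2 <;>
    rcases hsq (c * q) ((Qs a b h).mul_mem hc hq) with h3 | h3 <;>
    first | (left; rw [e, h1, h2, h3]; simp [inv_neg_one]; done) | (right; rw [e, h1, h2, h3]; simp [inv_neg_one]; done)

theorem conj_eq_or (c q : L2 F) (hc : c ∈ Qs a b h) (hq : q ∈ Qs a b h) :
    c * q * c⁻¹ = q ∨ c * q * c⁻¹ = -q := by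
  rcases Qs_comm_or h hsq c q hc hq with h1 | h1
  · left
    rw [h1, mul_inv_cancel_right]
  · right
    rw [h1, neg_mul, mul_inv_cancel_right]

theorem inv_eq_or (w : L2 F) (hw : w ∈ Qs a b h) : w⁻¹ = w ∨ w⁻¹ = -w := by
  rcases hsq w hw with h1 | h1
  · left
    exact inv_eq_of_mul_eq_one_left h1
  · right
    apply inv_eq_of_mul_eq_one_right
    rw [mul_neg, h1, neg_neg]

variable [Fintype F]

theorem phi_mem_normalizer_Rsub (u v : L2 F) (hu : u ∈ Qs a b h) (hv : v ∈ Qs a b h) :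
    phi u v ∈ Subgroup.normalizer (Rsub (Qs a b h) (neg_one_mem_Qs h) : Set (H4 F)) := by
  have hD : ∀ d ∈ Dsub (Qs a b h) (neg_one_mem_Qs h),
      phi u v * d * (phi u v)⁻¹ ∈ Dsub (Qs a b h) (neg_one_mem_Qs h) := by
    rintro _ ⟨q, hq, rfl | rfl⟩
    · rw [phi_inv, phi_mul, phi_mul]
      exact phi_pm_mem_Dsub hq (conj_eq_or h hsq u q hu hq) (conj_eq_or h hsq v q hv hq)
    · rw [phi_inv, phi_mul, phi_mul]
      refine phi_pm_mem_Dsub hq (conj_eq_or h hsq u q hu hq) ?_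
      rcases conj_eq_or h hsq v q hv hq with h1 | h1
      · right
        rw [mul_neg, neg_mul, h1]
      · left
        rw [mul_neg, neg_mul, h1, neg_neg]
  have ht : phi u v * tau * (phi u v)⁻¹ * tau ∈ Dsub (Qs a b h) (neg_one_mem_Qs h) := by
    have e : phi u v * tau * (phi u v)⁻¹ * tau = phi (u * v⁻¹) (v * u⁻¹) := by
      rw [phi_inv, mul_assoc, mul_assoc, ← mul_assoc tau, tau_phi_tau, phi_mul]
    rw [e]
    have hw : u * v⁻¹ ∈ Qs a b h := (Qs a b h).mul_mem hu ((Qs a b h).inv_mem hv)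
    refine phi_pm_mem_Dsub hw (Or.inl rfl) ?_
    have e2 : v * u⁻¹ = (u * v⁻¹)⁻¹ := by rw [_root_.mul_inv_rev, inv_inv]
    rw [e2]
    exact inv_eq_or h hsq _ hw
  apply mem_normalizer_of_finite
  rintro r (hr | hr)
  · exact Or.inl (hD r hr)
  · right
    show phi u v * r * (phi u v)⁻¹ * tau ∈ Dsub _ _
    have hr' : r = (r * tau) * tau := by rw [mul_assoc, tau_mul_self, mul_one]
    have e : phi u v * r * (phi u v)⁻¹ * tau = (phi u v * (r * tau) * (phi u v)⁻¹)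
        * (phi u v * tau * (phi u v)⁻¹ * tau) := by
      nth_rewrite 1 [hr']
      group
    rw [e]
    exact (Dsub _ _).mul_mem (hD _ hr) ht

theorem Ssub_le_normalizer_Rsub :
    Ssub (Qs a b h) ≤ Subgroup.normalizer (Rsub (Qs a b h) (neg_one_mem_Qs h) : Set (H4 F)) := by
  intro x hx
  obtain ⟨u, hu, v, hv, h3 | h3⟩ := Ssub_cases hx
  · rw [h3]
    exact phi_mem_normalizer_Rsub h hsq u v hu hv
  · rw [h3]
    exact (Subgroup.normalizer _).mul_mem (phi_mem_normalizer_Rsub h hsq u v hu hv)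
      (Subgroup.le_normalizer (tau_mem_Rsub _ _))

end caseA


/-! ### The elements `u_A = ½(1 + A) ⊗ (1 + J)` of order four -/

theorem one_add_jS_mul : ((1 : Matrix (Fin 2) (Fin 2) F) + (jS : L2 F).1)ᵀ * (1 + (jS : L2 F).1)
    = (2 : F) • (1 : Matrix (Fin 2) (Fin 2) F) := by
  rw [jS_coe]
  ext i j
  fin_cases i <;> fin_cases j <;> simp [Matrix.mul_apply, Fin.sum_univ_two] <;> norm_num

theorem det_half_one_add (h2 : (2 : F) ≠ 0) (A : L2 F) (hA : A.1.trace = 0) :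
    ((1 / 2 : F) • (1 + A.1)).det = 1 / 2 := by
  have h1 := A.det_coe
  rw [Matrix.det_fin_two] at h1
  have h3 : A.1 0 0 + A.1 1 1 = 0 := by
    rw [← Matrix.trace_fin_two]
    exact hA
  rw [Matrix.det_fin_two]
  simp [Matrix.smul_apply, Matrix.add_apply]
  field_simp
  linear_combination h1 + h3

/-- the element `u_A` -/
def uE (h2 : (2 : F) ≠ 0) (A : L2 F) (hA : A.1.trace = 0) : H4 F :=
  ⟨tens ((1 / 2 : F) • (1 + A.1)) (1 + (jS : L2 F).1), by
    apply tens_mem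
    rw [det_half_one_add h2 A hA, one_add_jS_mul, smul_smul, one_div_mul_cancel h2, one_smul]⟩

theorem uE_coe (h2 : (2 : F) ≠ 0) (A : L2 F) (hA : A.1.trace = 0) :
    (uE h2 A hA).1 = tens ((1 / 2 : F) • (1 + A.1)) (1 + (jS : L2 F).1) := rfl

theorem one_add_sq (A : Matrix (Fin 2) (Fin 2) F) (hA : A * A = -1) :
    (1 + A) * (1 + A) = (2 : F) • A := by
  simp only [add_mul, mul_add, one_mul, mul_one, hA, two_smul]
  abel

theorem uE_sq (h2 : (2 : F) ≠ 0) (A : L2 F) (hA : A.1.trace = 0) (hA2 : A * A = -1) :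
    (uE h2 A hA * uE h2 A hA).1 = tens A.1 (jS : L2 F).1 := by
  have hA2' : A.1 * A.1 = -1 := by
    rw [← Matrix.SpecialLinearGroup.coe_mul, hA2]
    rfl
  rw [h4_coe_mul, uE_coe, tens_mul, Matrix.smul_mul, Matrix.mul_smul, smul_smul,
    one_add_sq _ hA2', one_add_sq _ jS_sq, smul_smul, tens_smul, smul_smul]
  have e : (1 / 2 * (1 / 2) * 2 * 2 : F) = 1 := by
    field_simp
  rw [e, one_smul]

theorem uE_pow (h2 : (2 : F) ≠ 0) (A : L2 F) (hA : A.1.trace = 0) (hA2 : A * A = -1) :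
    (uE h2 A hA) ^ (2 ^ 2) = 1 := by
  have hA2' : A.1 * A.1 = -1 := by
    rw [← Matrix.SpecialLinearGroup.coe_mul, hA2]
    rfl
  have e : (uE h2 A hA) ^ (2 ^ 2) = (uE h2 A hA * uE h2 A hA) * (uE h2 A hA * uE h2 A hA) := by
    norm_num
    rw [show (4 : ℕ) = 2 + 2 from rfl, pow_add, pow_two]
  rw [e]
  apply h4_ext
  rw [h4_coe_mul, uE_sq h2 A hA hA2, tens_mul, hA2', jS_sq, tens_neg_neg, tens_one_one]
  rfl

theorem uE_tens (h2 : (2 : F) ≠ 0) (A : L2 F) (hA : A.1.trace = 0)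
    (q q' P P' : Matrix (Fin 2) (Fin 2) F) (hq : (1 + A.1) * q = q' * (1 + A.1))
    (hP : (1 + (jS : L2 F).1) * P = P' * (1 + (jS : L2 F).1)) :
    (uE h2 A hA).1 * tens q P = tens q' P' * (uE h2 A hA).1 := by
  rw [uE_coe, tens_mul, tens_mul, hP, Matrix.smul_mul, Matrix.mul_smul, hq]

theorem one_add_comm (A q : Matrix (Fin 2) (Fin 2) F) (hc : A * q = q * A) :
    (1 + A) * q = q * (1 + A) := by
  rw [add_mul, mul_add, one_mul, mul_one, hc]

theorem one_add_anti (A q : Matrix (Fin 2) (Fin 2) F) (hA : A * A = -1)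
    (hc : A * q = -(q * A)) : (1 + A) * q = (A * q) * (1 + A) := by
  have hqA : q * A = -(A * q) := by rw [hc, neg_neg]
  rw [add_mul, mul_add, one_mul, mul_one, mul_assoc A q A, hqA, mul_neg, ← mul_assoc, hA,
    neg_mul, one_mul, neg_neg, add_comm]

theorem one_add_jS_Z1 : (1 + (jS : L2 F).1) * !![1, 0; 0, -1]
    = !![0, 1; 1, 0] * (1 + (jS : L2 F).1) := by
  rw [jS_coe]
  ext i j
  fin_cases i <;> fin_cases j <;> simp [Matrix.mul_apply, Fin.sum_univ_two]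

theorem one_add_jS_X0 : (1 + (jS : L2 F).1) * !![0, 1; 1, 0]
    = !![-1, 0; 0, 1] * (1 + (jS : L2 F).1) := by
  rw [jS_coe]
  ext i j
  fin_cases i <;> fin_cases j <;> simp [Matrix.mul_apply, Fin.sum_univ_two]

theorem jS_trace : (jS : L2 F).1.trace = 0 := by
  rw [jS_coe, Matrix.trace_fin_two]
  simp

theorem sS_trace : (sS a b h).1.trace = 0 := by
  rw [sS_coe, Matrix.trace_fin_two]
  simp

/-- `u_A` normalizes `R` when `Q` is the quaternion group of order eight -/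
theorem uE_mem_normalizer [Fintype F] (hsq : ∀ q ∈ Qs a b h, q * q = 1 ∨ q * q = -1)
    (h2 : (2 : F) ≠ 0) (A : L2 F) (hA : A.1.trace = 0) (hA2 : A * A = -1) (hAQ : A ∈ Qs a b h) :
    uE h2 A hA ∈ Subgroup.normalizer (Rsub (Qs a b h) (neg_one_mem_Qs h) : Set (H4 F)) := by
  have hA2' : A.1 * A.1 = -1 := by
    rw [← Matrix.SpecialLinearGroup.coe_mul, hA2]
    rfl
  have hq : ∀ q ∈ Qs a b h, ∃ q' ∈ Qs a b h, (1 + A.1) * q.1 = q'.1 * (1 + A.1) := by
    intro q hq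
    rcases Qs_comm_or h hsq A q hAQ hq with h1 | h1
    · exact ⟨q, hq, one_add_comm _ _ (by
        rw [← Matrix.SpecialLinearGroup.coe_mul, h1, Matrix.SpecialLinearGroup.coe_mul])⟩
    · refine ⟨A * q, (Qs a b h).mul_mem hAQ hq, ?_⟩
      rw [Matrix.SpecialLinearGroup.coe_mul]
      exact one_add_anti _ _ hA2' (by
        rw [← Matrix.SpecialLinearGroup.coe_mul, h1]
        rfl)
  have hD : ∀ d ∈ Dsub (Qs a b h) (neg_one_mem_Qs h),
      uE h2 A hA * d * (uE h2 A hA)⁻¹ ∈ Rsub (Qs a b h) (neg_one_mem_Qs h) := by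
    rintro _ ⟨q, hq', rfl | rfl⟩
    · obtain ⟨q', hq'Q, e⟩ := hq q hq'
      have e2 : uE h2 A hA * phi q q = phi q' q' * uE h2 A hA := by
        apply h4_ext
        rw [h4_coe_mul, h4_coe_mul, phi_coe, phi_coe, phiMat_self, phiMat_self]
        exact uE_tens h2 A hA _ _ 1 1 e (by rw [mul_one, one_mul])
      rw [e2, mul_inv_cancel_right]
      exact Or.inl ⟨q', hq'Q, Or.inl rfl⟩
    · obtain ⟨q', hq'Q, e⟩ := hq q hq'
      have e2 : uE h2 A hA * phi q (-q) = phi q' q' * tau * uE h2 A hA := by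
        apply h4_ext
        rw [h4_coe_mul, h4_coe_mul, h4_coe_mul, phi_coe, phi_coe]
        have e1 : ((-q : L2 F)).1 = -q.1 := rfl
        rw [e1, phiMat_self_neg, phiMat_self]
        show _ = tens q'.1 1 * tauMat * _
        rw [tauMat_eq, tens_mul, mul_one, one_mul]
        exact uE_tens h2 A hA _ _ _ _ e one_add_jS_Z1
      rw [e2, mul_inv_cancel_right]
      right
      show phi q' q' * tau * tau ∈ Dsub _ _
      rw [mul_assoc, tau_mul_self, mul_one]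
      exact ⟨q', hq'Q, Or.inl rfl⟩
  have ht : uE h2 A hA * tau * (uE h2 A hA)⁻¹ ∈ Rsub (Qs a b h) (neg_one_mem_Qs h) := by
    have e2 : uE h2 A hA * tau = zE * uE h2 A hA := by
      apply h4_ext
      rw [h4_coe_mul, h4_coe_mul, zE_coe_tens]
      show _ * tauMat = _
      rw [tauMat_eq]
      exact uE_tens h2 A hA 1 1 _ _ (by rw [mul_one, one_mul]) one_add_jS_X0
    rw [e2, mul_inv_cancel_right]
    exact Or.inl ⟨-1, neg_one_mem_Qs h, Or.inr (by rw [neg_neg]; rfl)⟩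
  apply mem_normalizer_of_finite
  rintro r (hr | hr)
  · exact hD r hr
  · have hr' : r = (r * tau) * tau := by rw [mul_assoc, tau_mul_self, mul_one]
    have e : uE h2 A hA * r * (uE h2 A hA)⁻¹ = (uE h2 A hA * (r * tau) * (uE h2 A hA)⁻¹)
        * (uE h2 A hA * tau * (uE h2 A hA)⁻¹) := by
      nth_rewrite 1 [hr']
      group
    rw [e]
    exact (Rsub _ _).mul_mem (hD _ hr) ht

/-- `φ(x, x)` is a product of `2`-elements normalizing `R` -/
theorem phi_xS_eq (h2 : (2 : F) ≠ 0) :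
    phi (xS h2 a b h) (xS h2 a b h) * (zE * tau)
      = uE h2 jS jS_trace * uE h2 (sS a b h) (sS_trace h) := by
  apply h4_ext
  rw [h4_coe_mul, h4_coe_mul, h4_coe_mul, phi_coe, phiMat_self, zE_coe_tens]
  show tens _ 1 * (tens 1 _ * tauMat) = _
  rw [tauMat_eq, uE_coe, uE_coe, tens_mul, tens_mul, tens_mul, one_add_sq _ jS_sq,
    Matrix.smul_mul, Matrix.mul_smul, smul_smul, xS_coe_eq]
  rw [mul_one, mul_one, one_mul, tens_smul, tens_smul, smul_smul]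
  congr 1
  rw [jS_coe]
  ext i j
  fin_cases i <;> fin_cases j <;> simp [Matrix.mul_apply, Fin.sum_univ_two] <;> field_simp

end rad

end Cfsg.Agent.Lib.Helper86.Sp4
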