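import Mathlib
import Cfsg.Agent.Lib.Helper86.Sp4Closed
import Cfsg.Agent.Lib.Helper86.Sp4Rad
import Cfsg.Agent.Lib.Helper86.QuotKer

set_option autoImplicit false
set_option linter.style.haveILetI false
set_option linter.unusedSectionVars false
set_option linter.dupNamespace false
set_option linter.unusedVariables false

/-! # The `2`-fusion system of `PSp₄(F)`, `F` of odd order, is simple -/

namespace Cfsg.Agent.Lib.Helper86.Sp4

open Matrix

section main
variable {F : Type*} [Field F] [Fintype F] {a b : F} (h : a * a + b * b = -1)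
include h

/-- **The `2`-fusion system of `PSp₄(F)` is simple**, `F` a finite field of odd order in which
`a² + b² = -1`. -/
theorem psp4_fusion_simple (h2 : (2 : F) ≠ 0)
    (S : Sylow 2 (H4 F ⧸ Subgroup.center (H4 F))) :
    (Cfsg.groupFusionSystem (S : Subgroup (H4 F ⧸ Subgroup.center (H4 F)))).IsSimple 2 := by
  have hUp : ∀ u ∈ Ssub (Qs a b h), ∃ n : ℕ, u ^ (2 ^ n) = 1 := Ssub_pow (Qs_pow h)
  have hidx : ¬ 2 ∣ (Ssub (Qs a b h)).index := not_dvd_index_of_normalizer 2 _ hUp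
    (fun g hg ⟨n, hn⟩ => mem_Ssub_of_normalizer_pow h h2 g hg n hn)
  have hnegU : negOne ∈ Ssub (Qs a b h) := phi_mem_Ssub.2 ⟨neg_one_mem_Qs h, neg_one_mem_Qs h⟩
  have hzU : zE ∈ Ssub (Qs a b h) := phi_mem_Ssub.2 ⟨neg_one_mem_Qs h, (Qs a b h).one_mem⟩
  have hker : ∀ z : H4 F, (QuotientGroup.mk' (Subgroup.center (H4 F))) z = 1 →
      z ∈ Ssub (Qs a b h) := by
    intro z hz
    rcases (mk_eq_one_iff z).1 hz with rfl | rfl
    · exact (Ssub (Qs a b h)).one_mem
    · exact hnegU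
  have hU1 : ∃ u ∈ Ssub (Qs a b h), (QuotientGroup.mk' (Subgroup.center (H4 F))) u ≠ 1 := by
    refine ⟨zE, hzU, fun hz => ?_⟩
    rcases (mk_eq_one_iff zE).1 hz with h1 | h1
    · exact zE_ne_one h2 h1
    · exact zE_ne_negOne h2 h1
  have ha : ∀ T : Subgroup (H4 F), T ≤ Ssub (Qs a b h) →
      (∀ z : H4 F, (QuotientGroup.mk' (Subgroup.center (H4 F))) z = 1 → z ∈ T) →
      (∃ x ∈ T, (QuotientGroup.mk' (Subgroup.center (H4 F))) x ≠ 1) →
      (∀ x ∈ T, ∀ g : H4 F, g * x * g⁻¹ ∈ Ssub (Qs a b h) → g * x * g⁻¹ ∈ T) →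
      T = Ssub (Qs a b h) := by
    intro T hTU hkerT hne hcl
    apply closed_eq h h2 T hTU (hkerT negOne ((mk_eq_one_iff _).2 (Or.inr rfl))) ?_ hcl
    obtain ⟨x, hx, hx1⟩ := hne
    exact ⟨x, hx, fun h1 => hx1 ((mk_eq_one_iff x).2 (Or.inl h1)),
      fun h1 => hx1 ((mk_eq_one_iff x).2 (Or.inr h1))⟩
  have hRU := Rsub_le_Ssub (Qs a b h) (neg_one_mem_Qs h)
  have hcentR : ∀ g : H4 F, (∀ r ∈ Rsub (Qs a b h) (neg_one_mem_Qs h),
      (QuotientGroup.mk' (Subgroup.center (H4 F))) (g * r)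
        = (QuotientGroup.mk' (Subgroup.center (H4 F))) (r * g)) →
      g ∈ Rsub (Qs a b h) (neg_one_mem_Qs h) := by
    intro g hg
    apply Rsub_self_centralizing h h2
    intro r hr
    exact (mk_eq_mk_iff _ _).1 (hg r hr)
  have hcentU : ∀ g : H4 F, (∀ r ∈ Ssub (Qs a b h),
      (QuotientGroup.mk' (Subgroup.center (H4 F))) (g * r)
        = (QuotientGroup.mk' (Subgroup.center (H4 F))) (r * g)) → g ∈ Ssub (Qs a b h) :=
    fun g hg => hRU (hcentR g (fun r hr => hg r (hRU hr)))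
  have hgensU : ∀ d ∈ Ssub (Qs a b h),
      d ∈ Subgroup.normalizer (Ssub (Qs a b h) : Set (H4 F)) ∧
      ∃ R : Subgroup (H4 F), R ≤ Ssub (Qs a b h) ∧
        Ssub (Qs a b h) ≤ Subgroup.normalizer (R : Set (H4 F)) ∧
        (∀ g : H4 F, (∀ r ∈ R, (QuotientGroup.mk' (Subgroup.center (H4 F))) (g * r)
          = (QuotientGroup.mk' (Subgroup.center (H4 F))) (r * g)) → g ∈ R) ∧
        d ∈ Subgroup.closure
          {m : H4 F | m ∈ Subgroup.normalizer (R : Set (H4 F)) ∧ ∃ n : ℕ, m ^ (2 ^ n) = 1} := by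
    intro d hd
    exact ⟨Subgroup.le_normalizer hd, Ssub (Qs a b h), le_rfl, Subgroup.le_normalizer, hcentU,
      Subgroup.subset_closure ⟨Subgroup.le_normalizer hd, hUp d hd⟩⟩
  rcases Qs_normalizer_structure h h2 with hB | ⟨hsq, hxN, hgenQ⟩
  · -- the normalizer of `S` is `S`
    apply isSimple_of_quotient_ker_le 2 (QuotientGroup.mk' (Subgroup.center (H4 F)))
      (QuotientGroup.mk'_surjective _) (Ssub (Qs a b h)) hUp hidx hker hU1 ha
      (Ssub (Qs a b h) : Set (H4 F)) ?_ hgensU S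
    intro g hg
    apply Subgroup.subset_closure
    obtain ⟨g₁, g₂, hg₁, hg₂, hq, h3 | h3⟩ := normalizer_form h h2 g hg
    · rw [h3]
      exact phi_mem_Ssub.2 ⟨hB g₁ hg₁, hB g₂ hg₂⟩
    · rw [h3]
      exact phi_tau_mem_Ssub.2 ⟨hB g₁ hg₁, hB g₂ hg₂⟩
  · -- the normalizer of `S` is `S⟨φ(x, x)⟩`
    apply isSimple_of_quotient_ker_le 2 (QuotientGroup.mk' (Subgroup.center (H4 F)))
      (QuotientGroup.mk'_surjective _) (Ssub (Qs a b h)) hUp hidx hker hU1 ha
      ((Ssub (Qs a b h) : Set (H4 F)) ∪ {phi (xS h2 a b h) (xS h2 a b h)}) ?_ ?_ S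
    · intro g hg
      have key : ∀ g₁ g₂ : L2 F, g₁ ∈ Subgroup.normalizer (Qs a b h : Set (L2 F)) →
          g₂ ∈ Subgroup.normalizer (Qs a b h : Set (L2 F)) → g₁ * g₂⁻¹ ∈ Qs a b h →
          phi g₁ g₂ ∈ Subgroup.closure
            ((Ssub (Qs a b h) : Set (H4 F)) ∪ {phi (xS h2 a b h) (xS h2 a b h)}) := by
        intro g₁ g₂ hg₁ hg₂ hq
        obtain ⟨j, q₂, hq₂, rfl⟩ := hgenQ g₂ hg₂
        have hxj : xS h2 a b h ^ j ∈ Subgroup.normalizer (Qs a b h : Set (L2 F)) :=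
          (Subgroup.normalizer _).pow_mem hxN j
        have hq₁ : (xS h2 a b h ^ j)⁻¹ * g₁ ∈ Qs a b h := by
          have e : (xS h2 a b h ^ j)⁻¹ * g₁ = ((xS h2 a b h ^ j)⁻¹
              * (g₁ * (xS h2 a b h ^ j * q₂)⁻¹) * ((xS h2 a b h ^ j)⁻¹)⁻¹) * q₂ := by group
          rw [e]
          exact (Qs a b h).mul_mem ((Subgroup.mem_normalizer_iff.1
            ((Subgroup.normalizer _).inv_mem hxj) _).1 hq) hq₂
        have e : phi g₁ (xS h2 a b h ^ j * q₂) = (phi (xS h2 a b h) (xS h2 a b h)) ^ j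
            * phi ((xS h2 a b h ^ j)⁻¹ * g₁) q₂ := by
          rw [phi_pow, phi_mul, mul_inv_cancel_left]
        rw [e]
        exact Subgroup.mul_mem _ (Subgroup.pow_mem _
          (Subgroup.subset_closure (Set.mem_union_right _ (Set.mem_singleton _))) j)
          (Subgroup.subset_closure (Set.mem_union_left _ (phi_mem_Ssub.2 ⟨hq₁, hq₂⟩)))
      obtain ⟨g₁, g₂, hg₁, hg₂, hq, h3 | h3⟩ := normalizer_form h h2 g hg
      · rw [h3]
        exact key g₁ g₂ hg₁ hg₂ hq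
      · rw [h3]
        exact Subgroup.mul_mem _ (key g₁ g₂ hg₁ hg₂ hq)
          (Subgroup.subset_closure (Set.mem_union_left _ (tau_mem_Ssub _)))
    · rintro d (hd | hd)
      · exact hgensU d hd
      · rw [Set.mem_singleton_iff] at hd
        subst hd
        refine ⟨phi_mem_normalizer h _ _ hxN hxN (by rw [mul_inv_cancel]; exact (Qs a b h).one_mem),
          Rsub (Qs a b h) (neg_one_mem_Qs h), hRU, Ssub_le_normalizer_Rsub h hsq, hcentR, ?_⟩
        have e : phi (xS h2 a b h) (xS h2 a b h)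
            = uE h2 jS jS_trace * uE h2 (sS a b h) (sS_trace h) * (zE * tau)⁻¹ := by
          rw [← phi_xS_eq, mul_inv_cancel_right]
        rw [e]
        refine Subgroup.mul_mem _ (Subgroup.mul_mem _
          (Subgroup.subset_closure ⟨uE_mem_normalizer h hsq h2 jS jS_trace jS_mul_self
            (jS_mem_Qs h), 2, uE_pow h2 jS jS_trace jS_mul_self⟩)
          (Subgroup.subset_closure ⟨uE_mem_normalizer h hsq h2 _ (sS_trace h) (sS_mul_self h)
            (sS_mem_Qs h), 2, uE_pow h2 _ (sS_trace h) (sS_mul_self h)⟩))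
          (Subgroup.inv_mem _ (Subgroup.subset_closure ⟨?_, ?_⟩))
        · apply Subgroup.le_normalizer
          exact (Rsub _ _).mul_mem
            (Or.inl ⟨-1, neg_one_mem_Qs h, Or.inr (by rw [neg_neg]; rfl)⟩) (tau_mem_Rsub _ _)
        · exact hUp _ ((Ssub (Qs a b h)).mul_mem hzU (tau_mem_Ssub _))

end main

end Cfsg.Agent.Lib.Helper86.Sp4
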